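import Mathlib
import Cfsg.Agent.H939.RgdMain
import Cfsg.Agent.KFacts.RgdFiltClass
import Cfsg.Agent.KFacts.RgdFiltChev
import Cfsg.Agent.KFacts.RgdLieCharP

/-!
Complemented subgroup lattices (S5900) of the simply laced groups of Lie type of rank `≥ 2`:
`PSL_n(q)`, `n ≥ 3`, `PΩ⁺_{2m}(q)`, `m ≥ 3`, `E₆(q)`, `E₇(q)`, `E₈(q)`.
-/

set_option autoImplicit false
set_option linter.unusedSectionVars false
set_option linter.dupNamespace false

namespace Cfsg.Agent.H939.InstSL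

open CoxeterSystem Cfsg.Agent.ChevalleyStructure.CoxeterGeom Cfsg.Agent.Tits.Roots Cfsg.Agent.Tits.Core
  Cfsg.Agent.Nodes.Reps Cfsg.Agent.Nodes.BNOf Cfsg.Agent.KFacts.RgdCharP Cfsg.Agent.KFacts.RgdFiltWitt
  Cfsg.Agent.KFacts.RgdLieCharP Cfsg.Agent.Nodes.RGDLib

universe u

/-- commutative simple groups -/
theorem cl_of_comm {G : Type*} [Group G] [Finite G] [IsSimpleGroup G] (hc : ∀ a b : G, a * b = b * a) :
    KLat.CL G := by
  let _ : CommGroup G := { (inferInstance : Group G) with mul_comm := hc }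
  exact KLat.of_prime (IsSimpleGroup.prime_card (α := G))

theorem center_bot {G : Type*} [Group G] [IsSimpleGroup G] (hc : ¬ ∀ a b : G, a * b = b * a) :
    Subgroup.center G = ⊥ := by
  rcases (IsSimpleGroup.eq_bot_or_eq_top_of_normal (Subgroup.center G) inferInstance) with h | h
  · exact h
  · exfalso
    apply hc
    intro a b
    have : b ∈ Subgroup.center G := h ▸ Subgroup.mem_top b
    exact (Subgroup.mem_center_iff.1 this a)

theorem cl_sl {p : ℕ} {G : Type*} [Group G] [Finite G] [IsSimpleGroup G] [Fact p.Prime] {l : ℕ}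
    {M : CoxeterMatrix (Fin l)} {A : Fin l → Fin l → ℤ} {h : IsCartan M A} {T : Subgroup G} {n : Fin l → G}
    {X : (Fin l → ℤ) → Subgroup G} (hW : Finite M.Group) (R : RGD M.toCoxeterSystem h p T n X)
    (hX : G1 M.toCoxeterSystem h X = ⊤) (h4 : ∀ i j, M i j ≠ 4) (h6 : ∀ i j, M i j ≠ 6) (i j : Fin l)
    (hM : M i j = 3) : KLat.CL G := by
  by_cases hc : ∀ a b : G, a * b = b * a
  · exact cl_of_comm hc
  exact RgdMain.cl_of_sl R (sl_of_ne h4 h6) h4 h6 hX (conn_of_simple R hX (center_bot hc)) hM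

theorem lt_four {a : ℕ} (h : a ≤ 3) : a ≠ 4 ∧ a ≠ 6 := by omega

theorem cl_PSL' {F : Type*} [Field F] [Finite F] (n : ℕ) (hn : 2 ≤ n) {p : ℕ} [Fact p.Prime] [CharP F p]
    [Finite (Matrix.ProjectiveSpecialLinearGroup (Fin (n + 1)) F)]
    [IsSimpleGroup (Matrix.ProjectiveSpecialLinearGroup (Fin (n + 1)) F)] :
    KLat.CL (Matrix.ProjectiveSpecialLinearGroup (Fin (n + 1)) F) := by
  have hc : ∀ i j : Fin n, Cfsg.Agent.LieRecognition.BNCox.cA n i j ≤ 3 := by
    intro i j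
    rw [Cfsg.Agent.LieRecognition.BNCox.cA_apply]
    show (if (i : ℕ) = j then 1 else if (i : ℕ) + 1 = j ∨ (j : ℕ) + 1 = i then 3 else 2) ≤ 3
    split_ifs <;> norm_num
  have hW : Finite (Cfsg.Agent.LieRecognition.BNCox.cA n).Group :=
    Nodes.RootsA.finite_W (Cfsg.Agent.LieRecognition.BNCox.cA n).toCoxeterSystem (Nodes.RootsA.isCartan n)
  refine cl_sl (h := Nodes.RootsA.isCartan n) hW (Nodes.RGDTypeA.rgd_psl (p := p) _ _)
    (Nodes.RGDTypeA.G1_psl_eq_top _ _)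
    (fun i j => (lt_four (hc i j)).1) (fun i j => (lt_four (hc i j)).2) ⟨0, by omega⟩ ⟨1, by omega⟩ ?_
  rw [Cfsg.Agent.LieRecognition.BNCox.cA_apply]
  rfl

section Orthogonal

open Cfsg.Agent.LieClassical Cfsg.Agent.LieClassical.OrthCore Cfsg.Agent.LieClassical.OrthTrans
open Cfsg.Agent.LieClassical.OrthSimple Cfsg.Agent.LieClassical.OrthFinite
open Cfsg.Agent.LieClassical.OrthForms
open Cfsg.Agent.TitsThree.WBridge Cfsg.Agent.TitsThree.KSideO Cfsg.Agent.TitsThree.StdData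
open Cfsg.Agent.Nodes.WittAll Cfsg.Agent.Nodes.WittInst

theorem cl_PO_plus {F : Type*} [Field F] [Finite F] (n : ℕ) {p : ℕ} [Fact p.Prime] [CharP F p]
    [Finite (Cfsg.POmega F (Cfsg.quadFormPlus (n + 3) F))]
    [IsSimpleGroup (Cfsg.POmega F (Cfsg.quadFormPlus (n + 3) F))] :
    KLat.CL (Cfsg.POmega F (Cfsg.quadFormPlus (n + 3) F)) := by
  revert ‹Finite (Cfsg.POmega F (Cfsg.quadFormPlus (n + 3) F))›
    ‹IsSimpleGroup (Cfsg.POmega F (Cfsg.quadFormPlus (n + 3) F))›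
  rw [← coe_plusForm]
  intro _ _
  have hG : Good (plusForm (n + 3) F) := by
    apply good_of_finite (nondeg_plusForm (n + 3) F)
    rw [Module.finrank_fintype_fun_eq_card, Fintype.card_sum, Fintype.card_fin]
    omega
  have hc : ∀ i j : Fin (n + 1 + 2), Nodes.TypeD.M (n + 1) i j ≤ 3 := by
    intro i j
    show (if i = j then 1 else if Nodes.TypeD.Adj i j ∨ Nodes.TypeD.Adj j i then 3 else 2) ≤ 3
    split_ifs <;> norm_num
  refine cl_sl (Nodes.TypeD.finite_W (Nodes.TypeD.M (n + 1)).toCoxeterSystem)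
    (rgdD_model (p := p) (wplus (n + 3) F) hG (amb_plus _) (adm_plus _) _)
    (G1D_eq_top (wplus (n + 3) F) (toPOmega hG) (toPOmega_surjective hG) (adm_plus _) _)
    (fun i j => (lt_four (hc i j)).1) (fun i j => (lt_four (hc i j)).2) ⟨0, by omega⟩ ⟨1, by omega⟩ ?_
  rw [Nodes.TypeD.M_apply, if_neg (by simp), if_pos]
  left
  unfold Nodes.TypeD.Adj
  left
  exact ⟨by show 1 < n + 1 + 1; omega, rfl⟩

end Orthogonal

section Exceptional

open Cfsg.Lie Cfsg.Agent.ChevalleyStructure Cfsg.Agent.ChevalleyStructure.Elts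
  Cfsg.Agent.ChevalleyStructure.RootVec Cfsg.Agent.ChevalleyStructure.RootVecTab
  Cfsg.Agent.ChevalleyStructure.NPerm Cfsg.Agent.ChevalleyStructure.CoxeterGeomTypes
open Cfsg.Agent.Nodes Cfsg.Agent.Nodes.RGDChev

theorem cl_group {D : ChevalleyDatum} {l : ℕ} {M : CoxeterMatrix (Fin l)} (hp : IsType D l M) (K : Type u)
    [Field K] [Finite K] (p : ℕ) [CharP K p] [Finite ↥(D.group K)] [IsSimpleGroup ↥(D.group K)]
    (h3 : ∀ i j, M i j ≤ 3) (i j : Fin l) (hM : M i j = 3) : KLat.CL ↥(D.group K) := by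
  have : Fact p.Prime := ⟨CharP.char_is_prime K p⟩
  exact cl_sl (finite_W hp M.toCoxeterSystem) (rgd (K := K) hp M.toCoxeterSystem p) (G1_eq_top hp _)
    (fun i j => (lt_four (h3 i j)).1) (fun i j => (lt_four (h3 i j)).2) i j hM

theorem E6_le (i j : Fin 6) : (CoxeterMatrix.E₆ i j : ℕ) ≤ 3 :=
  Nat.le_of_ble_eq_true ((by decide : ∀ i j : Fin 6, Nat.ble (CoxeterMatrix.E₆ i j) 3 = true) i j)
theorem E7_le (i j : Fin 7) : (CoxeterMatrix.E₇ i j : ℕ) ≤ 3 :=
  Nat.le_of_ble_eq_true ((by decide : ∀ i j : Fin 7, Nat.ble (CoxeterMatrix.E₇ i j) 3 = true) i j)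
theorem E8_le (i j : Fin 8) : (CoxeterMatrix.E₈ i j : ℕ) ≤ 3 :=
  Nat.le_of_ble_eq_true ((by decide : ∀ i j : Fin 8, Nat.ble (CoxeterMatrix.E₈ i j) 3 = true) i j)

theorem cl_E6 (K : Type u) [Field K] [Finite K] (p : ℕ) [CharP K p] [Finite ↥(chevE6.group K)]
    [IsSimpleGroup ↥(chevE6.group K)] : KLat.CL ↥(chevE6.group K) :=
  cl_group (l := 6) (M := CoxeterMatrix.E₆) (by simp [IsType, typeList]) K p E6_le 0 2 (by decide)

theorem cl_E7 (K : Type u) [Field K] [Finite K] (p : ℕ) [CharP K p] [Finite ↥(chevE7.group K)]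
    [IsSimpleGroup ↥(chevE7.group K)] : KLat.CL ↥(chevE7.group K) :=
  cl_group (l := 7) (M := CoxeterMatrix.E₇) (by simp [IsType, typeList]) K p E7_le 0 2 (by decide)

theorem cl_E8 (K : Type u) [Field K] [Finite K] (p : ℕ) [CharP K p] [Finite ↥(chevE8.group K)]
    [IsSimpleGroup ↥(chevE8.group K)] : KLat.CL ↥(chevE8.group K) :=
  cl_group (l := 8) (M := CoxeterMatrix.E₈) (by simp [IsType, typeList]) K p E8_le 0 2 (by decide)

end Exceptional

end Cfsg.Agent.H939.InstSL
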