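import Mathlib
import Cfsg.Agent.H939.RgdV

/-!
Bonds of order `4` (S5900): `B4 R r Z i j Zg` and `good_of_four`.
-/

set_option autoImplicit false
set_option linter.unusedSectionVars false
set_option linter.dupNamespace false

namespace Cfsg.Agent.H939.RgdB4

open CoxeterSystem Cfsg.Agent.ChevalleyStructure.CoxeterGeom Cfsg.Agent.Tits.Roots Cfsg.Agent.Tits.Core
  Cfsg.Agent.Tits.RootComb Cfsg.Agent.Tits.Exchange Cfsg.Agent.Nodes.Reps Cfsg.Agent.Nodes.BNOf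
  Cfsg.Agent.Nodes.StabComb Cfsg.Agent.Nodes.Bruhat Cfsg.Agent.Nodes.OppDec Cfsg.Agent.Nodes.LeviDec
  Cfsg.Agent.Nodes.NormX Cfsg.Agent.Nodes.Coroot Cfsg.Agent.KFacts.RgdSL Cfsg.Agent.Nodes.PosPair
  Cfsg.Agent.H939.RgdA Cfsg.Agent.H939.RgdP Cfsg.Agent.H939.RgdU Cfsg.Agent.H939.RgdMain
  Cfsg.Agent.H939.RgdTwo Cfsg.Agent.H939.RgdV Cfsg.Agent.KFacts.RgdCharP Cfsg.Agent.Nodes.Comb
open scoped commutatorElement

variable {I W Y : Type*} [Fintype I] [DecidableEq I] [Group W] [Group Y] {M : CoxeterMatrix I}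
  {cs : CoxeterSystem M W} {A : I → I → ℤ} {h : IsCartan M A} {p : ℕ} {T : Subgroup Y} {n : I → Y}
  {X : (I → ℤ) → Subgroup Y}

/-- the local data at a bond `{i, j}` of order `4`: `β = s_i(α_j)`, `γ = s_j(α_i)`, `Zg ≤ X γ` a member of the class -/
structure B4 (R : RGD cs h p T n X) (r : I → ℤ) (Z : Subgroup Y) (i j : I) (Zg : Subgroup Y) : Prop where
  m4 : M i j = 4
  ex : ∃ (v : W) (k : Y), Rp cs R.nsys v k ∧ rep cs h v r = rep cs h (cs.simple j) (sr i) ∧ Zg = cj k Z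
  c1 : ∀ a ∈ X (sr j), ∀ b ∈ X (rep cs h (cs.simple i) (sr j)), ⁅a, b⁆ ∈ X (rep cs h (cs.simple j) (sr i))
  c2 : ∀ a ∈ X (sr j), ∀ c ∈ X (rep cs h (cs.simple j) (sr i)), a * c = c * a
  c3 : ∀ b ∈ X (rep cs h (cs.simple i) (sr j)), ∀ c ∈ X (rep cs h (cs.simple j) (sr i)), b * c = c * b
  c4 : ∀ b ∈ X (rep cs h (cs.simple i) (sr j)), ∀ b' ∈ X (rep cs h (cs.simple i) (sr j)), b * b' = b' * b
  c5 : ∀ z ∈ Zg, ∀ c ∈ X (rep cs h (cs.simple j) (sr i)), z * c = c * z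
  c6 : ∀ z ∈ Zg, ∀ a ∈ X (sr i), z * a = a * z
  c7 : ∀ z ∈ Zg, ∀ a ∈ X (-sr i), z * a = a * z
  nd : ∀ a ∈ X (sr j), a ≠ 1 → ∃ y ∈ X (rep cs h (cs.simple i) (sr j)), ⁅y, a⁆ ∈ Zg ∧ ⁅y, a⁆ ≠ 1
  mu : ∀ z ∈ Zg, z ≠ 1 → ∀ (w : W) (m : Y), Rp cs R.nsys w m →
    rep cs h w (rep cs h (cs.simple j) (sr i)) = -rep cs h (cs.simple j) (sr i) →
    ∃ c ∈ cj m Zg ⊔ cj z (cj m Zg), c ∈ Zg ∧ c ≠ 1

/-- opposite members do not generate a `p`-group -/
theorem not_pgroup [Finite W] [Finite Y] [Fact p.Prime] {R : RGD cs h p T n X} {r : I → ℤ} {Z : Subgroup Y}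
    (L : Long R r Z) {w : W} {s : Y} (hs : Rp cs R.nsys w s) (hw : rep cs h w r = -r) :
    ¬ IsPGroup p ↥(Z ⊔ cj s Z) := by
  intro hp
  obtain ⟨v, i, hv⟩ := L.root
  obtain ⟨k, hk⟩ := exists_rp cs R.nsys v
  have hXr : X r = cj k (X (sr i)) := by rw [R.conj_rp hk (isRoot_sr cs h i), hv]
  have hXr' : X (-r) = cj k (X (-sr i)) := by rw [R.conj_rp hk (isRoot_sr cs h i).neg, map_neg, hv]
  have hZ1 : cj k⁻¹ Z ≤ X (sr i) := by
    have := cj_mono k⁻¹ (L.le.trans hXr.le)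
    rwa [cj_inv_cj] at this
  have hZ2 : cj k⁻¹ (cj s Z) ≤ X (-sr i) := by
    have h1 : cj s Z ≤ X (-r) := by
      rw [← hw, ← R.conj_rp hs L.root]
      exact cj_mono s L.le
    have := cj_mono k⁻¹ (h1.trans hXr'.le)
    rwa [cj_inv_cj] at this
  have hP := isPGroup_cj R (g := k⁻¹) hp
  rw [cj_sup] at hP
  have hXL : X (sr i) ≤ LJ cs h T X {i} :=
    X_le_LJ (PosJ_subset _ (sr_mem_PosJ (Set.mem_singleton i)))
  have hXL' : X (-sr i) ≤ LJ cs h T X {i} :=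
    X_le_LJ (RootsJ.neg (PosJ_subset _ (sr_mem_PosJ (Set.mem_singleton i))))
  have hle : cj k⁻¹ Z ⊔ cj k⁻¹ (cj s Z) ≤ LJ cs h T X {i} :=
    sup_le (hZ1.trans hXL) (hZ2.trans hXL')
  obtain ⟨⟨z, hz⟩, hz1⟩ := Subgroup.ne_bot_iff_exists_ne_one.1 L.ne
  have hz1' : z ≠ 1 := fun h3 => hz1 (Subtype.ext h3)
  have hk1 : k⁻¹ * z * k ≠ 1 := fun h3 => hz1' (by
    have : z = k * (k⁻¹ * z * k) * k⁻¹ := by group
    rw [this, h3]; group)
  have hz2 : k⁻¹ * z * k ∈ cj k⁻¹ Z := by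
    have := conj_mem_cj (g := k⁻¹) (A := Z).2 hz
    rwa [inv_inv] at this
  have h1 := le_X_of_meet R hP hle (by
    intro h3
    apply hk1
    have : k⁻¹ * z * k ∈ (cj k⁻¹ Z ⊔ cj k⁻¹ (cj s Z)) ⊓ X (sr i) := ⟨Subgroup.mem_sup_left hz2, hZ1 hz2⟩
    rwa [h3, Subgroup.mem_bot] at this)
  have hs2 : s * z * s⁻¹ ∈ cj s Z := conj_mem_cj.2 hz
  have hz3 : k⁻¹ * (s * z * s⁻¹) * k ∈ cj k⁻¹ (cj s Z) := by
    have := conj_mem_cj (g := k⁻¹) (A := cj s Z).2 hs2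
    rwa [inv_inv] at this
  have hne : sr i ≠ (-sr i : I → ℤ) := by
    intro h5
    have h6 := congrFun h5 i
    rw [Pi.neg_apply, sr_self] at h6
    omega
  have h2 : k⁻¹ * (s * z * s⁻¹) * k ∈ X (sr i) ⊓ X (-sr i) := ⟨h1 (Subgroup.mem_sup_right hz3), hZ2 hz3⟩
  rw [X_inf_X R (isRoot_sr cs h i) (isRoot_sr cs h i).neg hne, Subgroup.mem_bot] at h2
  apply hz1'
  have : z = s⁻¹ * (k * (k⁻¹ * (s * z * s⁻¹) * k) * k⁻¹) * s := by group
  rw [this, h2]; group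

/-- a nontrivial element of a member moves the opposite member -/
theorem cj_ne [Finite W] [Finite Y] [Fact p.Prime] {R : RGD cs h p T n X} {r : I → ℤ} {Z : Subgroup Y}
    (L : Long R r Z) {w : W} {s : Y} (hs : Rp cs R.nsys w s) (hw : rep cs h w r = -r) {x : Y} (hx : x ∈ Z)
    (hx1 : x ≠ 1) : cj x (cj s Z) ≠ cj s Z := by
  intro he
  obtain ⟨g, h1, h2⟩ := r1 L hs hw hx hx1
  rw [he] at h2
  have h3 := not_pgroup L hs hw
  apply h3
  have h4 : cj g (Z ⊔ cj s Z) = cj s Z := by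
    have e1 : cj g (cj s Z) = cj s Z := (cj_mul g s Z).symm.trans h2.symm
    rw [cj_sup, e1, h1.symm, sup_idem]
  have h5 : IsPGroup p ↥(cj s Z) := by
    have h6 : IsPGroup p ↥Z := (R.pgrp' L.root).to_le L.le
    exact isPGroup_cj R h6
  have h6 : Z ⊔ cj s Z = cj g⁻¹ (cj s Z) := (cj_inv_cj g _).symm.trans (congrArg (cj g⁻¹) h4)
  rw [h6]
  exact isPGroup_cj R h5

variable {R : RGD cs h p T n X} {r : I → ℤ} {Z : Subgroup Y} {i j : I} {Zg : Subgroup Y}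

section

variable (D : B4 R r Z i j Zg) (L : Long R r Z)

include D L

theorem Zg_le [Finite W] : Zg ≤ X (rep cs h (cs.simple j) (sr i)) := by
  obtain ⟨v, k, hk, hv, rfl⟩ := D.ex
  rw [← hv, ← R.conj_rp hk L.root]
  exact cj_mono k L.le

theorem T_le_norm : T ≤ Subgroup.normalizer (Zg : Set Y) := by
  obtain ⟨v, k, hk, hv, rfl⟩ := D.ex
  rw [normalizer_cj, ← cj_T R hk]
  exact cj_mono k (RGD.T_le_B.trans L.B)

theorem BJ_le_norm [Finite W] : BJ cs h T X {i, j} ≤ Subgroup.normalizer (Zg : Set Y) := by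
  have key : ∀ K : Subgroup Y, (∀ z ∈ Zg, ∀ a ∈ K, z * a = a * z) → K ≤ Subgroup.normalizer (Zg : Set Y) := by
    intro K hK
    have h1 : K ≤ Subgroup.centralizer (Zg : Set Y) := by
      intro a ha
      rw [Subgroup.mem_centralizer_iff]
      intro z hz
      exact hK z hz a ha
    exact h1.trans (Subgroup.centralizer_le_normalizer _)
  unfold BJ
  refine sup_le (T_le_norm D L) (RGD.Sup_le fun x hx => ?_)
  rcases four_cases D.m4 hx.1 (supp_iff.2 hx.2.2) hx.2.1 with rfl | rfl | rfl | rfl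
  · exact key _ D.c6
  · exact key _ fun z hz a ha => (D.c2 a ha z (Zg_le D L hz)).symm
  · exact key _ fun z hz a ha => (D.c3 a ha z (Zg_le D L hz)).symm
  · exact key _ D.c5

theorem comm_of_pgroup [Finite W] [Finite Y] [Fact p.Prime] {g : Y} (hg : g ∈ LJ cs h T X {i, j})
    (hp : IsPGroup p ↥(Zg ⊔ cj g Zg)) : ∀ a ∈ Zg, ∀ b ∈ cj g Zg, a * b = b * a := by
  have := Fintype.ofFinite W
  have hM := D.m4
  have hij : i ≠ j := by
    rintro rfl
    rw [M.diagonal] at hM; omega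
  obtain ⟨w, hw, b₁, hb₁, k, hk, b₂, hb₂, rfl⟩ := exists_cellJ R hg
  have hN := BJ_le_norm D L
  have e1 : cj (b₁ * k * b₂) Zg = cj b₁ (cj k Zg) := by
    rw [cj_mul, mem_normalizer_iff_cj.1 (hN hb₂), cj_mul]
  have e2 : Zg = cj b₁ Zg := (mem_normalizer_iff_cj.1 (hN hb₁)).symm
  -- it is enough to treat `(Zg, cj k Zg)`
  suffices hmain : ∀ a ∈ Zg, ∀ b ∈ cj k Zg, a * b = b * a by
    intro a ha b hb
    rw [e1, mem_cj] at hb
    have ha' : b₁⁻¹ * a * b₁ ∈ Zg := by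
      rw [e2] at ha
      exact mem_cj.1 ha
    have h1 := hmain _ ha' _ hb
    have h2 : a * b = b₁ * ((b₁⁻¹ * a * b₁) * (b₁⁻¹ * b * b₁)) * b₁⁻¹ := by group
    rw [h2, h1]; group
  have hp' : IsPGroup p ↥(Zg ⊔ cj k Zg) := by
    rw [e1] at hp
    have h1 : Zg ⊔ cj b₁ (cj k Zg) = cj b₁ (Zg ⊔ cj k Zg) := by rw [cj_sup, ← e2]
    rw [h1] at hp
    have h2 := isPGroup_cj R (g := b₁⁻¹) hp
    rwa [cj_inv_cj] at h2
  obtain ⟨v, k₀, hk₀, hv, hZg⟩ := D.ex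
  set γ := rep cs h (cs.simple j) (sr i) with hγ
  have hγr : IsRoot cs h γ := (isRoot_sr cs h i).act _
  have hs : Supp i j (rep cs h w γ) := by
    refine supp_rep cs h hw ?_
    rw [hγ]
    exact supp_rep cs h (Subgroup.subset_closure ⟨j, Or.inr rfl, rfl⟩) (supp_sr_left i j)
  have hlen : form cs h (sr i) (sr i) ≠ form cs h (sr j) (sr j) := by
    intro he
    have h1 := form_simple_rel (cs := cs) (h := h) hij
    have h2 := form_pos cs h (isRoot_sr cs h j).ne_zero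
    rw [he] at h1
    have h3 := mul_right_cancel₀ h2.ne' h1
    rcases h.rel i j hij with h4 | h4 | ⟨-, h4 | h4⟩ | h4 <;> omega
  have hfγ : form cs h (rep cs h w γ) (rep cs h w γ) = form cs h (sr i) (sr i) := by
    rw [form_rep, hγ, form_rep]
  have hcases : ∀ δ : I → ℤ, IsRoot cs h δ → Supp i j δ → 0 ≤ δ →
      form cs h δ δ = form cs h (sr i) (sr i) → δ = sr i ∨ δ = γ := by
    intro δ hδ hδs hδ0 hf
    rcases four_cases hM hδ hδs hδ0 with h1 | h1 | h1 | h1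
    · exact Or.inl h1
    · exfalso
      apply hlen
      rw [← hf, h1]
    · exfalso
      apply hlen
      rw [← hf, h1, form_rep]
    · exact Or.inr h1
  have hkle : cj k Zg ≤ X (rep cs h w γ) := by
    rw [← R.conj_rp hk hγr]
    exact cj_mono k (Zg_le D L)
  have hneg : form cs h (-rep cs h w γ) (-rep cs h w γ) = form cs h (sr i) (sr i) := by
    rw [form_neg_left, form_neg_right, neg_neg, hfγ]
  rcases (hγr.act w).pos_or_neg with h0 | h0
  · rcases hcases _ (hγr.act w) hs h0 hfγ with h1 | h1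
    · intro a ha b hb
      exact D.c6 a ha b (by rw [← h1]; exact hkle hb)
    · intro a ha b hb
      exact D.c5 a ha b (by rw [h1] at hkle; exact hkle hb)
  · rcases hcases _ (hγr.act w).neg hs.neg (neg_nonneg.2 h0) hneg with h1 | h1
    · intro a ha b hb
      refine D.c7 a ha b ?_
      rw [← h1, neg_neg]
      exact hkle hb
    · exfalso
      have h2 : rep cs h (v⁻¹ * w * v) r = -r := by
        rw [rep_mul_apply, rep_mul_apply, hv, ← neg_neg (rep cs h w γ), h1, map_neg, ← hv, rep_inv_apply]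
      have h3 := (hk₀.inv.mul hk).mul hk₀
      refine not_pgroup L h3 h2 ?_
      have h4 : Z ⊔ cj (k₀⁻¹ * k * k₀) Z = cj k₀⁻¹ (Zg ⊔ cj k Zg) := by
        rw [hZg, cj_sup, cj_inv_cj, ← cj_mul, ← cj_mul]
      rw [h4]
      exact isPGroup_cj R hp'

theorem QQ_four [Finite W] {l : Y} (hl : l ∈ QQ cs h X i j) :
    ∃ a ∈ X (sr j), ∃ b ∈ X (rep cs h (cs.simple i) (sr j)), ∃ c ∈ X (rep cs h (cs.simple j) (sr i)),
      l = a * b * c := by
  set β := rep cs h (cs.simple i) (sr j) with hβ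
  set γ := rep cs h (cs.simple j) (sr i) with hγ
  have hN : ∀ (K K' : Subgroup Y), (∀ a ∈ K, ∀ b ∈ K', a * b * a⁻¹ ∈ K') →
      K ≤ Subgroup.normalizer (K' : Set Y) := by
    intro K K' h1 a ha
    rw [Subgroup.mem_normalizer_iff]
    intro b
    refine ⟨h1 a ha b, fun h2 => ?_⟩
    have h3 := h1 a⁻¹ (inv_mem ha) _ h2
    have e : a⁻¹ * (a * b * a⁻¹) * a⁻¹⁻¹ = b := by group
    rwa [e] at h3
  have h3 : X β ≤ Subgroup.normalizer (X γ : Set Y) := by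
    refine hN _ _ fun a ha b hb => ?_
    rw [D.c3 a ha b hb, mul_inv_cancel_right]; exact hb
  have h4 : X (sr j) ≤ Subgroup.normalizer ((X β ⊔ X γ : Subgroup Y) : Set Y) := by
    refine hN _ _ fun a ha b hb => ?_
    have h5 : b ∈ ((X β ⊔ X γ : Subgroup Y) : Set Y) := hb
    rw [Subgroup.coe_mul_of_left_le_normalizer_right _ _ h3, Set.mem_mul] at h5
    obtain ⟨b', hb', c, hc, rfl⟩ := h5
    have e : a * (b' * c) * a⁻¹ = ⁅a, b'⁆ * b' * (a * c * a⁻¹) := by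
      rw [commutatorElement_def]; group
    rw [e, D.c2 a ha c hc, mul_inv_cancel_right]
    exact mul_mem (mul_mem (Subgroup.mem_sup_right (D.c1 a ha b' hb')) (Subgroup.mem_sup_left hb'))
      (Subgroup.mem_sup_right hc)
  have h1 : QQ cs h X i j ≤ X (sr j) ⊔ (X β ⊔ X γ) := by
    refine RGD.Sup_le fun x hx => ?_
    rcases four_cases D.m4 hx.1.1 (supp_iff.2 hx.1.2.2) hx.1.2.1 with rfl | rfl | rfl | rfl
    · exact absurd rfl hx.2
    · exact le_sup_left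
    · exact le_sup_left.trans le_sup_right
    · exact le_sup_right.trans le_sup_right
  have h5 : l ∈ ((X (sr j) ⊔ (X β ⊔ X γ) : Subgroup Y) : Set Y) := h1 hl
  rw [Subgroup.coe_mul_of_left_le_normalizer_right _ _ h4, Set.mem_mul] at h5
  obtain ⟨a, ha, b, hb, rfl⟩ := h5
  have h6 : b ∈ ((X β ⊔ X γ : Subgroup Y) : Set Y) := hb
  rw [Subgroup.coe_mul_of_left_le_normalizer_right _ _ h3, Set.mem_mul] at h6
  obtain ⟨b', hb', c, hc, rfl⟩ := h6
  exact ⟨a, ha, b', hb', c, hc, (mul_assoc _ _ _).symm⟩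

/-- **bonds of order `4`** -/
theorem good_of_four [Finite W] [Finite Y] [Fact p.Prime] (hG : GG cs h T X = ⊤) (hi : Good R r Z i) :
    Good R r Z j := by
  have := Fintype.ofFinite W
  have hM := D.m4
  have hij : i ≠ j := by
    rintro rfl
    rw [M.diagonal] at hM; omega
  obtain ⟨w₀, hw₀⟩ := exists_neg (cs := cs) (h := h) L.root
  obtain ⟨s₀, hs₀⟩ := exists_rp cs R.nsys w₀
  obtain ⟨v, k₀, hk₀, hv, hZg⟩ := D.ex
  intro u hu x hx
  have hDi := hi u hu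
  by_contra hcon
  obtain ⟨l, hl, q, hq, rfl⟩ := V_decomp R (j := j) (hDi hx)
  have hlL : l ∈ LJ cs h T X {i, j} := QQ_le_LJ hl
  obtain ⟨a, ha, b, hb, c, hc, rfl⟩ := QQ_four D L hl
  set β := rep cs h (cs.simple i) (sr j) with hβ
  set γ := rep cs h (cs.simple j) (sr i) with hγ
  have hLn := LJ_le_normalizer_VJ R ({i, j} : Set I)
  have hβr : IsRoot cs h β := (isRoot_sr cs h j).act _
  have hγr : IsRoot cs h γ := (isRoot_sr cs h i).act _
  have hβ0 : 0 ≤ β := (isRoot_sr cs h j).simple_nonneg (sr_nonneg j) i (fun h1 => hij (by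
    have h2 := congrFun h1 i
    rw [sr_self, sr_ne hij] at h2
    omega))
  have hγ0 : 0 ≤ γ := (isRoot_sr cs h i).simple_nonneg (sr_nonneg i) j (fun h1 => hij (by
    have h2 := congrFun h1 j
    rw [sr_self, sr_ne hij.symm] at h2
    omega))
  have hAne : A i j < 0 ∧ A j i < 0 := by
    rcases h.rel i j hij with h4 | h4 | ⟨-, h4 | h4⟩ | h4 <;> omega
  have hβi : 0 < β i := by
    rw [hβ, rep_simple_sr', Pi.sub_apply, Pi.smul_apply, smul_eq_mul, sr_self, sr_ne hij]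
    omega
  have hγi : 0 < γ i := by
    rw [hγ, rep_simple_sr', Pi.sub_apply, Pi.smul_apply, smul_eq_mul, sr_self, sr_ne hij]
    omega
  have hbV : b ∈ VJ cs h X {j} := RGD.le_Sup (S := NotJ cs h {j}) ⟨hβr, hβ0, i, hij, hβi⟩ hb
  have hcV : c ∈ VJ cs h X {j} := RGD.le_Sup (S := NotJ cs h {j}) ⟨hγr, hγ0, i, hij, hγi⟩ hc
  have ha1 : a ≠ 1 := by
    rintro rfl
    apply hcon
    rw [one_mul]
    exact mul_mem (mul_mem hbV hcV) (VJ_pair_le' hq)
  obtain ⟨y, hy, hz, hz1⟩ := D.nd a ha ha1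
  set z := ⁅y, a⁆ with hzdef
  have hzγ := Zg_le D L hz
  -- `z` commutes with `l`
  have hza : z * a = a * z := (D.c2 a ha z hzγ).symm
  have hzb : z * b = b * z := (D.c3 b hb z hzγ).symm
  have hzc : z * c = c * z := D.c5 z hz c hc
  set l := a * b * c with hldef
  have hzl : z * l = l * z := by
    rw [hldef]
    calc z * (a * b * c) = (z * a) * b * c := by group
      _ = a * (z * b) * c := by rw [hza]; group
      _ = a * b * (z * c) := by rw [hzb]; group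
      _ = a * b * c * z := by rw [hzc]; group
  have hyl : y * l * y⁻¹ = z * l := by
    have h1 : y * b * y⁻¹ = b := by rw [D.c4 y hy b hb, mul_inv_cancel_right]
    have h2 : y * c * y⁻¹ = c := by rw [D.c3 y hy c hc, mul_inv_cancel_right]
    have h3 : y * a * y⁻¹ = z * a := by rw [hzdef, commutatorElement_def]; group
    calc y * l * y⁻¹ = (y * a * y⁻¹) * (y * b * y⁻¹) * (y * c * y⁻¹) := by rw [hldef]; group
      _ = z * l := by rw [h1, h2, h3, hldef]; group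
  have hβPos : y ∈ RGD.Sup X (RGD.Pos cs h) := RGD.le_Sup (S := RGD.Pos cs h) ⟨hβr, hβ0⟩ hy
  have hx' : y * (l * q) * y⁻¹ ∈ DD cs h X u :=
    DD_conj hx (mul_mem (mul_mem hβPos hx.1) (inv_mem hβPos))
  have hyL : y ∈ LJ cs h T X {i, j} := by
    refine X_le_LJ (x := β) ⟨hβr, supp_iff.1 ?_⟩ hy
    exact supp_rep cs h (Subgroup.subset_closure ⟨i, Or.inl rfl, rfl⟩) (supp_sr_right i j)
  have hyq : y * q * y⁻¹ ∈ VJ cs h X {i, j} := (Subgroup.mem_normalizer_iff.1 (hLn hyL) q).1 hq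
  have ex' : y * (l * q) * y⁻¹ = (z * l) * (y * q * y⁻¹) := by rw [← hyl]; group
  rw [ex'] at hx'
  -- the opposite member
  set m := n j * n i * n j with hm
  have hmr : Rp cs R.nsys (cs.simple j * cs.simple i * cs.simple j) m :=
    ((rp_simple cs R.nsys j).mul (rp_simple cs R.nsys i)).mul (rp_simple cs R.nsys j)
  have hmγ : rep cs h (cs.simple j * cs.simple i * cs.simple j) γ = -γ := by
    rw [hγ, rep_mul_apply, rep_mul_apply, ← rep_mul_apply cs h (cs.simple j) (cs.simple j),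
      cs.simple_mul_simple_self, map_one, Module.End.one_apply, rep_simple_sr, map_neg]
  have hmL : m ∈ LJ cs h T X {i, j} :=
    mul_mem (mul_mem (n_mem_LJ R (Set.mem_insert_of_mem i (Set.mem_singleton j)))
      (n_mem_LJ R (Set.mem_insert i _))) (n_mem_LJ R (Set.mem_insert_of_mem i (Set.mem_singleton j)))
  set Am := cj m Zg with hAm
  have hγL : X γ ≤ LJ cs h T X {i, j} := by
    refine X_le_LJ (x := γ) ⟨hγr, supp_iff.1 ?_⟩
    exact supp_rep cs h (Subgroup.subset_closure ⟨j, Or.inr rfl, rfl⟩) (supp_sr_left i j)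
  have hAmL : Am ≤ LJ cs h T X {i, j} := by
    rw [hAm, ← cj_eq_of_mem hmL]
    exact cj_mono m ((Zg_le D L).trans hγL)
  -- key: if `l' q'` does not move a member, then `Am` commutes with `cj l' Am`
  have key : ∀ l' ∈ LJ cs h T X {i, j}, ∀ q' ∈ VJ cs h X {i, j}, ¬ Mv R r Z (l' * q') →
      ∀ e ∈ Am, ∀ f ∈ Am, e * (l' * f * l'⁻¹) = (l' * f * l'⁻¹) * e := by
    intro l' hl' q' hq' hnm
    have hcjm : Am = cj (m * k₀) Z := by
      have e1 : cj m (cj k₀ Z) = cj (m * k₀) Z := (cj_mul m k₀ Z).symm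
      rw [hAm, hZg]; exact e1
    have hP : IsPGroup p ↥(cj (m * k₀) Z ⊔ cj (l' * q' * (m * k₀)) Z) := by
      rcases opp_or_pgroup L hG hs₀ hw₀ (m * k₀) (l' * q' * (m * k₀)) with h1 | h1
      · exact absurd ⟨w₀, s₀, hs₀, hw₀, _, h1⟩ hnm
      · exact h1
    have hcjm2 : cj (l' * q' * (m * k₀)) Z = cj (l' * q') Am := by rw [hcjm, ← cj_mul]
    rw [← hcjm, hcjm2] at hP
    set P₀ := Am ⊔ cj (l' * q') Am with hP₀
    have hVp : IsPGroup p ↥(VJ cs h X {i, j}) := R.isPGroup_of_pos (S := NotJ cs h {i, j}) fun _ hx => ⟨hx.1, hx.2.1⟩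
    have hP₀N : P₀ ≤ Subgroup.normalizer (VJ cs h X {i, j} : Set Y) := by
      refine sup_le (hAmL.trans hLn) ?_
      intro t ht
      rw [mem_cj] at ht
      have e : t = l' * q' * ((l' * q')⁻¹ * t * (l' * q')) * (l' * q')⁻¹ := by group
      rw [e]
      have h2 : l' * q' ∈ Subgroup.normalizer (VJ cs h X {i, j} : Set Y) :=
        mul_mem (hLn hl') (Subgroup.le_normalizer hq')
      exact mul_mem (mul_mem h2 (hLn (hAmL ht))) (inv_mem h2)
    have hP₁ : IsPGroup p ↥(P₀ ⊔ VJ cs h X {i, j}) := IsPGroup.to_sup_of_normal_right' hP hVp hP₀N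
    have hle : cj l' Am ≤ P₀ ⊔ VJ cs h X {i, j} := by
      intro t ht
      rw [mem_cj] at ht
      set f := l'⁻¹ * t * l' with hf
      have h4 : (l' * q') * f * (l' * q')⁻¹ ∈ P₀ := Subgroup.mem_sup_right (conj_mem_cj.2 ht)
      have h5 : f⁻¹ * (q' * f * q'⁻¹) ∈ VJ cs h X {i, j} := by
        have h6 : f⁻¹ * q' * f ∈ VJ cs h X {i, j} := by
          have := (Subgroup.mem_normalizer_iff.1 (hLn (inv_mem (hAmL ht))) q').1 hq'
          rwa [inv_inv] at this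
        have e : f⁻¹ * (q' * f * q'⁻¹) = (f⁻¹ * q' * f) * q'⁻¹ := by group
        rw [e]; exact mul_mem h6 (inv_mem hq')
      have h6 : l' * (f⁻¹ * (q' * f * q'⁻¹))⁻¹ * l'⁻¹ ∈ VJ cs h X {i, j} :=
        (Subgroup.mem_normalizer_iff.1 (hLn hl') _).1 (inv_mem h5)
      have e : t = ((l' * q') * f * (l' * q')⁻¹) * (l' * (f⁻¹ * (q' * f * q'⁻¹))⁻¹ * l'⁻¹) := by
        rw [hf]; group
      rw [e]
      exact mul_mem (Subgroup.mem_sup_left h4) (Subgroup.mem_sup_right h6)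
    have hP₂ : IsPGroup p ↥(Am ⊔ cj l' Am) :=
      hP₁.to_le (sup_le ((le_sup_left : Am ≤ P₀).trans le_sup_left) hle)
    have hP₃ : IsPGroup p ↥(Zg ⊔ cj (m⁻¹ * l' * m) Zg) := by
      have h1 := isPGroup_cj R (g := m⁻¹) hP₂
      have e : cj m⁻¹ (Am ⊔ cj l' Am) = Zg ⊔ cj (m⁻¹ * l' * m) Zg := by
        rw [cj_sup, hAm, cj_inv_cj, ← cj_mul, ← cj_mul, mul_assoc]
      rwa [e] at h1
    have h7 := comm_of_pgroup D L (mul_mem (mul_mem (inv_mem hmL) hl') hmL) hP₃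
    intro e he f hf
    have he' : m⁻¹ * e * m ∈ Zg := mem_cj.1 he
    have hf' : m⁻¹ * f * m ∈ Zg := mem_cj.1 hf
    have h8 : (m⁻¹ * l' * m) * (m⁻¹ * f * m) * (m⁻¹ * l' * m)⁻¹ ∈ cj (m⁻¹ * l' * m) Zg := conj_mem_cj.2 hf'
    have h9 := h7 _ he' _ h8
    have e1 : e * (l' * f * l'⁻¹) = m * ((m⁻¹ * e * m) * ((m⁻¹ * l' * m) * (m⁻¹ * f * m) * (m⁻¹ * l' * m)⁻¹)) * m⁻¹ := by
      group
    rw [e1, h9]; group
  have hzL : z ∈ LJ cs h T X {i, j} := hγL hzγ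
  have K1 := key l hlL q hq (hu _ hx)
  have K2 := key (z * l) (mul_mem hzL hlL) _ hyq (hu _ hx')
  -- conclusion
  obtain ⟨c₀, hc₀, hc₀Z, hc₀1⟩ := D.mu z hz hz1 _ m hmr hmγ
  have hlc : l * c₀ = c₀ * l := by
    have hcγ := Zg_le D L hc₀Z
    have h1 : c₀ * a = a * c₀ := (D.c2 a ha c₀ hcγ).symm
    have h2 : c₀ * b = b * c₀ := (D.c3 b hb c₀ hcγ).symm
    have h3 : c₀ * c = c * c₀ := D.c5 c₀ hc₀Z c hc
    rw [hldef]
    calc a * b * c * c₀ = a * b * (c * c₀) := by group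
      _ = a * (b * c₀) * c := by rw [← h3]; group
      _ = (a * c₀) * b * c := by rw [← h2]; group
      _ = c₀ * (a * b * c) := by rw [← h1]; group
  have hcomm : ∀ e ∈ Am, c₀ * e = e * c₀ := by
    intro e he
    have h1 : Am ⊔ cj z Am ≤ Subgroup.centralizer {l⁻¹ * e * l} := by
      refine sup_le ?_ ?_
      · intro f hf
        rw [Subgroup.mem_centralizer_singleton_iff]
        have h2 := K1 e he f hf
        have h3 : f * (l⁻¹ * e * l) = l⁻¹ * ((l * f * l⁻¹) * e) * l := by group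
        rw [h3, ← h2]; group
      · intro f hf
        rw [mem_cj] at hf
        rw [Subgroup.mem_centralizer_singleton_iff]
        have h2 := K2 e he _ hf
        have h4 : (z * l) * (z⁻¹ * f * z) * (z * l)⁻¹ = l * f * l⁻¹ := by rw [hzl]; group
        rw [h4] at h2
        have h3 : f * (l⁻¹ * e * l) = l⁻¹ * ((l * f * l⁻¹) * e) * l := by group
        rw [h3, ← h2]; group
    have h2 := Subgroup.mem_centralizer_singleton_iff.1 (h1 hc₀)
    have h3 : c₀ * e = l * (c₀ * (l⁻¹ * e * l)) * l⁻¹ := by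
      calc c₀ * e = (c₀ * l) * (l⁻¹ * e * l) * l⁻¹ := by group
        _ = l * (c₀ * (l⁻¹ * e * l)) * l⁻¹ := by rw [← hlc]; group
    rw [h3, h2]
    calc l * (l⁻¹ * e * l * c₀) * l⁻¹ = e * (l * c₀) * l⁻¹ := by group
      _ = e * c₀ := by rw [hlc]; group
  have hfix : cj c₀ Am = Am := by
    apply le_antisymm
    · intro t ht
      rw [mem_cj] at ht
      have h1 := hcomm _ ht
      have h2 : t = c₀ * (c₀⁻¹ * t * c₀) * c₀⁻¹ := by group
      rw [h1, mul_inv_cancel_right] at h2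
      rw [h2]; exact ht
    · intro t ht
      rw [mem_cj]
      have h1 := hcomm t ht
      have h2 : c₀⁻¹ * t * c₀ = t := by
        have : c₀⁻¹ * t * c₀ = c₀⁻¹ * (t * c₀) := by group
        rw [this, ← h1]; group
      rw [h2]; exact ht
  -- transport to `Z`
  have h2 : rep cs h (v⁻¹ * (cs.simple j * cs.simple i * cs.simple j) * v) r = -r := by
    rw [rep_mul_apply, rep_mul_apply, hv, hmγ, map_neg, ← hv, rep_inv_apply]
  have h3 := (hk₀.inv.mul hmr).mul hk₀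
  have hc₀' : k₀⁻¹ * c₀ * k₀ ∈ Z := by
    rw [hZg] at hc₀Z
    exact mem_cj.1 hc₀Z
  refine cj_ne L h3 h2 hc₀' ?_ ?_
  · intro h4
    apply hc₀1
    have : c₀ = k₀ * (k₀⁻¹ * c₀ * k₀) * k₀⁻¹ := by group
    rw [this, h4]; group
  · have e1 : cj (k₀⁻¹ * m * k₀) Z = cj k₀⁻¹ Am := by rw [hAm, hZg, ← cj_mul, ← cj_mul, mul_assoc]
    rw [e1, ← cj_mul]
    have e2 : k₀⁻¹ * c₀ * k₀ * k₀⁻¹ = k₀⁻¹ * c₀ := by group
    rw [e2, cj_mul, hfix]

end

/-- the hypothesis `mu` for full root groups -/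
theorem mu_full [Finite W] (R : RGD cs h p T n X) {γ : I → ℤ} (hγ : IsRoot cs h γ) {z : Y} (hz : z ∈ X γ)
    (hz1 : z ≠ 1) {w : W} {m : Y} (hm : Rp cs R.nsys w m) (hw : rep cs h w γ = -γ) :
    ∃ c ∈ cj m (X γ) ⊔ cj z (cj m (X γ)), c ∈ X γ ∧ c ≠ 1 := by
  obtain ⟨w', hw', a, ha, b, hb, m', hm', e⟩ := exists_mu R hγ hz hz1
  have hw'γ : rep cs h w' γ = -γ := by
    rw [hw', cpr_self cs h hγ, two_smul, sub_add_cancel_left]
  have hA : cj m (X γ) = X (-γ) := by rw [R.conj_rp hm hγ, hw]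
  rw [hA]
  obtain ⟨⟨c, hc⟩, hc1⟩ := Subgroup.ne_bot_iff_exists_ne_one.1 (X_ne_bot R hγ)
  have hc1' : c ≠ 1 := fun h3 => hc1 (Subtype.ext h3)
  refine ⟨c, ?_, hc, hc1'⟩
  have hz' : z = a⁻¹ * m' * b⁻¹ := by rw [e]; group
  have h1 : cj z (X (-γ)) = cj a⁻¹ (X γ) := by
    have h2 : cj m' (X (-γ)) = X γ := by
      rw [R.conj_rp hm' hγ.neg, map_neg, hw'γ, neg_neg]
    rw [hz', cj_mul, cj_eq_of_mem (inv_mem hb), cj_mul, h2]
  rw [h1]
  have h3 : a⁻¹ * c * a ∈ cj a⁻¹ (X γ) := by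
    have := conj_mem_cj (g := a⁻¹) (A := X γ).2 hc
    rwa [inv_inv] at this
  have e2 : c = a * (a⁻¹ * c * a) * a⁻¹ := by group
  rw [e2]
  exact mul_mem (mul_mem (Subgroup.mem_sup_left ha) (Subgroup.mem_sup_right h3))
    (inv_mem (Subgroup.mem_sup_left ha))

end Cfsg.Agent.H939.RgdB4
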