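import Mathlib
import Cfsg.Agent.H939.InstSL
import Cfsg.Agent.H939.ClsOf
import Cfsg.Agent.H939.RgdB4

/-!
Classes of root subgroups of the Chevalley groups `D.group K` (S5900), by a finite check on the tables.

* `chkCls D l q r0` : the root with index `r0` is dominant and its root group is the centre of a class, all constants
  divisible by `q` being ignored; `cls_chev`;
* `chkB4` : bonds of order four; `b4_chev`;
* `cl_F4`.
-/

set_option autoImplicit false
set_option linter.unusedSectionVars false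
set_option linter.dupNamespace false

namespace Cfsg.Agent.H939.ChevCls

open CoxeterSystem Cfsg.Agent.ChevalleyStructure.CoxeterGeom Cfsg.Agent.Tits.Roots Cfsg.Agent.Tits.Core
  Cfsg.Agent.Tits.RootComb Cfsg.Agent.Nodes.Comb Cfsg.Agent.Nodes.Reps Cfsg.Agent.Nodes.BNOf
  Cfsg.Agent.Nodes.StabComb Cfsg.Agent.Nodes.LeviDec Cfsg.Agent.Nodes.OppDec Cfsg.Agent.Nodes.Bruhat
open Cfsg.Lie Cfsg.Agent.ChevalleyStructure Cfsg.Agent.ChevalleyStructure.Elts
  Cfsg.Agent.ChevalleyStructure.RootVec Cfsg.Agent.ChevalleyStructure.RootVecTab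
  Cfsg.Agent.ChevalleyStructure.NPerm Cfsg.Agent.ChevalleyStructure.CoxeterGeomTypes
open Cfsg.Agent.Nodes Cfsg.Agent.Nodes.RGDChev Cfsg.Agent.Nodes.RGDLib
open Cfsg.Agent.H939.RgdA Cfsg.Agent.H939.RgdTwo Cfsg.Agent.H939.ClsOf Cfsg.Agent.H939.RgdB4
open scoped commutatorElement

universe u

/-! ### the checks -/

def posB (D : ChevalleyDatum) (l s : ℕ) : Bool := (List.range l).all fun i => decide (0 ≤ rt D s i)

def notB (D : ChevalleyDatum) (l r0 s : ℕ) : Bool :=
  posB D l s && (List.range l).any fun k => !decide (D.cartan k r0 = 0) && decide (0 < rt D s k)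

def vanB (q : ℤ) (L : List (ℕ × ℤ × ℕ × ℕ)) : Bool := L.all fun c => decide (q ∣ c.2.1)

def vanB' (q : ℤ) (r0 : ℕ) (L : List (ℕ × ℤ × ℕ × ℕ)) : Bool := L.all fun c => c.1 == r0 || decide (q ∣ c.2.1)

def chkCls (D : ChevalleyDatum) (l : ℕ) (q : ℤ) (r0 : ℕ) : Bool :=
  decide (r0 < D.nroots) && ((List.range l).all fun i => decide (0 ≤ D.cartan i r0)) &&
   (List.range D.nroots).all fun s => (!posB D l s || s == r0 || s == D.neg r0 || vanB q (D.commTerms r0 s)) &&
    (List.range D.nroots).all fun t => !notB D l r0 s || !notB D l r0 t || s == t || s == D.neg t ||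
      vanB' q r0 (D.commTerms s t)

section Rel

variable {D : ChevalleyDatum} {l : ℕ} {M : CoxeterMatrix (Fin l)} (hp : IsType D l M) {K : Type u} [Field K]

/-- commutators of root elements -/
theorem comm_in {r s : ℕ} (hr : r < D.nroots) (hs : s < D.nroots) (hrs : s ≠ r) (hneg : s ≠ D.neg r)
    {K' : Subgroup (GL D.Idx K)}
    (hK : ∀ c ∈ D.commTerms r s, (c.2.1 : K) = 0 ∨ ∀ t : K, xG hp.inList c.1 t ∈ K') (t u : K) :
    ⁅xG hp.inList s u, xG hp.inList r t⁆ ∈ K' := by
  have e : ⁅xG hp.inList s u, xG hp.inList r t⁆ = wordG hp.inList (D.commWord K r s (-t) (-u)) := by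
    rw [← comm_xG hp hr hs hrs hneg, xG_inv, xG_inv, _root_.neg_neg, _root_.neg_neg]
  rw [e]
  refine wordG_mem hp _ _ ?_
  intro c hc
  have hc' : c ∈ (D.commTerms r s).map fun c => (c.1, (c.2.1 : K) * (- -t) ^ c.2.2.1 * (-u) ^ c.2.2.2) := hc
  rw [List.mem_map] at hc'
  obtain ⟨v, hv, rfl⟩ := hc'
  rcases hK v hv with h | h
  · show xG hp.inList v.1 ((v.2.1 : K) * (- -t) ^ v.2.2.1 * (-u) ^ v.2.2.2) ∈ K'
    rw [h, zero_mul, zero_mul, xG_zero]
    exact one_mem _
  · exact h _

theorem xG_pow (s : ℕ) (t : K) (m : ℕ) : xG hp.inList s t ^ m = xG hp.inList s (m * t) := by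
  induction m with
  | zero => rw [pow_zero, Nat.cast_zero, zero_mul, xG_zero]
  | succ m ih => rw [pow_succ, ih, xG_add, Nat.cast_succ, add_mul, one_mul]

end Rel

section Cls

variable {D : ChevalleyDatum} {l : ℕ} {M : CoxeterMatrix (Fin l)} (hp : IsType D l M) {K : Type u} [Field K]
  [Finite K] (p : ℕ) [Fact p.Prime] [CharP K p] {W : Type*} [Group W] (cs : CoxeterSystem M W)

/-- the root groups in `D.group K` -/
theorem mem_X {s : ℕ} (hs : s < D.nroots) {g : ↥(D.group K)} :
    g ∈ (XV D l K (vec D l s)).subgroupOf (D.group K) ↔ ∃ t : K, (g : GL D.Idx K) = xG hp.inList s t := by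
  rw [Subgroup.mem_subgroupOf, XV_vec hp K hs, mem_rootSubgroup_iff hp.inList]

theorem posB_of {s : ℕ} (h0 : 0 ≤ vec D l s) : posB D l s = true := by
  unfold posB
  rw [List.all_eq_true]
  intro i hi
  rw [List.mem_range] at hi
  exact decide_eq_true (h0 ⟨i, hi⟩)

include hp in
theorem notB_of {r0 : ℕ} (hr0 : r0 < D.nroots) {s : ℕ}
    (hx : vec D l s ∈ NotJ cs hp.isCartan (orth cs hp.isCartan (vec D l r0))) : notB D l r0 s = true := by
  obtain ⟨-, h0, k, hk, hk0⟩ := hx
  rw [mem_orth, pairing_vec hp k hr0] at hk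
  unfold notB
  rw [Bool.and_eq_true]
  refine ⟨posB_of h0, ?_⟩
  rw [List.any_eq_true]
  refine ⟨k, List.mem_range.2 k.2, ?_⟩
  rw [Bool.and_eq_true]
  exact ⟨by simpa using hk, decide_eq_true hk0⟩

/-- **a class from a finite check** -/
theorem cls_chev (q : ℤ) (hq : (q : K) = 0) {r0 : ℕ} (hc : chkCls D l q r0 = true) :
    Cls (rgd (K := K) hp cs p) (vec D l r0) ((XV D l K (vec D l r0)).subgroupOf (D.group K)) := by
  have hWf : Finite W := finite_W hp cs
  unfold chkCls at hc
  rw [Bool.and_eq_true, Bool.and_eq_true] at hc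
  obtain ⟨⟨h1, h2⟩, h3⟩ := hc
  have hr0 : r0 < D.nroots := of_decide_eq_true h1
  rw [List.all_eq_true] at h2 h3
  have hr : IsRoot cs hp.isCartan (vec D l r0) := isRoot_vec hp cs hr0
  have hdiv : ∀ C : ℤ, q ∣ C → (C : K) = 0 := by
    rintro C ⟨c, rfl⟩
    rw [Int.cast_mul, hq, zero_mul]
  set R := rgd (K := K) hp cs p with hR
  refine cls_of R hr ?_ le_rfl (X_ne_bot R hr) ?_ ?_ ?_ ?_ ?_ ?_
  · intro i
    rw [pairing_vec hp i hr0]
    exact of_decide_eq_true (h2 i (List.mem_range.2 i.2))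
  · intro t ht
    exact R.tor _ hr t ht
  · intro w k hk hw
    rw [R.conj_rp hk hr, hw]
  · intro x hx h0 z hz g hg
    obtain ⟨s, hs, rfl⟩ := (isRoot_iff hp cs x).1 hx
    obtain ⟨t, ht⟩ := (mem_X hp hr0).1 hz
    obtain ⟨u, hu⟩ := (mem_X hp hs).1 hg
    apply Subtype.ext
    show (z : GL D.Idx K) * g = g * z
    rw [ht, hu]
    by_cases hsr : s = r0
    · subst hsr
      rw [xG_add, xG_add, add_comm]
    by_cases hsn : s = D.neg r0
    · exfalso
      subst hsn
      rw [vec_neg hp hr0] at h0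
      have hd : Dom (cartanOf D l) (vec D l r0) := by
        intro i
        rw [pairing_vec hp i hr0]
        exact of_decide_eq_true (h2 i (List.mem_range.2 i.2))
      have := Fintype.ofFinite W
      have h5 := form_nonneg_of_dom cs hp.isCartan hd h0
      rw [form_neg_right] at h5
      have h6 := form_pos cs hp.isCartan hr.ne_zero
      omega
    have h4 := h3 s (List.mem_range.2 hs)
    rw [Bool.and_eq_true] at h4
    have h5 := h4.1
    rw [posB_of h0] at h5
    simp only [Bool.not_true, Bool.false_or, Bool.or_eq_true, beq_iff_eq] at h5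
    have h6 : vanB q (D.commTerms r0 s) = true := by
      rcases h5 with (h5 | h5) | h5
      · exact absurd h5 hsr
      · exact absurd h5 hsn
      · exact h5
    unfold vanB at h6
    rw [List.all_eq_true] at h6
    have h7 := comm_in hp hr0 hs hsr hsn (K' := (⊥ : Subgroup (GL D.Idx K)))
      (fun c hc => Or.inl (hdiv _ (of_decide_eq_true (h6 c hc)))) t u
    rw [Subgroup.mem_bot, commutatorElement_eq_one_iff_mul_comm] at h7
    exact h7.symm
  · intro x hx y hy g hg k hk
    obtain ⟨s, hs, rfl⟩ := (isRoot_iff hp cs x).1 hx.1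
    obtain ⟨t, ht, rfl⟩ := (isRoot_iff hp cs y).1 hy.1
    obtain ⟨a, ha⟩ := (mem_X hp hs).1 hg
    obtain ⟨b, hb⟩ := (mem_X hp ht).1 hk
    rw [Subgroup.mem_subgroupOf]
    show (g : GL D.Idx K) * (k : GL D.Idx K) * (g : GL D.Idx K)⁻¹ * (k : GL D.Idx K)⁻¹ ∈ _
    rw [ha, hb, XV_vec hp K hr0]
    by_cases hst : s = t
    · subst hst
      have e : xG hp.inList s a * xG hp.inList s b * (xG hp.inList s a)⁻¹ * (xG hp.inList s b)⁻¹ = 1 := by
        rw [xG_add, add_comm, ← xG_add]; group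
      rw [e]; exact one_mem _
    have hstn : s ≠ D.neg t := by
      rintro rfl
      have h5 := hx.2.1
      rw [vec_neg hp ht] at h5
      have h6 := hy.2.1
      have h7 : vec D l t = 0 := le_antisymm (neg_nonneg.1 h5) h6
      exact hy.1.ne_zero h7
    have h4 := h3 t (List.mem_range.2 ht)
    rw [Bool.and_eq_true] at h4
    have h5 := h4.2
    rw [List.all_eq_true] at h5
    have h6 := h5 s (List.mem_range.2 hs)
    rw [notB_of hp cs hr0 hx, notB_of hp cs hr0 hy] at h6
    simp only [Bool.not_true, Bool.false_or, Bool.or_eq_true, beq_iff_eq] at h6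
    have hts : t ≠ D.neg s := by
      rintro rfl
      apply hstn
      exact (RootVec.neg_neg hp.checked hs).symm
    have h7 : vanB' q r0 (D.commTerms t s) = true := by
      rcases h6 with (h6 | h6) | h6
      · exact absurd h6.symm hst
      · exact absurd h6 hts
      · exact h6
    unfold vanB' at h7
    rw [List.all_eq_true] at h7
    refine comm_in hp ht hs hst hstn (K' := D.rootSubgroup K r0) (fun c hc => ?_) b a
    have h8 := h7 c hc
    rw [Bool.or_eq_true, beq_iff_eq] at h8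
    rcases h8 with h8 | h8
    · right
      intro t
      rw [h8]
      exact xG_mem_rootSubgroup hp.inList r0 t
    · exact Or.inl (hdiv _ (of_decide_eq_true h8))
  · intro x hx g hg
    obtain ⟨s, hs, rfl⟩ := (isRoot_iff hp cs x).1 hx.1
    obtain ⟨a, ha⟩ := (mem_X hp hs).1 hg
    have : g ^ p = 1 := by
      apply Subtype.ext
      show (g : GL D.Idx K) ^ p = 1
      rw [ha, xG_pow hp, CharP.cast_eq_zero, zero_mul, xG_zero]
    rw [this]; exact one_mem _
  · intro g hg
    obtain ⟨a, ha⟩ := (mem_X hp hr0).1 hg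
    apply Subtype.ext
    show (g : GL D.Idx K) ^ p = 1
    rw [ha, xG_pow hp, CharP.cast_eq_zero, zero_mul, xG_zero]

/-- the walk of an index under the fundamental reflections -/
def walk (D : ChevalleyDatum) {l : ℕ} (ω : List (Fin l)) (r : ℕ) : ℕ := ω.foldr (fun i s => D.reflectRoot i s) r

omit [Field K] [Finite K] [CharP K p] in
theorem rep_walk (ω : List (Fin l)) {r : ℕ} (hr : r < D.nroots) :
    walk D ω r < D.nroots ∧ rep cs hp.isCartan (cs.wordProd ω) (vec D l r) = vec D l (walk D ω r) := by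
  induction ω with
  | nil => exact ⟨hr, by rw [wordProd_nil, map_one, Module.End.one_apply]; rfl⟩
  | cons i ω ih =>
    obtain ⟨h1, h2⟩ := ih
    refine ⟨reflectRoot_lt hp.inList (lt_rank hp i) h1, ?_⟩
    rw [wordProd_cons, rep_mul_apply, h2, rep_vec hp cs i h1]
    rfl

/-- the check at a bond of order four; `b = s_i α_j`, `g = s_j α_i` -/
def chkB4 (D : ChevalleyDatum) (i j b g : ℕ) : Bool :=
  (D.reflectRoot i (D.simple j) == b) && (D.reflectRoot j (D.simple i) == g) &&
  ((D.commTerms b (D.simple j)).all fun c => c.1 == g) &&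
  (D.commTerms g (D.simple j)).isEmpty && (D.commTerms g b).isEmpty && (D.commTerms (D.simple i) g).isEmpty &&
  (D.commTerms (D.neg (D.simple i)) g).isEmpty &&
  !(D.simple j == b) && !(D.simple j == D.neg b) && !(D.simple j == g) && !(D.simple j == D.neg g) &&
  !(b == g) && !(b == D.neg g) && !(g == D.simple i) && !(g == D.neg (D.simple i)) &&
  !(g == D.neg (D.neg (D.simple i))) && !(b == D.simple j) && !(b == D.neg (D.simple j))

theorem b4_chev {i j : Fin l} (hM : M i j = 4) {b g r0 : ℕ} (hc : chkB4 D i j b g = true) {C : ℤ}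
    (hC : D.commTerms (D.simple j) b = [(g, C, 1, 1)]) (hCK : (C : K) ≠ 0) (hr0 : r0 < D.nroots) {w₀ : W}
    (hw₀ : rep cs hp.isCartan w₀ (sr i) = vec D l r0) :
    B4 (rgd (K := K) hp cs p) (vec D l r0) ((XV D l K (vec D l r0)).subgroupOf (D.group K)) i j
      ((XV D l K (rep cs hp.isCartan (cs.simple j) (sr i))).subgroupOf (D.group K)) := by
  have hWf : Finite W := finite_W hp cs
  have hai := simple_lt hp.inList (lt_rank hp i)
  have haj := simple_lt hp.inList (lt_rank hp j)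
  simp only [chkB4, Bool.and_eq_true, beq_iff_eq, Bool.not_eq_true', beq_eq_false_iff_ne, List.isEmpty_iff] at hc
  obtain ⟨⟨⟨⟨⟨⟨⟨⟨⟨⟨⟨⟨⟨⟨⟨⟨⟨h1, h2⟩, h3⟩, h4⟩, h5⟩, h6⟩, h7⟩, n1⟩, n2⟩, n3⟩, n4⟩, n5⟩, n6⟩, n7⟩, n8⟩, n9⟩, n10⟩, n11⟩ := hc
  have hb : b < D.nroots := h1 ▸ reflectRoot_lt hp.inList (lt_rank hp i) haj
  have hg : g < D.nroots := h2 ▸ reflectRoot_lt hp.inList (lt_rank hp j) hai
  have eb : rep cs hp.isCartan (cs.simple i) (sr j) = vec D l b := by
    rw [← vec_simple hp j, rep_vec hp cs i haj, h1]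
  have eg : rep cs hp.isCartan (cs.simple j) (sr i) = vec D l g := by
    rw [← vec_simple hp i, rep_vec hp cs j hai, h2]
  have hr : IsRoot cs hp.isCartan (vec D l r0) := isRoot_vec hp cs hr0
  set R := rgd (K := K) hp cs p with hR
  have hcomm : ∀ {r s : ℕ}, r < D.nroots → s < D.nroots → s ≠ r → s ≠ D.neg r → D.commTerms r s = [] →
      ∀ x ∈ (XV D l K (vec D l s)).subgroupOf (D.group K), ∀ y ∈ (XV D l K (vec D l r)).subgroupOf (D.group K),
        x * y = y * x := by
    intro r s hr hs hsr hsn he x hx y hy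
    obtain ⟨u, hu⟩ := (mem_X hp hs).1 hx
    obtain ⟨t, ht⟩ := (mem_X hp hr).1 hy
    apply Subtype.ext
    show (x : GL D.Idx K) * y = y * x
    have := comm_in hp hr hs hsr hsn (K' := (⊥ : Subgroup (GL D.Idx K)))
      (fun c hc => by rw [he] at hc; exact absurd hc List.not_mem_nil) t u
    rw [Subgroup.mem_bot, commutatorElement_eq_one_iff_mul_comm] at this
    rw [hu, ht, this]
  have hself : ∀ {s : ℕ}, s < D.nroots → ∀ x ∈ (XV D l K (vec D l s)).subgroupOf (D.group K),
      ∀ y ∈ (XV D l K (vec D l s)).subgroupOf (D.group K), x * y = y * x := by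
    intro s hs x hx y hy
    obtain ⟨u, hu⟩ := (mem_X hp hs).1 hx
    obtain ⟨t, ht⟩ := (mem_X hp hs).1 hy
    apply Subtype.ext
    show (x : GL D.Idx K) * y = y * x
    rw [hu, ht, xG_add, xG_add, add_comm]
  refine ⟨hM, ?_, ?_, ?_, ?_, ?_, ?_, ?_, ?_, ?_, ?_⟩
  · obtain ⟨k, hk⟩ := exists_rp cs R.nsys (cs.simple j * w₀⁻¹)
    refine ⟨cs.simple j * w₀⁻¹, k, hk, ?_, ?_⟩
    · rw [rep_mul_apply, ← hw₀, rep_inv_apply]
    · rw [R.conj_rp hk hr, rep_mul_apply, ← hw₀, rep_inv_apply]
  · rw [eb, eg, ← vec_simple hp j]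
    intro x hx y hy
    obtain ⟨u, hu⟩ := (mem_X hp haj).1 hx
    obtain ⟨t, ht⟩ := (mem_X hp hb).1 hy
    rw [Subgroup.mem_subgroupOf]
    show ⁅(x : GL D.Idx K), (y : GL D.Idx K)⁆ ∈ _
    rw [hu, ht, XV_vec hp K hg]
    refine comm_in hp hb haj n1 n2 (fun c hc => Or.inr fun t => ?_) t u
    rw [List.all_eq_true] at h3
    rw [beq_iff_eq.1 (h3 c hc)]
    exact xG_mem_rootSubgroup hp.inList g t
  · rw [eg, ← vec_simple hp j]
    exact hcomm hg haj n3 n4 h4
  · rw [eb, eg]
    exact hcomm hg hb n5 n6 h5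
  · rw [eb]; exact hself hb
  · rw [eg]; exact hself hg
  · rw [eg, ← vec_simple hp i]
    exact hcomm hai hg n7 n8 h6
  · rw [eg, ← vec_simple hp i, ← vec_neg hp hai]
    exact hcomm (neg_lt hp.inList hai) hg n8 n9 h7
  · rw [eb, eg, ← vec_simple hp j]
    intro a ha ha1
    obtain ⟨t, ht⟩ := (mem_X hp haj).1 ha
    have ht0 : t ≠ 0 := by
      rintro rfl
      apply ha1
      apply Subtype.ext
      rw [ht, xG_zero]; rfl
    have hy : xG hp.inList b (1 : K) ∈ D.group K := xG_mem_group hp.inList b 1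
    refine ⟨⟨_, hy⟩, (mem_X hp hb).2 ⟨1, rfl⟩, ?_⟩
    have e : ⁅xG hp.inList b (1 : K), xG hp.inList (D.simple j) t⁆ = xG hp.inList g ((C : K) * t * -1) := by
      have e1 : ⁅xG hp.inList b (1 : K), xG hp.inList (D.simple j) t⁆ =
          wordG hp.inList (D.commWord K (D.simple j) b (-t) (-1)) := by
        rw [← comm_xG hp haj hb n10 n11, xG_inv, xG_inv, _root_.neg_neg, _root_.neg_neg]
      rw [e1, ChevalleyDatum.commWord, hC, List.map_cons, List.map_nil, wordG_cons]
      simp [wordG]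
    constructor
    · rw [Subgroup.mem_subgroupOf]
      show ⁅xG hp.inList b (1 : K), (a : GL D.Idx K)⁆ ∈ _
      rw [ht, XV_vec hp K hg, e]
      exact xG_mem_rootSubgroup hp.inList g _
    · intro h0
      have h8 : ⁅xG hp.inList b (1 : K), (a : GL D.Idx K)⁆ = 1 := congrArg Subtype.val h0
      rw [ht, e, xG_eq_one_iff hp.inList hg] at h8
      exact mul_ne_zero (mul_ne_zero hCK ht0) (neg_ne_zero.2 one_ne_zero) h8
  · intro z hz hz1 w m hm hw
    exact mu_full R ((isRoot_sr cs _ i).act _) hz hz1 hm hw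

end Cls

end Cfsg.Agent.H939.ChevCls
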