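import Mathlib
import Cfsg.Agent.KFacts.RgdFiltClass

/-!
Relations between the root elements of a Witt frame (S5900).
-/

set_option autoImplicit false
set_option linter.unusedSectionVars false
set_option linter.dupNamespace false

namespace Cfsg.Agent.H939.FrameRel

open Cfsg Cfsg.Agent.ChevalleyStructure.CoxeterGeom Cfsg.Agent.Tits.Roots Cfsg.Agent.Nodes.TypeC
open Cfsg.Agent.Nodes.Comb Cfsg.Agent.Nodes.Reps Cfsg.Agent.Nodes.WittRoot Cfsg.Agent.Nodes.BNOf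
open Cfsg.Agent.Nodes.RGDLib Cfsg.Agent.Nodes.WittAll
open Cfsg.Agent.TitsThree Cfsg.Agent.TitsThree.Siegel Cfsg.Agent.TitsThree.WittFrame
  Cfsg.Agent.TitsThree.WittWeyl Cfsg.Agent.TitsThree.FrameCN
open Cfsg.Agent.KFacts.RgdFiltWitt

variable {F : Type*} [Field F] {V : Type*} [AddCommGroup V] [Module F V] {H : HForm F V} {n : ℕ}
  {Fr : Frame H (Fin n)}

theorem fst_ne_of {a c : Fin n × Bool} (h1 : c ≠ a) (h2 : c ≠ ng a) : c.1 ≠ a.1 := fun h =>
  h2 (eq_ng_of h.symm h1)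

theorem fst_of_ng {a c : Fin n × Bool} (h : a = ng c) : a.1 = c.1 := by rw [h]; rfl

theorem ne_ng (a : Fin n × Bool) : a ≠ ng a := fun h => absurd (congrArg Prod.snd h) (by simp)

theorem X_pow (a b : Fin n × Bool) (t : F) (m : ℕ) : Fr.X a b t ^ m = Fr.X a b (m * t) := by
  induction m with
  | zero => rw [pow_zero, Nat.cast_zero, zero_mul, Fr.X_zero]
  | succ m ih => rw [pow_succ, ih, ← Fr.X_add, Nat.cast_succ, add_mul, one_mul]

theorem Z_pow (a : Fin n × Bool) (q : Fr.Adm) (m : ℕ) : Fr.Z a q ^ m = Fr.Z a (q ^ m) := by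
  induction m with
  | zero => rw [pow_zero, pow_zero, Fr.Z_one]
  | succ m ih => rw [pow_succ, ih, ← Fr.Z_mul, pow_succ]

theorem adm_pow_w (q : Fr.Adm) (m : ℕ) : (q ^ m).w = (m : F) • q.w := by
  induction m with
  | zero => rw [pow_zero, Nat.cast_zero, zero_smul]; rfl
  | succ m ih => rw [pow_succ, Frame.Adm.mul_w, ih, Nat.cast_succ, add_smul, one_smul]

theorem adm_pow_c {q : Fr.Adm} (hq : q.w = 0) (m : ℕ) : (q ^ m).c = (m : F) * q.c := by
  induction m with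
  | zero => rw [pow_zero, Nat.cast_zero, zero_mul]; rfl
  | succ m ih => rw [pow_succ, Frame.Adm.mul_c, ih, hq, H.zero_left, mul_zero, sub_zero, Nat.cast_succ]; ring

/-- `Z a (0, c)` commutes with the root groups of all roots `x` with `⟨x, a⟩ ≥ 0` -/
theorem comm_Z0_PG {a c d : Fin n × Bool} (hcd : Ok c d) (hc : c ≠ ng a) (hd : d ≠ ng a) {z g : V ≃ₗ[F] V}
    (hz : z ∈ Z0G Fr a) (hg : g ∈ PG Fr c d) : z * g = g * z := by
  obtain ⟨q, hq, rfl⟩ := hz
  rcases hcd with hcd | rfl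
  · rw [PG_ne Fr hcd] at hg
    obtain ⟨t, rfl⟩ := hg
    exact Fr.commute_ZX (x := a) (y := c) (z := d) hc hd q t
  · rw [PG_self] at hg
    obtain ⟨p, rfl⟩ := hg
    by_cases hca : c = a
    · subst hca
      rw [← Fr.Z_mul, ← Fr.Z_mul]
      congr 1
      ext
      · rw [Frame.Adm.mul_w, Frame.Adm.mul_w, add_comm]
      · rw [Frame.Adm.mul_c, Frame.Adm.mul_c, hq, H.zero_left, H.zero_right]; ring
    · rw [Fr.Z_mul_Z (fst_ne_of hca hc).symm, hq, H.zero_left, map_zero, mul_zero, neg_zero, Fr.X_zero, one_mul]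

/-- the root groups `X_{a,c}`, `X_{a,d}` commute modulo `Z0G a` -/
theorem comm_PG_same {a c d : Fin n × Bool} (hac : Ok a c) (had : Ok a d) {g k : V ≃ₗ[F] V}
    (hg : g ∈ PG Fr a c) (hk : k ∈ PG Fr a d) : g * k * g⁻¹ * k⁻¹ ∈ Z0G Fr a := by
  have one : g * k = k * g → g * k * g⁻¹ * k⁻¹ ∈ Z0G Fr a := by
    intro h
    rw [h, mul_inv_cancel_right, mul_inv_cancel]
    exact one_mem _
  rcases hac with hac | rfl
  · rw [PG_ne Fr hac] at hg
    obtain ⟨s, rfl⟩ := hg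
    rcases had with had | rfl
    · rw [PG_ne Fr had] at hk
      obtain ⟨t, rfl⟩ := hk
      by_cases hcd : d = ng c
      · subst hcd
        have h1 := Fr.X_mul_X_same hac s t
        refine ⟨Frame.Adm.tr (H.σ s * t * (Fr.η (neg c))⁻¹), rfl, ?_⟩
        have h2 : Fr.X a c s * Fr.X a (ng c) t = _ := h1
        rw [h2]
        show _ * (Fr.X a (ng c) t * Fr.X a c s) * (Fr.X a c s)⁻¹ * (Fr.X a (ng c) t)⁻¹ = _
        group
      · apply one
        refine Fr.commute_XX (x := a) (y := c) (z := a) (u := d) ?_ ?_ ?_ hcd s t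
        · exact ne_ng a
        · exact fun h => hac (fst_of_ng h)
        · exact fun h => had (fst_of_ng h).symm
    · apply one
      rw [PG_self] at hk
      obtain ⟨q, rfl⟩ := hk
      refine (Fr.commute_ZX (x := a) (y := a) (z := c) ?_ ?_ q s).symm
      · exact ne_ng a
      · exact fun h => hac (fst_of_ng h).symm
  · rw [PG_self] at hg
    obtain ⟨q, rfl⟩ := hg
    rcases had with had | rfl
    · apply one
      rw [PG_ne Fr had] at hk
      obtain ⟨t, rfl⟩ := hk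
      refine Fr.commute_ZX (x := a) (y := a) (z := d) ?_ ?_ q t
      · exact ne_ng a
      · exact fun h => had (fst_of_ng h).symm
    · rw [PG_self] at hk
      obtain ⟨p, rfl⟩ := hk
      refine ⟨q * p * q⁻¹ * p⁻¹, ?_, ?_⟩
      · simp only [Frame.Adm.mul_w, Frame.Adm.inv_w]; abel
      · rw [← Fr.Z_inv, ← Fr.Z_inv, ← Fr.Z_mul, ← Fr.Z_mul, ← Fr.Z_mul]

theorem pow_PG {p : ℕ} [CharP F p] {a c : Fin n × Bool} (hac : Ok a c) {g : V ≃ₗ[F] V} (hg : g ∈ PG Fr a c) :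
    g ^ p ∈ Z0G Fr a := by
  rcases hac with hac | rfl
  · rw [PG_ne Fr hac] at hg
    obtain ⟨s, rfl⟩ := hg
    rw [X_pow, CharP.cast_eq_zero, zero_mul, Fr.X_zero]
    exact one_mem _
  · rw [PG_self] at hg
    obtain ⟨q, rfl⟩ := hg
    rw [Z_pow]
    exact ⟨_, by rw [adm_pow_w, CharP.cast_eq_zero, zero_smul], rfl⟩

theorem pow_Z0 {p : ℕ} [CharP F p] {a : Fin n × Bool} {g : V ≃ₗ[F] V} (hg : g ∈ Z0G Fr a) : g ^ p = 1 := by
  obtain ⟨q, hq, rfl⟩ := hg
  rw [Z_pow]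
  have : q ^ p = 1 := by
    ext
    · rw [adm_pow_w, CharP.cast_eq_zero, zero_smul]; rfl
    · rw [adm_pow_c hq, CharP.cast_eq_zero, zero_mul]; rfl
  rw [this, Fr.Z_one]

/-! ### the class of `X_{a,b}` -/

/-- the traces vanish and the group of pairs has exponent `p` -/
structure TrZ (Fr : Frame H (Fin n)) (p : ℕ) : Prop where
  tr : ∀ m : F, (Frame.Adm.tr m : Fr.Adm) = 1
  pow : ∀ q : Fr.Adm, q ^ p = 1

theorem TrZ.eps {p : ℕ} (hT : TrZ Fr p) : H.ε = 1 := by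
  have h4 := congrArg Frame.Adm.c (hT.tr 1)
  rw [Frame.Adm.tr_c, Frame.Adm.one_c, map_one, mul_one, sub_eq_zero] at h4
  exact inv_eq_one.1 h4.symm

theorem TrZ.sigma {p : ℕ} (hT : TrZ Fr p) (m : F) : H.σ m = m := by
  have h4 := congrArg Frame.Adm.c (hT.tr m)
  rw [Frame.Adm.tr_c, Frame.Adm.one_c, hT.eps, inv_one, one_mul, sub_eq_zero] at h4
  exact h4.symm

theorem TrZ.comm {p : ℕ} (hT : TrZ Fr p) (q r : Fr.Adm) : q * r = r * q := by
  have h2 : H.h r.w q.w = H.h q.w r.w := by rw [H.swap q.w r.w, hT.eps, hT.sigma, one_mul]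
  ext
  · rw [Frame.Adm.mul_w, Frame.Adm.mul_w, add_comm]
  · rw [Frame.Adm.mul_c, Frame.Adm.mul_c, h2]; ring

/-- `X_{a,c}` and `X_{a,d}` commute -/
theorem comm_same {p : ℕ} (hT : TrZ Fr p) {a c d : Fin n × Bool} (hac : Ok a c) (had : Ok a d) {g k : V ≃ₗ[F] V}
    (hg : g ∈ PG Fr a c) (hk : k ∈ PG Fr a d) : g * k = k * g := by
  rcases hac with hac | rfl
  · rw [PG_ne Fr hac] at hg
    obtain ⟨s, rfl⟩ := hg
    rcases had with had | rfl
    · rw [PG_ne Fr had] at hk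
      obtain ⟨t, rfl⟩ := hk
      by_cases hcd : d = ng c
      · subst hcd
        have h1 := Fr.X_mul_X_same hac s t
        rw [hT.tr, Fr.Z_one, one_mul] at h1
        exact h1
      · refine Fr.commute_XX (x := a) (y := c) (z := a) (u := d) ?_ ?_ ?_ hcd s t
        · exact ne_ng a
        · exact fun h => hac (fst_of_ng h)
        · exact fun h => had (fst_of_ng h).symm
    · rw [PG_self] at hk
      obtain ⟨q, rfl⟩ := hk
      refine (Fr.commute_ZX (x := a) (y := a) (z := c) ?_ ?_ q s).symm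
      · exact ne_ng a
      · exact fun h => hac (fst_of_ng h).symm
  · rw [PG_self] at hg
    obtain ⟨q, rfl⟩ := hg
    rcases had with had | rfl
    · rw [PG_ne Fr had] at hk
      obtain ⟨t, rfl⟩ := hk
      refine Fr.commute_ZX (x := a) (y := a) (z := d) ?_ ?_ q t
      · exact ne_ng a
      · exact fun h => had (fst_of_ng h).symm
    · rw [PG_self] at hk
      obtain ⟨r, rfl⟩ := hk
      rw [← Fr.Z_mul, ← Fr.Z_mul, hT.comm]

/-- root groups without opposite indices commute -/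
theorem comm_far {a b c d : Fin n × Bool} (hab : Ok a b) (hcd : Ok c d) (hne : ¬ (a = b ∧ c = d)) (h1 : c ≠ ng a)
    (h2 : c ≠ ng b) (h3 : d ≠ ng a) (h4 : d ≠ ng b) {g k : V ≃ₗ[F] V} (hg : g ∈ PG Fr a b) (hk : k ∈ PG Fr c d) :
    g * k = k * g := by
  rcases hab with hab | rfl
  · rw [PG_ne Fr hab] at hg
    obtain ⟨s, rfl⟩ := hg
    rcases hcd with hcd | rfl
    · rw [PG_ne Fr hcd] at hk
      obtain ⟨t, rfl⟩ := hk
      exact Fr.commute_XX (x := a) (y := b) (z := c) (u := d) h1 h2 h3 h4 s t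
    · rw [PG_self] at hk
      obtain ⟨q, rfl⟩ := hk
      refine (Fr.commute_ZX (x := c) (y := a) (z := b) ?_ ?_ q s).symm
      · rintro rfl; exact h1 (ng_ng c).symm
      · rintro rfl; exact h2 (ng_ng c).symm
  · rw [PG_self] at hg
    obtain ⟨q, rfl⟩ := hg
    rcases hcd with hcd | rfl
    · rw [PG_ne Fr hcd] at hk
      obtain ⟨t, rfl⟩ := hk
      exact Fr.commute_ZX (x := a) (y := c) (z := d) h1 h3 q t
    · exact absurd ⟨rfl, rfl⟩ hne

/-- the commutators of `V_{e_a + e_b}` -/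
theorem comm_V {p : ℕ} (hT : TrZ Fr p) {a b c d : Fin n × Bool} (hab : a.1 ≠ b.1) (hac : Ok a c) (hbd : Ok b d)
    (hc : c ≠ ng b) (hd : d ≠ ng a) {g k : V ≃ₗ[F] V} (hg : g ∈ PG Fr a c) (hk : k ∈ PG Fr b d) :
    g * k * g⁻¹ * k⁻¹ ∈ XG Fr a b := by
  have one : g * k = k * g → g * k * g⁻¹ * k⁻¹ ∈ XG Fr a b := by
    intro h
    rw [h, mul_inv_cancel_right, mul_inv_cancel]
    exact one_mem _
  have hba : b ≠ ng a := fun h => hab (fst_of_ng h).symm
  by_cases h1 : a = c ∧ b = d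
  · obtain ⟨rfl, rfl⟩ := h1
    rw [PG_self] at hg hk
    obtain ⟨q, rfl⟩ := hg
    obtain ⟨r, rfl⟩ := hk
    refine ⟨-(Fr.η b * H.σ (H.h q.w r.w)), ?_⟩
    rw [Fr.Z_mul_Z hab]
    group
  by_cases h2 : d = ng c
  · -- `c ≠ a`, `d ≠ b`
    subst h2
    have hca : a.1 ≠ c.1 := by
      rcases hac with h | rfl
      · exact h
      · exact absurd rfl hd
    have hbc : c.1 ≠ b.1 := by
      rcases hbd with h | h
      · exact fun h' => h (by rw [← h']; rfl)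
      · exact absurd (by rw [h, ng_ng]) hc
    rw [PG_ne Fr hca] at hg
    have hbc' : b.1 ≠ (ng c).1 := fun h => hbc h.symm
    rw [PG_ne Fr hbc', XG_swap Fr hbc'] at hk
    obtain ⟨s, rfl⟩ := hg
    obtain ⟨t, rfl⟩ := hk
    refine ⟨s * t, ?_⟩
    have e1 := Fr.conj_X_X hca hbc hab s t
    have e3 : Fr.X a c s * Fr.X (ng c) b t * (Fr.X a c s)⁻¹ = _ := e1
    rw [e3]
    exact mul_inv_cancel_right _ _
  · apply one
    exact comm_far hac hbd h1 hba (by rintro rfl; exact hc (ng_ng c).symm) hd h2 hg hk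

theorem pow_PG' {p : ℕ} [CharP F p] (hT : TrZ Fr p) {a c : Fin n × Bool} (hac : Ok a c) {g : V ≃ₗ[F] V}
    (hg : g ∈ PG Fr a c) : g ^ p = 1 := by
  rcases hac with hac | rfl
  · rw [PG_ne Fr hac] at hg
    obtain ⟨s, rfl⟩ := hg
    rw [X_pow, CharP.cast_eq_zero, zero_mul, Fr.X_zero]
  · rw [PG_self] at hg
    obtain ⟨q, rfl⟩ := hg
    rw [Z_pow, hT.pow, Fr.Z_one]

/-- the rank one group of transvections -/
theorem mu_S {a : Fin n × Bool} {q : Fr.Adm} (hq : q.w = 0) (hc : q.c ≠ 0) :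
    ∃ s : Fr.Adm, s.w = 0 ∧ s.c ≠ 0 ∧ Fr.Z a s ∈ Z0G Fr (ng a) ⊔ cj (Fr.Z a q) (Z0G Fr (ng a)) := by
  set y : Fin n × Bool := ng a with hy
  have hny : neg y = a := by rw [hy]; exact ng_ng a
  have hη := Fr.η_ne y
  set μ : F := -(Fr.η y * q.c)⁻¹ with hμ
  have hμ0 : μ ≠ 0 := neg_ne_zero.2 (inv_ne_zero (mul_ne_zero hη hc))
  have hσμ : H.σ μ ≠ 0 := by simpa using hμ0
  have hσq : H.σ q.c ≠ 0 := by simpa using hc
  set p : Fr.Adm := Frame.Adm.smul μ q with hp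
  have hpc : p.c = μ * H.σ μ * q.c := rfl
  have hpw : p.w = 0 := by rw [hp, Frame.Adm.smul_w, hq, smul_zero]
  have hp' : p.c ≠ 0 := by rw [hpc]; exact mul_ne_zero (mul_ne_zero hμ0 hσμ) hc
  have hmid : Frame.Adm.smul (-(Fr.η y * (H.σ p.c)⁻¹)) p = q := by
    rw [hp, Frame.Adm.smul_smul]
    have e1 : -(Fr.η y * (H.σ (Frame.Adm.smul μ q).c)⁻¹) * μ = 1 := by
      rw [Frame.Adm.smul_c, map_mul, map_mul, H.σσ, hμ]
      simp only [map_neg, map_inv₀, map_mul, Fr.σ_η]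
      field_simp
    rw [e1, Frame.Adm.one_smul]
  set p' : Fr.Adm := Frame.Adm.smul (H.ε * p.c * (H.σ p.c)⁻¹) p with hp''
  have hp'w : p'.w = 0 := by rw [hp'', Frame.Adm.smul_w, hpw, smul_zero]
  have hN : nZ Fr y p = Fr.Z y p * Fr.Z a q * Fr.Z y p' := by
    rw [nZ, hmid, hny]
  obtain ⟨l, hl, hNb⟩ : ∃ l : F, l ≠ 0 ∧ nZ Fr y p (Fr.b y) = l • Fr.b a := by
    refine ⟨_, ?_, by rw [nZ_apply_self Fr y p hp', hny]⟩
    refine mul_ne_zero (mul_ne_zero H.ε_ne (inv_ne_zero hη)) (inv_ne_zero ?_)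
    simpa using hp'
  have hconj := conj_Z Fr (isIso_nZ Fr y p) hNb q q (by rw [hq, map_zero]) rfl
  have hσl : H.σ l ≠ 0 := by simpa using hl
  refine ⟨Frame.Adm.smul (H.σ l) q, by rw [Frame.Adm.smul_w, hq, smul_zero], ?_, ?_⟩
  · rw [Frame.Adm.smul_c]
    refine mul_ne_zero (mul_ne_zero hσl ?_) hc
    simpa using hl
  · rw [← hconj]
    have h1 : Fr.Z y p ∈ Z0G Fr y := ⟨p, hpw, rfl⟩
    have h2 : Fr.Z y p' ∈ Z0G Fr y := ⟨p', hp'w, rfl⟩
    have h3 : Fr.Z y q ∈ Z0G Fr y := ⟨q, hq, rfl⟩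
    have h4 : Fr.Z a q * (Fr.Z y p' * Fr.Z y q * (Fr.Z y p')⁻¹) * (Fr.Z a q)⁻¹ ∈ cj (Fr.Z a q) (Z0G Fr y) :=
      conj_mem_cj.2 (mul_mem (mul_mem h2 h3) (inv_mem h2))
    have e : nZ Fr y p * Fr.Z y q * (nZ Fr y p)⁻¹ =
        Fr.Z y p * (Fr.Z a q * (Fr.Z y p' * Fr.Z y q * (Fr.Z y p')⁻¹) * (Fr.Z a q)⁻¹) * (Fr.Z y p)⁻¹ := by
      rw [hN]; group
    rw [e]
    exact mul_mem (mul_mem (Subgroup.mem_sup_left h1) (Subgroup.mem_sup_right h4))
      (inv_mem (Subgroup.mem_sup_left h1))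

end Cfsg.Agent.H939.FrameRel
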