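import Mathlib
import Cfsg.Agent.H939.ClsOf
import Cfsg.Agent.H939.RgdB4
import Cfsg.Agent.H939.FrameRel

/-!
The classes of root subgroups of a model of a Witt frame (S5900).
-/

set_option autoImplicit false
set_option linter.unusedSectionVars false
set_option linter.dupNamespace false

namespace Cfsg.Agent.H939.FrameCls

open CoxeterSystem Cfsg Cfsg.Agent.ChevalleyStructure.CoxeterGeom Cfsg.Agent.Tits.Roots Cfsg.Agent.Nodes.TypeC
open Cfsg.Agent.Nodes.Comb Cfsg.Agent.Nodes.Reps Cfsg.Agent.Nodes.WittRoot Cfsg.Agent.Nodes.BNOf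
open Cfsg.Agent.Nodes.RGDLib Cfsg.Agent.Nodes.WittAll Cfsg.Agent.Nodes.StabComb Cfsg.Agent.Nodes.LeviDec
open Cfsg.Agent.Nodes.OppDec
open Cfsg.Agent.TitsThree Cfsg.Agent.TitsThree.Siegel Cfsg.Agent.TitsThree.WittFrame
  Cfsg.Agent.TitsThree.WittWeyl Cfsg.Agent.TitsThree.FrameCN
open Cfsg.Agent.KFacts.RgdFiltWitt Cfsg.Agent.H939.FrameRel Cfsg.Agent.H939.RgdTwo Cfsg.Agent.H939.ClsOf
  Cfsg.Agent.H939.RgdA

section General

variable {I W Y : Type*} [Fintype I] [DecidableEq I] [Group W] [Group Y] {M : CoxeterMatrix I}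
  {cs : CoxeterSystem M W} {A : I → I → ℤ} {h : IsCartan M A} {p : ℕ} {T : Subgroup Y} {n : I → Y}
  {X : (I → ℤ) → Subgroup Y}

/-- a central element of a root group is trivial -/
theorem eq_one_of_central [Finite W] (R : RGD cs h p T n X) {x : I → ℤ} (hx : IsRoot cs h x) {z : Y} (hz : z ∈ X x)
    (hc : z ∈ Subgroup.center Y) : z = 1 := by
  obtain ⟨w, hw⟩ := exists_neg (cs := cs) (h := h) hx
  obtain ⟨k, hk⟩ := exists_rp cs R.nsys w
  have h1 : k * z * k⁻¹ ∈ X (rep cs h w x) := R.conj_mem hk hx hz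
  have h2 : k * z * k⁻¹ = z := by
    rw [Subgroup.mem_center_iff.1 hc k, mul_inv_cancel_right]
  rw [h2, hw] at h1
  have h3 : z ∈ X x ⊓ X (-x) := ⟨hz, h1⟩
  have hne : x ≠ -x := by
    intro h4
    apply hx.ne_zero
    funext i
    have := congrFun h4 i
    rw [Pi.neg_apply] at this
    rw [Pi.zero_apply]; omega
  rw [X_inf_X R hx hx.neg hne, Subgroup.mem_bot] at h3
  exact h3

end General

/-! ### coordinates -/

section Coord

variable {n : ℕ} {W : Type*} [Group W] {cs : CoxeterSystem (CoxeterMatrix.B n) W}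

theorem bt_zero (hn : 0 < n) (j : Fin n) : bt j ⟨0, hn⟩ = if (j : ℕ) = 0 then (if 1 < n then 1 else 2) else 0 := by
  rw [bt_apply]
  have := j.2
  have e0 : ((⟨0, hn⟩ : Fin n) : ℕ) = 0 := rfl
  rw [e0]
  split_ifs <;> omega

theorem bt_one (hn : 1 < n) (j : Fin n) : bt j ⟨0, by omega⟩ + bt j ⟨1, hn⟩ =
    if (j : ℕ) = 1 then (if 2 < n then 1 else 2) else 0 := by
  rw [bt_apply, bt_apply]
  have := j.2
  have e0 : ((⟨0, by omega⟩ : Fin n) : ℕ) = 0 := rfl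
  have e1 : ((⟨1, hn⟩ : Fin n) : ℕ) = 1 := rfl
  rw [e0, e1]
  split_ifs <;> first | omega | contradiction

theorem ee_zero (hn : 0 < n) (x : Fin n → ℤ) : ee x ⟨0, hn⟩ = (if 1 < n then 1 else 2) * x ⟨0, hn⟩ := by
  unfold ee
  rw [Finset.sum_apply, Finset.sum_eq_single ⟨0, hn⟩]
  · rw [Pi.smul_apply, smul_eq_mul, bt_zero, if_pos rfl, mul_comm]
  · intro j _ hj
    have hj' : (j : ℕ) ≠ 0 := fun h => hj (Fin.ext h)
    rw [Pi.smul_apply, smul_eq_mul, bt_zero, if_neg hj', mul_zero]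
  · intro h; exact absurd (Finset.mem_univ _) h

theorem ee_one (hn : 1 < n) (x : Fin n → ℤ) : ee x ⟨0, by omega⟩ + ee x ⟨1, hn⟩ =
    (if 2 < n then 1 else 2) * x ⟨1, hn⟩ := by
  unfold ee
  rw [Finset.sum_apply, Finset.sum_apply, ← Finset.sum_add_distrib, Finset.sum_eq_single ⟨1, hn⟩]
  · rw [Pi.smul_apply, Pi.smul_apply, smul_eq_mul, smul_eq_mul, ← mul_add, bt_one, if_pos rfl, mul_comm]
  · intro j _ hj
    have hj' : (j : ℕ) ≠ 1 := fun h => hj (Fin.ext h)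
    rw [Pi.smul_apply, Pi.smul_apply, smul_eq_mul, smul_eq_mul, ← mul_add, bt_one, if_neg hj', mul_zero]
  · intro h; exact absurd (Finset.mem_univ _) h

theorem Cf_wt (i k : Fin n) : Cf i (wt (k, true)) =
    if (k : ℕ) = i then 1 else if (k : ℕ) = i + 1 then -1 else 0 := by
  unfold Cf
  have := k.2
  have := i.2
  by_cases h : (i : ℕ) + 1 < n
  · rw [dif_pos h, wt_apply, wt_apply]
    simp only [Fin.ext_iff, if_true]
    split_ifs <;> omega
  · rw [dif_neg h, wt_apply]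
    simp only [Fin.ext_iff, if_true]
    split_ifs <;> omega

/-- positive roots have no index `-e_0` -/
theorem ne_of_zero (hn : 0 < n) {x : Fin n → ℤ} (h0 : 0 ≤ x) {a b : Fin n × Bool} (hab : Ok a b)
    (e : ee x = wt a + wt b) : a ≠ (⟨0, hn⟩, false) ∧ b ≠ (⟨0, hn⟩, false) := by
  have h1 : 0 ≤ ee x ⟨0, hn⟩ := by
    rw [ee_zero]
    exact mul_nonneg (by split_ifs <;> norm_num) (h0 _)
  rw [e, Pi.add_apply] at h1
  have key : ∀ a b : Fin n × Bool, Ok a b → 0 ≤ wt a ⟨0, hn⟩ + wt b ⟨0, hn⟩ → a ≠ (⟨0, hn⟩, false) := by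
    rintro a b hab h1 rfl
    rw [wt_apply, wt_apply] at h1
    rcases hab with hab | rfl
    · simp only at hab
      rw [if_neg hab] at h1
      simp at h1
    · simp at h1
  exact ⟨key a b hab h1, key b a hab.symm (by rw [add_comm]; exact h1)⟩

theorem or_of_zero (hn : 0 < n) {x : Fin n → ℤ} (h0 : 0 < x ⟨0, hn⟩) {a b : Fin n × Bool}
    (e : ee x = wt a + wt b) : a = (⟨0, hn⟩, true) ∨ b = (⟨0, hn⟩, true) := by
  have h1 : 0 < ee x ⟨0, hn⟩ := by
    rw [ee_zero]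
    exact mul_pos (by split_ifs <;> norm_num) h0
  rw [e, Pi.add_apply, wt_apply, wt_apply] at h1
  obtain ⟨a, s⟩ := a
  obtain ⟨b, t⟩ := b
  simp only at h1
  by_cases ha : ⟨0, hn⟩ = a
  · subst ha
    cases s
    · by_cases hb : ⟨0, hn⟩ = b
      · subst hb
        cases t <;> simp at h1
      · rw [if_neg hb] at h1; simp at h1
    · left; rfl
  · rw [if_neg ha] at h1
    by_cases hb : ⟨0, hn⟩ = b
    · subst hb
      cases t
      · simp at h1
      · right; rfl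
    · rw [if_neg hb] at h1; simp at h1

/-- the coordinates at `0` and `1` -/
theorem of_one (hn0 : 0 < n) (hn : 1 < n) {x : Fin n → ℤ} (h0 : 0 ≤ x) {a b : Fin n × Bool} (hab : Ok a b)
    (e : ee x = wt a + wt b) : a ≠ (⟨0, hn0⟩, false) ∧ b ≠ (⟨0, hn0⟩, false) ∧
      (a = (⟨1, hn⟩, false) → b = (⟨0, hn0⟩, true)) ∧ (b = (⟨1, hn⟩, false) → a = (⟨0, hn0⟩, true)) := by
  obtain ⟨h2, h3⟩ := ne_of_zero hn0 h0 hab e
  refine ⟨h2, h3, ?_⟩
  have h1 : 0 ≤ ee x ⟨0, hn0⟩ + ee x ⟨1, hn⟩ := by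
    rw [ee_one hn]
    exact mul_nonneg (by split_ifs <;> norm_num) (h0 _)
  rw [e, Pi.add_apply, Pi.add_apply] at h1
  have key : ∀ a b : Fin n × Bool, Ok a b → a ≠ (⟨0, hn0⟩, false) →
      0 ≤ wt a ⟨0, hn0⟩ + wt b ⟨0, hn0⟩ + (wt a ⟨1, hn⟩ + wt b ⟨1, hn⟩) →
      (b = (⟨1, hn⟩, false) → a = (⟨0, hn0⟩, true)) := by
    rintro a b hab h2 h1 rfl
    rw [wt_apply, wt_apply, wt_apply, wt_apply] at h1
    obtain ⟨a, s⟩ := a
    have hne : (⟨0, hn0⟩ : Fin n) ≠ ⟨1, hn⟩ := by simp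
    simp only [if_true, if_false, hne, Bool.false_eq_true] at h1
    rcases hab with hab | hab
    · simp only at hab
      rw [if_neg (Ne.symm hab)] at h1
      by_cases ha : ⟨0, hn0⟩ = a
      · subst ha
        cases s
        · exact absurd rfl h2
        · rfl
      · rw [if_neg ha] at h1
        simp at h1
    · rw [Prod.ext_iff] at hab
      obtain ⟨rfl, rfl⟩ := hab
      simp at h1
  exact ⟨key b a hab.symm h3 (by linarith), key a b hab h2 h1⟩

theorem or_of_one (hn0 : 0 < n) (hn : 1 < n) {x : Fin n → ℤ} (h0 : 0 ≤ x) (h1 : 0 < x ⟨1, hn⟩) {a b : Fin n × Bool}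
    (hab : Ok a b) (e : ee x = wt a + wt b) :
    (a = (⟨0, hn0⟩, true) ∧ b ≠ (⟨1, hn⟩, false)) ∨ (b = (⟨0, hn0⟩, true) ∧ a ≠ (⟨1, hn⟩, false)) ∨
      (a = (⟨1, hn⟩, true) ∧ b ≠ (⟨0, hn0⟩, false)) ∨ (b = (⟨1, hn⟩, true) ∧ a ≠ (⟨0, hn0⟩, false)) := by
  obtain ⟨h2, h3, h4, h5⟩ := of_one hn0 hn h0 hab e
  have h1 : 0 < ee x ⟨0, hn0⟩ + ee x ⟨1, hn⟩ := by
    rw [ee_one hn]
    exact mul_pos (by split_ifs <;> norm_num) h1
  rw [e, Pi.add_apply, Pi.add_apply, wt_apply, wt_apply, wt_apply, wt_apply] at h1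
  obtain ⟨a, s⟩ := a
  obtain ⟨b, t⟩ := b
  have hne : (⟨0, hn0⟩ : Fin n) ≠ ⟨1, hn⟩ := by simp
  have hne' : (⟨1, hn⟩ : Fin n) ≠ ⟨0, hn0⟩ := by simp
  simp only at h1
  by_cases ha : ⟨0, hn0⟩ = a
  · subst ha
    rw [if_pos rfl, if_neg hne'] at h1
    by_cases hb : ⟨1, hn⟩ = b
    · subst hb
      rw [if_neg hne, if_pos rfl] at h1
      cases s <;> cases t <;> simp_all
    · left
      rw [if_neg hb] at h1
      by_cases hb' : ⟨0, hn0⟩ = b
      · subst hb'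
        cases s <;> cases t <;> simp_all
      · rw [if_neg hb'] at h1
        cases s
        · simp at h1
        · exact ⟨rfl, fun h => hb (congrArg Prod.fst h).symm⟩
  · rw [if_neg ha] at h1
    by_cases ha' : ⟨1, hn⟩ = a
    · subst ha'
      rw [if_pos rfl] at h1
      by_cases hb : ⟨1, hn⟩ = b
      · subst hb
        rw [if_neg hne, if_pos rfl] at h1
        cases s <;> cases t <;> simp_all
      · rw [if_neg hb] at h1
        by_cases hb' : ⟨0, hn0⟩ = b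
        · subst hb'
          rw [if_pos rfl] at h1
          cases s <;> cases t <;> simp_all
        · rw [if_neg hb'] at h1
          cases s
          · simp at h1
          · right; right; left; exact ⟨rfl, fun h => hb' (congrArg Prod.fst h).symm⟩
    · rw [if_neg ha'] at h1
      by_cases hb : ⟨1, hn⟩ = b
      · subst hb
        rw [if_neg hne, if_pos rfl] at h1
        cases t
        · simp at h1
        · right; right; right; exact ⟨rfl, fun h => ha (congrArg Prod.fst h).symm⟩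
      · rw [if_neg hb] at h1
        by_cases hb' : ⟨0, hn0⟩ = b
        · subst hb'
          rw [if_pos rfl] at h1
          cases t
          · simp at h1
          · right; left; exact ⟨rfl, fun h => ha' (congrArg Prod.fst h).symm⟩
        · rw [if_neg hb'] at h1
          simp at h1

theorem pair_S (hn : 0 < n) {r : Fin n → ℤ} (e : ee r = wt (⟨0, hn⟩, true) + wt (⟨0, hn⟩, true)) (i : Fin n) :
    pairing (A n) i r = if (i : ℕ) = 0 then 2 else 0 := by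
  rw [← Cf_ee, e, Cf_add, Cf_wt]
  have e0 : ((⟨0, hn⟩ : Fin n) : ℕ) = 0 := rfl
  rw [e0]
  split_ifs <;> first | omega | contradiction

theorem dom_S (hn : 0 < n) {r : Fin n → ℤ} (e : ee r = wt (⟨0, hn⟩, true) + wt (⟨0, hn⟩, true)) : Dom (A n) r := by
  intro i
  rw [pair_S hn e]
  split_ifs <;> norm_num

theorem notJ_S (hn : 0 < n) {r : Fin n → ℤ} (e : ee r = wt (⟨0, hn⟩, true) + wt (⟨0, hn⟩, true)) {x : Fin n → ℤ}
    (hx : x ∈ NotJ cs (isCartan n) (orth cs (isCartan n) r)) {a b : Fin n × Bool}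
    (ex : ee x = wt a + wt b) : a = (⟨0, hn⟩, true) ∨ b = (⟨0, hn⟩, true) := by
  obtain ⟨-, -, k, hk, hk0⟩ := hx
  rw [mem_orth, pair_S hn e] at hk
  have hk1 : (k : ℕ) = 0 := by
    by_contra h
    exact hk (if_neg h)
  have : k = ⟨0, hn⟩ := Fin.ext hk1
  subst this
  exact or_of_zero hn hk0 ex

theorem pair_O (hn0 : 0 < n) (hn : 1 < n) {r : Fin n → ℤ} (e : ee r = wt (⟨0, hn0⟩, true) + wt (⟨1, hn⟩, true))
    (i : Fin n) : pairing (A n) i r = if (i : ℕ) = 1 then 1 else 0 := by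
  rw [← Cf_ee, e, Cf_add, Cf_wt, Cf_wt]
  have e0 : ((⟨0, hn0⟩ : Fin n) : ℕ) = 0 := rfl
  have e1 : ((⟨1, hn⟩ : Fin n) : ℕ) = 1 := rfl
  rw [e0, e1]
  split_ifs <;> first | omega | contradiction

theorem dom_O (hn0 : 0 < n) (hn : 1 < n) {r : Fin n → ℤ} (e : ee r = wt (⟨0, hn0⟩, true) + wt (⟨1, hn⟩, true)) :
    Dom (A n) r := by
  intro i
  rw [pair_O hn0 hn e]
  split_ifs <;> norm_num

theorem notJ_O (hn0 : 0 < n) (hn : 1 < n) {r : Fin n → ℤ} (e : ee r = wt (⟨0, hn0⟩, true) + wt (⟨1, hn⟩, true))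
    {x : Fin n → ℤ} (hx : x ∈ NotJ cs (isCartan n) (orth cs (isCartan n) r)) {a b : Fin n × Bool} (hab : Ok a b)
    (ex : ee x = wt a + wt b) :
    (a = (⟨0, hn0⟩, true) ∧ b ≠ (⟨1, hn⟩, false)) ∨ (b = (⟨0, hn0⟩, true) ∧ a ≠ (⟨1, hn⟩, false)) ∨
      (a = (⟨1, hn⟩, true) ∧ b ≠ (⟨0, hn0⟩, false)) ∨ (b = (⟨1, hn⟩, true) ∧ a ≠ (⟨0, hn0⟩, false)) := by
  obtain ⟨-, h0, k, hk, hk0⟩ := hx
  rw [mem_orth, pair_O hn0 hn e] at hk
  have hk1 : (k : ℕ) = 1 := by
    by_contra h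
    exact hk (if_neg h)
  have : k = ⟨1, hn⟩ := Fin.ext hk1
  subst this
  exact or_of_one hn0 hn h0 hk0 hab ex

theorem Cf_wt' (i : Fin n) (k : Fin n) (s : Bool) : Cf i (wt (k, s)) =
    if s = true then (if (k : ℕ) = i then 1 else if (k : ℕ) = i + 1 then -1 else 0) else
      (if (k : ℕ) = i then -1 else if (k : ℕ) = i + 1 then 1 else 0) := by
  cases s
  · have : wt (k, false) = -wt (k, true) := wt_ng (k, true)
    rw [this, ← neg_one_smul ℤ (wt (k, true)), Cf_smul, Cf_wt]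
    simp only [Bool.false_eq_true, if_false]
    split_ifs <;> norm_num
  · rw [Cf_wt, if_pos rfl]

theorem dom_long (hn : 0 < n) {r : Fin n → ℤ} (hd : Dom (A n) r) {a : Fin n × Bool} (e : ee r = wt a + wt a) :
    a = (⟨0, hn⟩, true) := by
  obtain ⟨k, s⟩ := a
  have h1 : ∀ i : Fin n, 0 ≤ pairing (A n) i r := fun i => hd i
  simp only [← Cf_ee, e, Cf_add, Cf_wt'] at h1
  have hs : s = true := by
    by_contra hs
    have := h1 k
    rw [if_neg hs, if_pos rfl] at this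
    omega
  subst hs
  have hk : (k : ℕ) = 0 := by
    by_contra hk
    have hk' : (k : ℕ) - 1 < n := by have := k.2; omega
    have h2 := h1 ⟨(k : ℕ) - 1, hk'⟩
    have e1 : ((⟨(k : ℕ) - 1, hk'⟩ : Fin n) : ℕ) = k - 1 := rfl
    rw [e1] at h2
    split_ifs at h2 <;> first | omega | contradiction
  rw [Prod.mk.injEq]
  exact ⟨Fin.ext hk, rfl⟩

theorem dom_short (hn0 : 0 < n) (hn : 1 < n) {r : Fin n → ℤ} (hd : Dom (A n) r) {a b : Fin n × Bool}
    (hab : a.1 ≠ b.1) (e : ee r = wt a + wt b) : ee r = wt (⟨0, hn0⟩, true) + wt (⟨1, hn⟩, true) := by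
  have key2 : ∀ a b : Fin n × Bool, a.1 ≠ b.1 → ee r = wt a + wt b → (a.1 : ℕ) < b.1 →
      ee r = wt (⟨0, hn0⟩, true) + wt (⟨1, hn⟩, true) := by
    rintro ⟨k, s⟩ ⟨l, t⟩ hab e hlt
    simp only at hab hlt
    have h1 : ∀ i : Fin n, 0 ≤ pairing (A n) i r := fun i => hd i
    simp only [← Cf_ee, e, Cf_add, Cf_wt'] at h1
    have ht : t = true := by
      by_contra ht
      have h2 := h1 l
      rw [if_neg ht] at h2
      split_ifs at h2 <;> first | omega | contradiction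
    subst ht
    have hs : s = true := by
      by_contra hs
      have h2 := h1 k
      have h3 := h1 l
      rw [if_neg hs] at h2 h3
      split_ifs at h2 <;> first | omega | contradiction
    subst hs
    have hk : (k : ℕ) = 0 := by
      by_contra hk
      have hk' : (k : ℕ) - 1 < n := by have := k.2; omega
      have h2 := h1 ⟨(k : ℕ) - 1, hk'⟩
      have e1 : ((⟨(k : ℕ) - 1, hk'⟩ : Fin n) : ℕ) = k - 1 := rfl
      rw [e1] at h2
      split_ifs at h2 <;> first | omega | contradiction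
    have hl : (l : ℕ) = 1 := by
      by_contra hl
      have hl' : (l : ℕ) - 1 < n := by have := l.2; omega
      have h2 := h1 ⟨(l : ℕ) - 1, hl'⟩
      have e1 : ((⟨(l : ℕ) - 1, hl'⟩ : Fin n) : ℕ) = l - 1 := rfl
      rw [e1] at h2
      split_ifs at h2 <;> first | omega | contradiction
    rw [e]
    have hk' : k = ⟨0, hn0⟩ := Fin.ext hk
    have hl' : l = ⟨1, hn⟩ := Fin.ext hl
    rw [hk', hl']
  rcases lt_trichotomy (a.1 : ℕ) (b.1 : ℕ) with h | h | h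
  · exact key2 a b hab e h
  · exact absurd (Fin.ext h) hab
  · exact key2 b a hab.symm (by rw [e, add_comm]) h

end Coord

/-! ### images in a model -/

section Model

variable {F : Type*} [Field F] {V : Type*} [AddCommGroup V] [Module F V] {H : HForm F V} {n : ℕ}
  {Fr : Frame H (Fin n)} {K : Type*} [Group K] (M : Model Fr K)

/-- the image of a subgroup in the model -/
def img (S : Subgroup (V ≃ₗ[F] V)) : Subgroup K := (S.subgroupOf M.I).map M.φ

theorem mem_img {S : Subgroup (V ≃ₗ[F] V)} {k : K} :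
    k ∈ img M S ↔ ∃ (g : V ≃ₗ[F] V) (hg : g ∈ M.I), g ∈ S ∧ k = M.φ ⟨g, hg⟩ := by
  constructor
  · rintro ⟨⟨g, hg⟩, h, rfl⟩
    exact ⟨g, hg, h, rfl⟩
  · rintro ⟨g, hg, h, rfl⟩
    exact Subgroup.mem_map_of_mem _ (Subgroup.mem_subgroupOf.2 h)

theorem X_eq_img (x : Fin n → ℤ) : Nodes.WittModel.X M x = img M (rg Fr x) := rfl

theorem img_mono {S S' : Subgroup (V ≃ₗ[F] V)} (h : S ≤ S') : img M S ≤ img M S' := by
  intro k hk
  obtain ⟨g, hg, hgS, rfl⟩ := (mem_img M).1 hk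
  exact (mem_img M).2 ⟨g, hg, h hgS, rfl⟩

theorem img_comm {S S' : Subgroup (V ≃ₗ[F] V)} (h : ∀ a ∈ S, ∀ b ∈ S', a * b = b * a) :
    ∀ a ∈ img M S, ∀ b ∈ img M S', a * b = b * a := by
  intro a ha b hb
  obtain ⟨g, hg, hgS, rfl⟩ := (mem_img M).1 ha
  obtain ⟨k, hk, hkS, rfl⟩ := (mem_img M).1 hb
  rw [← map_mul, ← map_mul]
  congr 1
  exact Subtype.ext (h g hgS k hkS)

theorem img_cm {S S' U : Subgroup (V ≃ₗ[F] V)} (h : ∀ a ∈ S, ∀ b ∈ S', a * b * a⁻¹ * b⁻¹ ∈ U) :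
    ∀ a ∈ img M S, ∀ b ∈ img M S', a * b * a⁻¹ * b⁻¹ ∈ img M U := by
  intro a ha b hb
  obtain ⟨g, hg, hgS, rfl⟩ := (mem_img M).1 ha
  obtain ⟨k, hk, hkS, rfl⟩ := (mem_img M).1 hb
  rw [← map_mul, ← map_inv, ← map_inv, ← map_mul, ← map_mul]
  exact (mem_img M).2 ⟨_, _, h g hgS k hkS, rfl⟩

theorem img_pow {S U : Subgroup (V ≃ₗ[F] V)} {m : ℕ} (h : ∀ a ∈ S, a ^ m ∈ U) : ∀ a ∈ img M S, a ^ m ∈ img M U := by
  intro a ha
  obtain ⟨g, hg, hgS, rfl⟩ := (mem_img M).1 ha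
  rw [← map_pow]
  exact (mem_img M).2 ⟨_, _, h g hgS, rfl⟩

theorem cj_img (g : M.I) (S : Subgroup (V ≃ₗ[F] V)) : cj (M.φ g) (img M S) = img M (cj (g : V ≃ₗ[F] V) S) := by
  apply le_antisymm
  · intro k hk
    rw [mem_cj] at hk
    obtain ⟨u, hu, huS, e⟩ := (mem_img M).1 hk
    have e2 : k = M.φ (g * ⟨u, hu⟩ * g⁻¹) := by
      rw [map_mul, map_mul, map_inv, ← e]; group
    rw [e2]
    exact (mem_img M).2 ⟨_, _, conj_mem_cj.2 huS, rfl⟩
  · intro k hk
    obtain ⟨u, hu, huS, rfl⟩ := (mem_img M).1 hk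
    rw [mem_cj, ← map_inv, ← map_mul, ← map_mul]
    exact (mem_img M).2 ⟨_, _, mem_cj.1 huS, rfl⟩

end Model

section Cls

variable {F : Type*} [Field F] {V : Type*} [AddCommGroup V] [Module F V] {H : HForm F V} {n : ℕ}
  {Fr : Frame H (Fin n)} {K : Type*} [Group K] (M : Model Fr K) {p : ℕ} (hA : AmbT Fr p M.I) [Finite V]
  [Fact p.Prime] [CharP F p] {p0 : Fr.Adm} (hp0 : p0.c ≠ 0) {W : Type*} [Group W]
  (cs : CoxeterSystem (CoxeterMatrix.B n) W)

include hA hp0 in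
/-- root elements survive in the model -/
theorem phi_ne_one {x : Fin n → ℤ} (hx : IsRoot cs (isCartan n) x) {g : V ≃ₗ[F] V} (hg : g ∈ M.I) (hgx : g ∈ rg Fr x)
    (hne : g ≠ 1) : M.φ ⟨g, hg⟩ ≠ 1 := by
  have : Finite (V ≃ₗ[F] V) := Finite.of_injective (fun g : V ≃ₗ[F] V => (g : V → V)) DFunLike.coe_injective
  have : Finite W := finite_W cs
  have R := rgd_restrict (rgdC hA hp0 cs) M.I (fun x _ => hA.rg_le x) (fun i => nn_mem hA p0 i)
  intro h1
  apply hne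
  have h2 : (⟨g, hg⟩ : M.I) ∈ M.φ.ker := h1
  have h3 := eq_one_of_central R hx (Subgroup.mem_subgroupOf.2 hgx) (ker_le_center M h2)
  exact congrArg Subtype.val h3

theorem X_eq {x : Fin n → ℤ} {a b : Fin n × Bool} (hab : Ok a b) (e : ee x = wt a + wt b) :
    Nodes.WittModel.X M x = img M (PG Fr a b) := by
  rw [X_eq_img, rg_eq Fr hab e]

theorem Z_apply_ne {a : Fin n × Bool} {q : Fr.Adm} (hq : q.w = 0) (hc : q.c ≠ 0) : Fr.Z a q ≠ 1 := by
  intro h
  have h1 := Z_apply_neg Fr a q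
  rw [h, hq, smul_zero, add_zero] at h1
  have h2 : (q.c * Fr.η a) • Fr.b a = 0 := by
    have h3 : (1 : V ≃ₗ[F] V) (Fr.b (neg a)) = Fr.b (neg a) := rfl
    rw [h3] at h1
    exact (left_eq_add.1 h1)
  rcases smul_eq_zero.1 h2 with h3 | h3
  · exact mul_ne_zero hc (Fr.η_ne a) h3
  · exact Nodes.WittRGD.b_ne_zero a h3

/-- the family `zr` is permuted -/
theorem conj_zr {w : W} {k : K} (hk : Rp cs (rgdC_model M hA hp0 cs).nsys w k) {x : Fin n → ℤ}
    (hx : IsRoot cs (isCartan n) x) : cj k (img M (zr Fr x)) = img M (zr Fr (rep cs (isCartan n) w x)) := by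
  have : Finite W := finite_W cs
  have htwo := two (cs := cs) hA (T := Nodes.WittRGD.Tor Fr M.I)
    (fun i => ⟨nn_mem hA p0 i, Nodes.WittRGD.mono_nn hp0 i⟩) (fun _ ht => ⟨ht.1, ht.2⟩) (rgdC hA hp0 cs)
  refine conj_fam (rgdC_model M hA hp0 cs) (zz := fun x => img M (zr Fr x))
    (O := {x | IsRoot cs (isCartan n) x}) ?_ ?_ ?_ hk hx
  · intro i x hx
    exact hx.act _
  · intro i x hx
    show cj (M.φ ⟨Nodes.WittRGD.nn Fr p0 i, nn_mem hA p0 i⟩) (img M (zr Fr x)) = _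
    rw [cj_img]
    exact congrArg (img M) (htwo.conj i x hx)
  · rintro x hx _ ⟨t, ht, rfl⟩
    rw [cj_img]
    exact congrArg (img M) (htwo.tor x hx t (Subgroup.mem_subgroupOf.1 ht))

/-- **the class of transvections** -/
theorem cls_S (hn : 0 < n) (hq : ∃ q : Fr.Adm, q.w = 0 ∧ q.c ≠ 0) {r : Fin n → ℤ}
    (e : ee r = wt (⟨0, hn⟩, true) + wt (⟨0, hn⟩, true)) :
    Cls (rgdC_model M hA hp0 cs) r (img M (Z0G Fr (⟨0, hn⟩, true))) := by
  have : Finite W := finite_W cs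
  set a : Fin n × Bool := (⟨0, hn⟩, true) with ha
  have hr : IsRoot cs (isCartan n) r := isRoot_iff.2 ⟨a, a, Or.inr rfl, e⟩
  have hZ : img M (Z0G Fr a) = img M (zr Fr r) := by rw [zr_eq Fr (Or.inr rfl) e, ZP_self]
  refine cls_of _ hr (dom_S hn e) ?_ ?_ ?_ ?_ ?_ ?_ ?_ ?_
  · rw [X_eq M (Or.inr rfl) e]
    exact img_mono M (by rw [PG_self]; exact Z0G_le Fr a)
  · obtain ⟨q, hq, hqc⟩ := hq
    rw [Subgroup.ne_bot_iff_exists_ne_one]
    have h1 : Fr.Z a q ∈ M.I := hA.Z_mem a q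
    refine ⟨⟨M.φ ⟨Fr.Z a q, h1⟩, (mem_img M).2 ⟨_, h1, ⟨q, hq, rfl⟩, rfl⟩⟩, ?_⟩
    intro h2
    refine phi_ne_one M hA hp0 cs hr h1 ?_ (Z_apply_ne hq hqc) (congrArg Subtype.val h2)
    rw [rg_eq Fr (Or.inr rfl) e, PG_self]
    exact ⟨q, rfl⟩
  · rintro _ ⟨t, ht, rfl⟩
    rw [cj_img]
    have h1 : (t : V ≃ₗ[F] V) ∈ Nodes.WittRGD.Tor Fr M.I := Subgroup.mem_subgroupOf.1 ht
    have h2 := cj_id hA h1.1 h1.2 (Or.inr rfl : Ok a a)
    rw [ZP_self] at h2
    rw [h2]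
  · intro w k hk hw
    rw [hZ, conj_zr M hA hp0 cs hk hr, hw]
  · intro x hx h0
    obtain ⟨c, d, hcd, ex⟩ := exists_of_isRoot cs hx
    obtain ⟨h1, h2⟩ := ne_of_zero hn h0 hcd ex
    rw [X_eq M hcd ex]
    exact img_comm M fun z hz g hg => comm_Z0_PG (a := a) hcd h1 h2 hz hg
  · have key : ∀ x ∈ NotJ cs (isCartan n) (orth cs (isCartan n) r), ∃ c, Ok a c ∧
        Nodes.WittModel.X M x = img M (PG Fr a c) := by
      intro x hx
      obtain ⟨c, d, hcd, ex⟩ := exists_of_isRoot cs hx.1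
      rcases notJ_S hn e hx ex with rfl | rfl
      · exact ⟨d, hcd, X_eq M hcd ex⟩
      · exact ⟨c, hcd.symm, X_eq M hcd.symm (by rw [ex, add_comm])⟩
    intro x hx y hy
    obtain ⟨c, hc, e1⟩ := key x hx
    obtain ⟨d, hd, e2⟩ := key y hy
    rw [e1, e2]
    exact img_cm M fun g hg k hk => comm_PG_same hc hd hg hk
  · intro x hx
    obtain ⟨c, d, hcd, ex⟩ := exists_of_isRoot cs hx.1
    rcases notJ_S hn e hx ex with rfl | rfl
    · rw [X_eq M hcd ex]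
      exact img_pow M fun g hg => pow_PG hcd hg
    · rw [X_eq M hcd.symm (by rw [ex, add_comm])]
      exact img_pow M fun g hg => pow_PG hcd.symm hg
  · intro z hz
    have := img_pow M (S := Z0G Fr a) (U := ⊥) (m := p) (fun g hg => by
      rw [Subgroup.mem_bot]; exact pow_Z0 hg) z hz
    obtain ⟨g, hg, hg1, e⟩ := (mem_img M).1 this
    rw [Subgroup.mem_bot] at hg1
    subst hg1
    rw [e]; exact map_one M.φ

end Cls

end Cfsg.Agent.H939.FrameCls
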