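import Mathlib
import Cfsg.Agent.H939.FrameCls

/-!
The bond of order four of a model of a Witt frame (S5900).
-/

set_option autoImplicit false
set_option linter.unusedSectionVars false
set_option linter.dupNamespace false

namespace Cfsg.Agent.H939.FrameB4

open CoxeterSystem Cfsg Cfsg.Agent.ChevalleyStructure.CoxeterGeom Cfsg.Agent.Tits.Roots Cfsg.Agent.Nodes.TypeC
open Cfsg.Agent.Nodes.Comb Cfsg.Agent.Nodes.Reps Cfsg.Agent.Nodes.WittRoot Cfsg.Agent.Nodes.BNOf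
open Cfsg.Agent.Nodes.RGDLib Cfsg.Agent.Nodes.WittAll Cfsg.Agent.Nodes.StabComb Cfsg.Agent.Nodes.LeviDec
open Cfsg.Agent.Nodes.OppDec
open Cfsg.Agent.TitsThree Cfsg.Agent.TitsThree.Siegel Cfsg.Agent.TitsThree.WittFrame
  Cfsg.Agent.TitsThree.WittWeyl Cfsg.Agent.TitsThree.FrameCN
open Cfsg.Agent.KFacts.RgdFiltWitt Cfsg.Agent.H939.FrameRel Cfsg.Agent.H939.RgdTwo Cfsg.Agent.H939.ClsOf
  Cfsg.Agent.H939.RgdA Cfsg.Agent.H939.FrameCls Cfsg.Agent.H939.RgdB4
open scoped commutatorElement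

section Coord

variable {n : ℕ} {W : Type*} [Group W] {cs : CoxeterSystem (CoxeterMatrix.B n) W}

theorem B_apply (i j : Fin n) : CoxeterMatrix.B n i j =
    if i = j then 1 else if (i : ℕ) + 1 = n ∧ (j : ℕ) + 2 = n ∨ (j : ℕ) + 1 = n ∧ (i : ℕ) + 2 = n then 4
      else if (j : ℕ) + 1 = i ∨ (i : ℕ) + 1 = j then 3 else 2 := by
  show (Matrix.of fun (i j : Fin n) => _) i j = _
  simp only [Matrix.of_apply]
  have := i.2
  have := j.2
  split_ifs <;> first | rfl | omega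

theorem nx_last {i : Fin n} (hi : (i : ℕ) + 1 = n) : nx i = (i, true) := by
  unfold nx; rw [dif_neg (by omega)]

theorem nx_pre {i j : Fin n} (hi : (i : ℕ) + 1 = n) (hj : (j : ℕ) + 2 = n) : nx j = (i, false) := by
  unfold nx; rw [dif_pos (by omega)]
  congr 1
  exact Fin.ext (by show (j : ℕ) + 1 = i; omega)

theorem ee_i {i : Fin n} (hi : (i : ℕ) + 1 = n) : ee (sr i) = wt (i, true) + wt (i, true) := by
  rw [ee_sr, bt, nx_last hi]

theorem ee_j {i j : Fin n} (hi : (i : ℕ) + 1 = n) (hj : (j : ℕ) + 2 = n) :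
    ee (sr j) = wt (j, true) + wt (i, false) := by
  rw [ee_sr, bt, nx_pre hi hj]

theorem sg_i_i {i : Fin n} (hi : (i : ℕ) + 1 = n) (s : Bool) : sg i (i, s) = (i, !s) :=
  sg_last (by omega) s

theorem sg_i_j {i j : Fin n} (hi : (i : ℕ) + 1 = n) (hj : (j : ℕ) + 2 = n) (s : Bool) : sg i (j, s) = (j, s) :=
  sg_of_ne (by intro h; have := congrArg Fin.val h; simp at this; omega) (by show (j : ℕ) ≠ i + 1; omega)

theorem sg_j_i {i j : Fin n} (hi : (i : ℕ) + 1 = n) (hj : (j : ℕ) + 2 = n) (s : Bool) : sg j (i, s) = (j, s) := by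
  have h : (j : ℕ) + 1 < n := by omega
  have e : i = ⟨(j : ℕ) + 1, h⟩ := Fin.ext (by show (i : ℕ) = j + 1; omega)
  conv_lhs => rw [e]
  exact sg_down h s

theorem sg_j_j {i j : Fin n} (hi : (i : ℕ) + 1 = n) (hj : (j : ℕ) + 2 = n) (s : Bool) : sg j (j, s) = (i, s) := by
  have h : (j : ℕ) + 1 < n := by omega
  have e : i = ⟨(j : ℕ) + 1, h⟩ := Fin.ext (by show (i : ℕ) = j + 1; omega)
  rw [e]
  exact sg_up h s

theorem ee_ij {i j : Fin n} (hi : (i : ℕ) + 1 = n) (hj : (j : ℕ) + 2 = n) :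
    ee (rep cs (isCartan n) (cs.simple i) (sr j)) = wt (j, true) + wt (i, true) := by
  rw [rep_simple, ee_refl_of (ee_j hi hj), sg_i_j hi hj, sg_i_i hi]; rfl

theorem ee_ji {i j : Fin n} (hi : (i : ℕ) + 1 = n) (hj : (j : ℕ) + 2 = n) :
    ee (rep cs (isCartan n) (cs.simple j) (sr i)) = wt (j, true) + wt (j, true) := by
  rw [rep_simple, ee_refl_of (ee_i hi), sg_j_i hi hj]

end Coord

section Main

variable {F : Type*} [Field F] {V : Type*} [AddCommGroup V] [Module F V] {H : HForm F V} {n : ℕ}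
  {Fr : Frame H (Fin n)} {K : Type*} [Group K] (M : Model Fr K) {p : ℕ} (hA : AmbT Fr p M.I) [Finite V]
  [Fact p.Prime] [CharP F p] {p0 : Fr.Adm} (hp0 : p0.c ≠ 0) {W : Type*} [Group W]
  (cs : CoxeterSystem (CoxeterMatrix.B n) W)

theorem mem_cm {S S' U : Subgroup (V ≃ₗ[F] V)} (h : ∀ a ∈ S, ∀ b ∈ S', a * b * a⁻¹ * b⁻¹ ∈ U) :
    ∀ a ∈ img M S, ∀ b ∈ img M S', ⁅a, b⁆ ∈ img M U := by
  intro a ha b hb
  rw [commutatorElement_def]
  exact img_cm M h a ha b hb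

theorem mono_fst_ne {i j : Fin n} (hi : (i : ℕ) + 1 = n) (hj : (j : ℕ) + 2 = n) (s t : Bool) :
    ((j, s) : Fin n × Bool).1 ≠ ((i, t) : Fin n × Bool).1 := by
  intro h
  have : (j : ℕ) = i := congrArg Fin.val h
  omega

/-- the bond of order four, the class of transvections -/
theorem b4_S (hn : 0 < n) (htr : ∃ m : F, (Frame.Adm.tr m : Fr.Adm) ≠ 1) {i j : Fin n}
    (hi : (i : ℕ) + 1 = n) (hj : (j : ℕ) + 2 = n) {r : Fin n → ℤ} (hr : IsRoot cs (isCartan n) r)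
    (e : ee r = wt (⟨0, hn⟩, true) + wt (⟨0, hn⟩, true)) {w₀ : W} (hw₀ : rep cs (isCartan n) w₀ (sr i) = r) :
    B4 (rgdC_model M hA hp0 cs) r (img M (Z0G Fr (⟨0, hn⟩, true))) i j (img M (Z0G Fr (j, true))) := by
  have hWf : Finite W := finite_W cs
  have hji : ((j, true) : Fin n × Bool).1 ≠ ((i, true) : Fin n × Bool).1 := mono_fst_ne hi hj _ _
  have hji' : ((j, true) : Fin n × Bool).1 ≠ ((i, false) : Fin n × Bool).1 := mono_fst_ne hi hj _ _
  have e1 : Nodes.WittModel.X M (sr i) = img M (ZG Fr (i, true)) := by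
    rw [X_eq M (Or.inr rfl) (ee_i hi), PG_self]
  have e1n : Nodes.WittModel.X M (-sr i) = img M (ZG Fr (ng (i, true))) := by
    rw [X_eq M (a := ng (i, true)) (b := ng (i, true)) (Or.inr rfl)
      (by rw [ee_neg, ee_i hi, wt_ng]; abel), PG_self]
  have e2 : Nodes.WittModel.X M (sr j) = img M (XG Fr (j, true) (i, false)) := by
    rw [X_eq M (Or.inl hji') (ee_j hi hj), PG_ne Fr hji']
  have e3 : Nodes.WittModel.X M (rep cs (isCartan n) (cs.simple i) (sr j)) = img M (XG Fr (j, true) (i, true)) := by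
    rw [X_eq M (Or.inl hji) (ee_ij hi hj), PG_ne Fr hji]
  have e4 : Nodes.WittModel.X M (rep cs (isCartan n) (cs.simple j) (sr i)) = img M (ZG Fr (j, true)) := by
    rw [X_eq M (Or.inr rfl) (ee_ji hi hj), PG_self]
  have hγ : IsRoot cs (isCartan n) (rep cs (isCartan n) (cs.simple j) (sr i)) := (isRoot_sr cs _ i).act _
  have hzZ : ∀ {a : Fin n × Bool} {x : Fin n → ℤ}, ee x = wt a + wt a → img M (Z0G Fr a) = img M (zr Fr x) := by
    intro a x ex
    rw [zr_eq Fr (Or.inr rfl) ex, ZP_self]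
  refine ⟨?_, ?_, ?_, ?_, ?_, ?_, ?_, ?_, ?_, ?_, ?_⟩
  · rw [B_apply, if_neg (by intro h; exact hji (by rw [h])), if_pos (Or.inl ⟨hi, hj⟩)]
  · obtain ⟨k, hk⟩ := exists_rp cs (rgdC_model M hA hp0 cs).nsys (cs.simple j * w₀⁻¹)
    refine ⟨cs.simple j * w₀⁻¹, k, hk, ?_, ?_⟩
    · rw [rep_mul_apply, ← hw₀, rep_inv_apply]
    · rw [hzZ e, conj_zr M hA hp0 cs hk hr, rep_mul_apply, ← hw₀, rep_inv_apply, hzZ (ee_ji (cs := cs) hi hj)]
  · rw [e2, e3, e4]
    refine mem_cm M fun a ha b hb => ?_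
    rw [← PG_ne Fr hji'] at ha
    rw [← PG_ne Fr hji] at hb
    exact Z0G_le Fr _ (comm_PG_same (Or.inl hji') (Or.inl hji) ha hb)
  · rw [e2, e4]
    refine img_comm M ?_
    rintro _ ⟨s, rfl⟩ _ ⟨q, rfl⟩
    exact (Fr.commute_ZX (x := (j, true)) (y := (j, true)) (z := (i, false)) (ne_ng _)
      (fun h => hji' (fst_of_ng h).symm) q s).symm
  · rw [e3, e4]
    refine img_comm M ?_
    rintro _ ⟨s, rfl⟩ _ ⟨q, rfl⟩
    exact (Fr.commute_ZX (x := (j, true)) (y := (j, true)) (z := (i, true)) (ne_ng _)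
      (fun h => hji (fst_of_ng h).symm) q s).symm
  · rw [e3]
    refine img_comm M ?_
    rintro _ ⟨s, rfl⟩ _ ⟨t, rfl⟩
    rw [← Fr.X_add, ← Fr.X_add, add_comm]
  · rw [e4]
    refine img_comm M fun z hz g hg => ?_
    exact comm_Z0_PG (Or.inr rfl) (ne_ng _) (ne_ng _) hz (by rw [PG_self]; exact hg)
  · rw [e1]
    refine img_comm M fun z hz g hg => ?_
    exact comm_Z0_PG (a := (j, true)) (c := (i, true)) (Or.inr rfl) (fun h => hji (fst_of_ng h).symm)
      (fun h => hji (fst_of_ng h).symm) hz (by rw [PG_self]; exact hg)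
  · rw [e1n]
    refine img_comm M fun z hz g hg => ?_
    exact comm_Z0_PG (a := (j, true)) (c := ng (i, true)) (Or.inr rfl)
      (fun h => hji (fst_of_ng (a := ng (i, true)) h).symm)
      (fun h => hji (fst_of_ng (a := ng (i, true)) h).symm) hz (by rw [PG_self]; exact hg)
  · rw [e2, e3]
    intro a ha ha1
    obtain ⟨g, hg, ⟨s, rfl⟩, rfl⟩ := (mem_img M).1 ha
    have hs : s ≠ 0 := by
      rintro rfl
      apply ha1
      have : (⟨Fr.X (j, true) (i, false) 0, hg⟩ : M.I) = 1 := Subtype.ext (Fr.X_zero _ _)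
      rw [this, map_one]
    obtain ⟨m, hm⟩ := htr
    have hmc : (Frame.Adm.tr m : Fr.Adm).c ≠ 0 := by
      intro h0
      exact hm (Frame.Adm.ext rfl h0)
    set t : F := H.σ (m * Fr.η (neg (i, true)) * s⁻¹) with ht
    have h1 : Fr.X (j, true) (i, true) t ∈ M.I := hA.X_mem _ _ _
    refine ⟨M.φ ⟨_, h1⟩, (mem_img M).2 ⟨_, h1, ⟨t, rfl⟩, rfl⟩, ?_⟩
    have h2 := Fr.X_mul_X_same hji t s
    have h3 : H.σ t * s * (Fr.η (neg (i, true)))⁻¹ = m := by
      rw [ht, H.σσ]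
      have := Fr.η_ne (neg (i, true))
      field_simp
    rw [h3] at h2
    have h4 : ⁅M.φ ⟨Fr.X (j, true) (i, true) t, h1⟩, M.φ ⟨Fr.X (j, true) (i, false) s, hg⟩⁆ =
        M.φ ⟨Fr.Z (j, true) (Frame.Adm.tr m), hA.Z_mem _ _⟩ := by
      rw [← map_commutatorElement]
      congr 1
      apply Subtype.ext
      show ⁅Fr.X (j, true) (i, true) t, Fr.X (j, true) (i, false) s⁆ = _
      rw [commutatorElement_def]
      have h5 : Fr.X (j, true) (i, true) t * Fr.X (j, true) (i, false) s = _ := h2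
      rw [h5]
      show _ * (Fr.X (j, true) (i, false) s * Fr.X (j, true) (i, true) t) * (Fr.X (j, true) (i, true) t)⁻¹ *
        (Fr.X (j, true) (i, false) s)⁻¹ = _
      group
    rw [h4]
    refine ⟨(mem_img M).2 ⟨_, hA.Z_mem _ _, ⟨_, rfl, rfl⟩, rfl⟩, ?_⟩
    refine phi_ne_one M hA hp0 cs hγ _ ?_ (Z_apply_ne (a := (j, true)) rfl hmc)
    rw [rg_eq Fr (Or.inr rfl) (ee_ji hi hj), PG_self]
    exact ⟨_, rfl⟩
  · intro z hz hz1 w m hm hw
    obtain ⟨g, hg, ⟨q, hq, rfl⟩, rfl⟩ := (mem_img M).1 hz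
    have hqc : q.c ≠ 0 := by
      intro h0
      apply hz1
      have h1 : q = 1 := Frame.Adm.ext hq h0
      have : (⟨Fr.Z (j, true) q, hg⟩ : M.I) = 1 := Subtype.ext (by
        show Fr.Z (j, true) q = 1
        rw [h1]; exact Fr.Z_one _)
      rw [this, map_one]
    have h1 : cj m (img M (Z0G Fr (j, true))) = img M (Z0G Fr (ng (j, true))) := by
      rw [hzZ (ee_ji (cs := cs) hi hj), conj_zr M hA hp0 cs hm hγ, hw, ← hzZ]
      rw [ee_neg, ee_ji hi hj, wt_ng]; abel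
    rw [h1]
    obtain ⟨s, hs, hsc, h2⟩ := mu_S (a := (j, true)) hq hqc
    have hsI : Fr.Z (j, true) s ∈ M.I := hA.Z_mem _ _
    refine ⟨M.φ ⟨_, hsI⟩, ?_, (mem_img M).2 ⟨_, hsI, ⟨s, hs, rfl⟩, rfl⟩, ?_⟩
    · have h3 : cj (M.φ ⟨Fr.Z (j, true) q, hg⟩) (img M (Z0G Fr (ng (j, true)))) =
          img M (cj (Fr.Z (j, true) q) (Z0G Fr (ng (j, true)))) := cj_img M _ _
      rw [h3]
      have h4 : Z0G Fr (ng (j, true)) ≤ M.I := by
        rintro _ ⟨q, -, rfl⟩; exact hA.Z_mem _ _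
      have h5 : cj (Fr.Z (j, true) q) (Z0G Fr (ng (j, true))) ≤ M.I := by
        intro u hu
        rw [mem_cj] at hu
        have e : u = Fr.Z (j, true) q * ((Fr.Z (j, true) q)⁻¹ * u * Fr.Z (j, true) q) * (Fr.Z (j, true) q)⁻¹ := by
          group
        rw [e]
        exact mul_mem (mul_mem hg (h4 hu)) (inv_mem hg)
      unfold img
      rw [← Subgroup.map_sup, ← Subgroup.subgroupOf_sup h4 h5]
      exact Subgroup.mem_map_of_mem _ (Subgroup.mem_subgroupOf.2 h2)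
    · refine phi_ne_one M hA hp0 cs hγ _ ?_ (Z_apply_ne (a := (j, true)) hs hsc)
      rw [rg_eq Fr (Or.inr rfl) (ee_ji hi hj), PG_self]
      exact ⟨_, rfl⟩

end Main

end Cfsg.Agent.H939.FrameB4
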