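import Mathlib
import Cfsg.Agent.H939.FrameB4
import Cfsg.Agent.H939.InstSL

/-!
Complemented subgroup lattices of the models of Witt frames (S5900): `cl_S` (transvections), `cl_O` (orthogonal groups),
`cl_two` (symplectic groups in characteristic two).
-/

set_option autoImplicit false
set_option linter.unusedSectionVars false
set_option linter.dupNamespace false

namespace Cfsg.Agent.H939.FrameMain

open CoxeterSystem Cfsg Cfsg.Agent.ChevalleyStructure.CoxeterGeom Cfsg.Agent.Tits.Roots Cfsg.Agent.Nodes.TypeC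
open Cfsg.Agent.Nodes.Comb Cfsg.Agent.Nodes.Reps Cfsg.Agent.Nodes.WittRoot Cfsg.Agent.Nodes.BNOf
open Cfsg.Agent.Nodes.RGDLib Cfsg.Agent.Nodes.WittAll Cfsg.Agent.Nodes.StabComb Cfsg.Agent.Nodes.LeviDec
open Cfsg.Agent.Nodes.OppDec Cfsg.Agent.Nodes.Bruhat
open Cfsg.Agent.TitsThree Cfsg.Agent.TitsThree.Siegel Cfsg.Agent.TitsThree.WittFrame
  Cfsg.Agent.TitsThree.WittWeyl Cfsg.Agent.TitsThree.FrameCN
open Cfsg.Agent.KFacts.RgdFiltWitt Cfsg.Agent.H939.FrameRel Cfsg.Agent.H939.RgdTwo Cfsg.Agent.H939.ClsOf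
  Cfsg.Agent.H939.RgdA Cfsg.Agent.H939.FrameCls Cfsg.Agent.H939.RgdB4 Cfsg.Agent.H939.FrameB4
  Cfsg.Agent.H939.InstSL Cfsg.Agent.KFacts.RgdLieCharP Cfsg.Agent.H939.RgdV
open scoped commutatorElement

section Main

variable {F : Type*} [Field F] {V : Type*} [AddCommGroup V] [Module F V] {H : HForm F V} {n : ℕ}
  {Fr : Frame H (Fin n)} {K : Type*} [Group K] (M : Model Fr K) {p : ℕ} (hA : AmbT Fr p M.I) [Finite V]
  [Fact p.Prime] [CharP F p] {p0 : Fr.Adm} (hp0 : p0.c ≠ 0)

/-- downward propagation along the bonds of order three -/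
theorem good_down {Y : Type*} [Group Y] {W : Type*} [Group W] [Finite W] {cs : CoxeterSystem (CoxeterMatrix.B n) W}
    {T : Subgroup Y} {nn : Fin n → Y} {X : (Fin n → ℤ) → Subgroup Y} {R : RGD cs (isCartan n) p T nn X}
    {r : Fin n → ℤ} {Z : Subgroup Y} {j : Fin n} (hj : (j : ℕ) + 2 = n) (hG : Good R r Z j) :
    ∀ (m : ℕ) (k : Fin n), (k : ℕ) + m + 2 = n → Good R r Z k := by
  intro m
  induction m with
  | zero =>
    intro k hk
    have : k = j := Fin.ext (by omega)
    rw [this]; exact hG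
  | succ m ih =>
    intro k hk
    have hk1 : (k : ℕ) + 1 < n := by omega
    have e1 : ((⟨(k : ℕ) + 1, hk1⟩ : Fin n) : ℕ) = k + 1 := rfl
    have e2 : ((⟨(k : ℕ) + 1, hk1⟩ : Fin n) : ℕ) + m + 2 = n := by
      have : (k : ℕ) + 1 + m + 2 = n := by omega
      exact this
    have h1 := ih ⟨(k : ℕ) + 1, hk1⟩ e2
    refine good_of_three (i := (⟨(k : ℕ) + 1, hk1⟩ : Fin n)) ?_ h1
    have hne : (⟨(k : ℕ) + 1, hk1⟩ : Fin n) ≠ k := by
      intro h
      have h5 : (k : ℕ) + 1 = k := congrArg Fin.val h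
      omega
    rw [B_apply, if_neg hne, e1, if_neg (by omega), if_pos (by omega)]

include M hA hp0

/-- **groups with transvections** -/
theorem cl_S [Finite K] [IsSimpleGroup K] (hn : 0 < n) (hq : ∃ q : Fr.Adm, q.w = 0 ∧ q.c ≠ 0)
    (htr : ∃ m : F, (Frame.Adm.tr m : Fr.Adm) ≠ 1) : KLat.CL K := by
  by_cases hc : ∀ a b : K, a * b = b * a
  · exact cl_of_comm hc
  have hne : Nonempty (Fin n) := ⟨⟨0, hn⟩⟩
  set cs := (CoxeterMatrix.B n).toCoxeterSystem with hcs
  have hWf : Finite (CoxeterMatrix.B n).Group := finite_W cs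
  set R := rgdC_model M hA hp0 cs with hR
  have hX := Nodes.WittModel.G1_eq_top M hn cs
  have hconn := conn_of_simple R hX (center_bot hc)
  have hG : GG cs (isCartan n) (Nodes.WittModel.T M) (Nodes.WittModel.X M) = ⊤ := by
    rw [eq_top_iff, ← hX]; exact le_sup_right
  set i : Fin n := ⟨n - 1, by omega⟩ with hi
  have hin : (i : ℕ) + 1 = n := by show n - 1 + 1 = n; omega
  obtain ⟨w₀, hd⟩ := exists_dom_rep cs (isCartan n) (sr i)
  set r := rep cs (isCartan n) w₀ (sr i) with hr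
  have hrr : IsRoot cs (isCartan n) r := (isRoot_sr cs _ i).act w₀
  have e : ee r = wt (⟨0, hn⟩, true) + wt (⟨0, hn⟩, true) := by
    -- the orbit of a long root consists of long roots
    have key : ∀ ω : List (Fin n), ∃ a : Fin n × Bool, ee (rep cs (isCartan n) (cs.wordProd ω) (sr i)) = wt a + wt a := by
      intro ω
      induction ω with
      | nil => exact ⟨(i, true), by rw [wordProd_nil, map_one, Module.End.one_apply, ee_i hin]⟩
      | cons k ω ih =>
        obtain ⟨a, ha⟩ := ih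
        exact ⟨sg k a, by rw [wordProd_cons, rep_mul_apply, rep_simple, ee_refl_of ha]⟩
    obtain ⟨ω, hω⟩ := cs.wordProd_surjective w₀
    obtain ⟨a, ha⟩ := key ω
    rw [hω] at ha
    have := dom_long hn hd ha
    rw [this] at ha
    exact ha
  have C := cls_S M hA hp0 cs hn hq e
  refine cl_of_good R hX hconn C ?_
  have hgi : Good R r (img M (Z0G Fr (⟨0, hn⟩, true))) i :=
    good_of_class C.long hG (v := w₀⁻¹) (by rw [hr, rep_inv_apply])
  intro k
  by_cases hk : (k : ℕ) + 1 = n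
  · have : k = i := Fin.ext (by omega)
    rw [this]; exact hgi
  have hk2 := k.2
  set j : Fin n := ⟨n - 2, by omega⟩ with hj
  have hjn : (j : ℕ) + 2 = n := by show n - 2 + 2 = n; omega
  have D := b4_S M hA hp0 cs hn htr hin hjn hrr e hr.symm
  have hgj := good_of_four D C.long hG hgi
  exact good_down hjn hgj (n - 2 - k) k (by omega)

end Main

end Cfsg.Agent.H939.FrameMain
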