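import Mathlib
import Cfsg.Agent.H939.FrameMain

/-!
Complemented subgroup lattices of the models of Witt frames (S5900): `cl_O` (orthogonal groups), `cl_two` (symplectic
groups in characteristic two).
-/

set_option autoImplicit false
set_option linter.unusedSectionVars false
set_option linter.dupNamespace false

namespace Cfsg.Agent.H939.FrameOrth

open CoxeterSystem Cfsg Cfsg.Agent.ChevalleyStructure.CoxeterGeom Cfsg.Agent.Tits.Roots Cfsg.Agent.Nodes.TypeC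
open Cfsg.Agent.Nodes.Comb Cfsg.Agent.Nodes.Reps Cfsg.Agent.Nodes.WittRoot Cfsg.Agent.Nodes.BNOf
open Cfsg.Agent.Nodes.RGDLib Cfsg.Agent.Nodes.WittAll Cfsg.Agent.Nodes.StabComb Cfsg.Agent.Nodes.LeviDec
open Cfsg.Agent.Nodes.OppDec Cfsg.Agent.Nodes.Bruhat
open Cfsg.Agent.TitsThree Cfsg.Agent.TitsThree.Siegel Cfsg.Agent.TitsThree.WittFrame
  Cfsg.Agent.TitsThree.WittWeyl Cfsg.Agent.TitsThree.FrameCN
open Cfsg.Agent.KFacts.RgdFiltWitt Cfsg.Agent.H939.FrameRel Cfsg.Agent.H939.RgdTwo Cfsg.Agent.H939.ClsOf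
  Cfsg.Agent.H939.RgdA Cfsg.Agent.H939.FrameCls Cfsg.Agent.H939.RgdB4 Cfsg.Agent.H939.FrameB4
  Cfsg.Agent.H939.InstSL Cfsg.Agent.KFacts.RgdLieCharP Cfsg.Agent.H939.RgdV Cfsg.Agent.H939.FrameMain
open scoped commutatorElement

section Main

variable {F : Type*} [Field F] {V : Type*} [AddCommGroup V] [Module F V] {H : HForm F V} {n : ℕ}
  {Fr : Frame H (Fin n)} {K : Type*} [Group K] (M : Model Fr K) {p : ℕ} (hA : AmbT Fr p M.I) [Finite V]
  [Fact p.Prime] [CharP F p] {p0 : Fr.Adm} (hp0 : p0.c ≠ 0) {W : Type*} [Group W]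
  (cs : CoxeterSystem (CoxeterMatrix.B n) W)

theorem cm_one {G : Type*} [Group G] {S : Subgroup G} {g k : G} (h : g * k = k * g) : g * k * g⁻¹ * k⁻¹ ∈ S := by
  rw [h, mul_inv_cancel_right, mul_inv_cancel]
  exact one_mem _

theorem ng01 {n : ℕ} (k : Fin n) (s : Bool) : ng (k, s) = (k, !s) := rfl

/-- `X_{0,1}` commutes with the positive root groups -/
theorem comm_O (hT : TrZ Fr p) (hn0 : 0 < n) (hn : 1 < n) {c d : Fin n × Bool} (hcd : Ok c d)
    (h1 : c ≠ (⟨0, hn0⟩, false)) (h2 : d ≠ (⟨0, hn0⟩, false))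
    (h3 : c = (⟨1, hn⟩, false) → d = (⟨0, hn0⟩, true)) (h4 : d = (⟨1, hn⟩, false) → c = (⟨0, hn0⟩, true))
    {z g : V ≃ₗ[F] V} (hz : z ∈ PG Fr (⟨0, hn0⟩, true) (⟨1, hn⟩, true)) (hg : g ∈ PG Fr c d) : z * g = g * z := by
  have hne : (⟨0, hn0⟩ : Fin n) ≠ ⟨1, hn⟩ := by simp
  have hok : Ok ((⟨0, hn0⟩, true) : Fin n × Bool) (⟨1, hn⟩, true) := Or.inl hne
  by_cases hd : d = (⟨1, hn⟩, false)
  · have hc := h4 hd
    subst hc
    exact comm_same hT hok hcd hz hg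
  by_cases hc : c = (⟨1, hn⟩, false)
  · have hd' := h3 hc
    subst hd'
    rw [PG_swap Fr hcd] at hg
    exact comm_same hT hok hcd.symm hz hg
  · refine comm_far (Or.inl hne) hcd ?_ (by rw [ng01]; exact h1) (by rw [ng01]; exact hc) (by rw [ng01]; exact h2)
      (by rw [ng01]; exact hd) hz hg
    rintro ⟨h5, -⟩
    exact hne (congrArg Prod.fst h5)

/-- the root groups of `V` -/
theorem form_O (hn0 : 0 < n) (hn : 1 < n) {r : Fin n → ℤ}
    (e : ee r = wt (⟨0, hn0⟩, true) + wt (⟨1, hn⟩, true)) {x : Fin n → ℤ}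
    (hx : x ∈ NotJ cs (isCartan n) (orth cs (isCartan n) r)) : ∃ c d : Fin n × Bool, Ok c d ∧
      (c = (⟨0, hn0⟩, true) ∨ c = (⟨1, hn⟩, true)) ∧ d ≠ (⟨0, hn0⟩, false) ∧ d ≠ (⟨1, hn⟩, false) ∧
        Nodes.WittModel.X M x = img M (PG Fr c d) := by
  obtain ⟨a, b, hab, ex⟩ := exists_of_isRoot cs hx.1
  obtain ⟨h1, h2⟩ := ne_of_zero hn0 hx.2.1 hab ex
  have key : ∀ {a b : Fin n × Bool}, Ok a b → a = (⟨1, hn⟩, true) → b ≠ (⟨1, hn⟩, false) := by
    rintro a b hab rfl rfl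
    rcases hab with h | h
    · exact h rfl
    · exact absurd (congrArg Prod.snd h) (by simp)
  rcases notJ_O hn0 hn e hx hab ex with ⟨h3, h4⟩ | ⟨h3, h4⟩ | ⟨h3, h4⟩ | ⟨h3, h4⟩
  · exact ⟨a, b, hab, Or.inl h3, h2, h4, X_eq M hab ex⟩
  · exact ⟨b, a, hab.symm, Or.inl h3, h1, h4, X_eq M hab.symm (by rw [ex, add_comm])⟩
  · exact ⟨a, b, hab, Or.inr h3, h2, key hab h3, X_eq M hab ex⟩
  · exact ⟨b, a, hab.symm, Or.inr h3, h1, key hab.symm h3, X_eq M hab.symm (by rw [ex, add_comm])⟩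

theorem img_bot {k : K} (h : k ∈ img M (⊥ : Subgroup (V ≃ₗ[F] V))) : k = 1 := by
  obtain ⟨g, hg, hg1, e⟩ := (mem_img M).1 h
  rw [Subgroup.mem_bot] at hg1
  subst hg1
  rw [e]; exact map_one M.φ

/-- **the class of `X_{0,1}`** -/
theorem cls_O (hT : TrZ Fr p) (hn0 : 0 < n) (hn : 1 < n) {r : Fin n → ℤ}
    (e : ee r = wt (⟨0, hn0⟩, true) + wt (⟨1, hn⟩, true)) :
    Cls (rgdC_model M hA hp0 cs) r (Nodes.WittModel.X M r) := by
  have : Finite W := finite_W cs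
  have hne : (⟨0, hn0⟩ : Fin n) ≠ ⟨1, hn⟩ := by simp
  have hok : Ok ((⟨0, hn0⟩, true) : Fin n × Bool) (⟨1, hn⟩, true) := Or.inl hne
  have hr : IsRoot cs (isCartan n) r := isRoot_iff.2 ⟨_, _, hok, e⟩
  set R := rgdC_model M hA hp0 cs with hR
  refine cls_of R hr (dom_O hn0 hn e) le_rfl (X_ne_bot R hr) ?_ ?_ ?_ ?_ ?_ ?_
  · intro t ht
    exact R.tor r hr t ht
  · intro w k hk hw
    rw [R.conj_rp hk hr, hw]
  · intro x hx h0
    obtain ⟨c, d, hcd, ex⟩ := exists_of_isRoot cs hx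
    obtain ⟨h1, h2, h3, h4⟩ := of_one hn0 hn h0 hcd ex
    rw [X_eq M hcd ex, X_eq M hok e]
    exact img_comm M fun z hz g hg => comm_O hT hn0 hn hcd h1 h2 h3 h4 hz hg
  · intro x hx y hy
    obtain ⟨c, d, hcd, h1, h2, h3, e1⟩ := form_O M cs hn0 hn e hx
    obtain ⟨c', d', hcd', h1', h2', h3', e1'⟩ := form_O M cs hn0 hn e hy
    rw [e1, e1', X_eq M hok e, PG_ne Fr (a := (⟨0, hn0⟩, true)) (b := (⟨1, hn⟩, true)) hne]
    refine img_cm M fun g hg k hk => ?_
    rcases h1 with rfl | rfl <;> rcases h1' with rfl | rfl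
    · exact cm_one (comm_same hT hcd hcd' hg hk)
    · exact comm_V hT hne hcd hcd' (by rw [ng01]; exact h3) (by rw [ng01]; exact h2') hg hk
    · have := comm_V hT hne hcd' hcd (by rw [ng01]; exact h3') (by rw [ng01]; exact h2) hk hg
      have e5 : g * k * g⁻¹ * k⁻¹ = (k * g * k⁻¹ * g⁻¹)⁻¹ := by group
      rw [e5]
      exact inv_mem this
    · exact cm_one (comm_same hT hcd hcd' hg hk)
  · intro x hx g hg
    obtain ⟨c, d, hcd, h1, h2, h3, e1⟩ := form_O M cs hn0 hn e hx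
    rw [e1] at hg
    have := img_pow M (U := ⊥) (m := p) (fun g hg => by
      rw [Subgroup.mem_bot]; exact pow_PG' hT hcd hg) g hg
    rw [img_bot M this]
    exact one_mem _
  · intro z hz
    rw [X_eq M hok e] at hz
    exact img_bot M (img_pow M (U := ⊥) (m := p) (fun g hg => by
      rw [Subgroup.mem_bot]; exact pow_PG' hT hok hg) z hz)

/-- the bond of order four, orthogonal groups -/
theorem b4_O [Finite K] (hT : TrZ Fr p) (hnd : ∀ q : Fr.Adm, q ≠ 1 → ∃ s : Fr.Adm, H.h s.w q.w ≠ 0) {i j : Fin n}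
    (hi : (i : ℕ) + 1 = n) (hj : (j : ℕ) + 2 = n) {r : Fin n → ℤ} (hr : IsRoot cs (isCartan n) r)
    {w₀ : W} (hw₀ : rep cs (isCartan n) w₀ (sr j) = r) :
    B4 (rgdC_model M hA hp0 cs) r (Nodes.WittModel.X M r) j i
      (Nodes.WittModel.X M (rep cs (isCartan n) (cs.simple i) (sr j))) := by
  have hWf : Finite W := finite_W cs
  have hji : ((j, true) : Fin n × Bool).1 ≠ ((i, true) : Fin n × Bool).1 := mono_fst_ne hi hj _ _
  have hji' : ((j, true) : Fin n × Bool).1 ≠ ((i, false) : Fin n × Bool).1 := mono_fst_ne hi hj _ _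
  have e1 : Nodes.WittModel.X M (sr i) = img M (PG Fr (i, true) (i, true)) := X_eq M (Or.inr rfl) (ee_i hi)
  have e2 : Nodes.WittModel.X M (sr j) = img M (PG Fr (j, true) (i, false)) := X_eq M (Or.inl hji') (ee_j hi hj)
  have e2n : Nodes.WittModel.X M (-sr j) = img M (PG Fr (i, true) (j, false)) := by
    refine X_eq M (Or.inl hji.symm) ?_
    rw [ee_neg, ee_j hi hj]
    have h1 : wt ((j, false) : Fin n × Bool) = -wt (j, true) := wt_ng (j, true)
    have h2 : wt ((i, false) : Fin n × Bool) = -wt (i, true) := wt_ng (i, true)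
    rw [h1, h2]; abel
  have e3 : Nodes.WittModel.X M (rep cs (isCartan n) (cs.simple i) (sr j)) = img M (PG Fr (j, true) (i, true)) :=
    X_eq M (Or.inl hji) (ee_ij hi hj)
  have e4 : Nodes.WittModel.X M (rep cs (isCartan n) (cs.simple j) (sr i)) = img M (PG Fr (j, true) (j, true)) :=
    X_eq M (Or.inr rfl) (ee_ji hi hj)
  have hγ : IsRoot cs (isCartan n) (rep cs (isCartan n) (cs.simple i) (sr j)) := (isRoot_sr cs _ j).act _
  have hokij : Ok ((i, true) : Fin n × Bool) (j, true) := Or.inl hji.symm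
  have hokji : Ok ((j, true) : Fin n × Bool) (i, true) := Or.inl hji
  refine ⟨?_, ?_, ?_, ?_, ?_, ?_, ?_, ?_, ?_, ?_, ?_⟩
  · rw [B_apply, if_neg (by intro h; exact hji (by rw [h])), if_pos (Or.inr ⟨hi, hj⟩)]
  · obtain ⟨k, hk⟩ := exists_rp cs (rgdC_model M hA hp0 cs).nsys (cs.simple i * w₀⁻¹)
    refine ⟨cs.simple i * w₀⁻¹, k, hk, ?_, ?_⟩
    · rw [rep_mul_apply, ← hw₀, rep_inv_apply]
    · rw [(rgdC_model M hA hp0 cs).conj_rp hk hr, rep_mul_apply, ← hw₀, rep_inv_apply]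
  · rw [e1, e3, e4]
    refine mem_cm M fun a ha b hb => ?_
    rw [PG_ne Fr hji, XG_swap Fr hji]
    exact comm_V hT hji.symm (Or.inr rfl) (Or.inr rfl) (fun h => hji (fst_of_ng h).symm)
      (fun h => hji (fst_of_ng h)) ha hb
  · rw [e1, e3]
    refine img_comm M fun a ha b hb => ?_
    rw [PG_swap Fr hokji] at hb
    exact comm_same hT (Or.inr rfl) hokij ha hb
  · rw [e3, e4]
    exact img_comm M fun a ha b hb => comm_same hT (Or.inr rfl) hokji ha hb
  · rw [e4]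
    exact img_comm M fun a ha b hb => comm_same hT (Or.inr rfl) (Or.inr rfl) ha hb
  · rw [e3]
    exact img_comm M fun a ha b hb => comm_same hT hokji hokji ha hb
  · rw [e2, e3]
    exact img_comm M fun a ha b hb => comm_same hT hokji (Or.inl hji') ha hb
  · rw [e2n, e3]
    refine img_comm M fun a ha b hb => ?_
    rw [PG_swap Fr hokji] at ha
    exact comm_same hT hokij (d := (j, false)) (Or.inl hji.symm) ha hb
  · intro a ha ha1
    rw [e1] at ha
    obtain ⟨g, hg, hg', rfl⟩ := (mem_img M).1 ha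
    rw [PG_self] at hg'
    obtain ⟨q, rfl⟩ := hg'
    have hq1 : q ≠ 1 := by
      rintro rfl
      apply ha1
      have : (⟨Fr.Z (i, true) 1, hg⟩ : M.I) = 1 := Subtype.ext (Fr.Z_one _)
      rw [this, map_one]
    obtain ⟨s, hs⟩ := hnd q hq1
    have h1 : Fr.Z (j, true) s ∈ M.I := hA.Z_mem _ _
    have hmem : Fr.X (j, true) (i, true) (-(Fr.η (i, true) * H.σ (H.h s.w q.w))) ∈
        rg Fr (rep cs (isCartan n) (cs.simple i) (sr j)) := by
      rw [rg_eq Fr hokji (ee_ij hi hj), PG_ne Fr hji]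
      exact ⟨_, rfl⟩
    have hI : Fr.X (j, true) (i, true) (-(Fr.η (i, true) * H.σ (H.h s.w q.w))) ∈ M.I := hA.X_mem _ _ _
    have h4 : ⁅M.φ ⟨Fr.Z (j, true) s, h1⟩, M.φ ⟨Fr.Z (i, true) q, hg⟩⁆ =
        M.φ ⟨Fr.X (j, true) (i, true) (-(Fr.η (i, true) * H.σ (H.h s.w q.w))), hI⟩ := by
      rw [← map_commutatorElement]
      congr 1
      apply Subtype.ext
      show ⁅Fr.Z (j, true) s, Fr.Z (i, true) q⁆ = _
      rw [commutatorElement_def, Fr.Z_mul_Z hji]
      group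
    refine ⟨M.φ ⟨_, h1⟩, ?_, ?_⟩
    · rw [e4, PG_self]
      exact (mem_img M).2 ⟨_, h1, ⟨s, rfl⟩, rfl⟩
    · rw [h4]
      refine ⟨(mem_img M).2 ⟨_, hI, hmem, rfl⟩, ?_⟩
      refine phi_ne_one M hA hp0 cs hγ _ hmem ?_
      intro h0
      have h5 := X_apply_neg Fr hji (-(Fr.η (i, true) * H.σ (H.h s.w q.w)))
      rw [h0] at h5
      have h6 : (1 : V ≃ₗ[F] V) (Fr.b (neg (i, true))) = Fr.b (neg (i, true)) := rfl
      rw [h6] at h5
      rcases smul_eq_zero.1 (left_eq_add.1 h5) with h7 | h7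
      · rw [neg_eq_zero] at h7
        rcases mul_eq_zero.1 h7 with h8 | h8
        · exact Fr.η_ne _ h8
        · exact hs (by simpa using h8)
      · exact Nodes.WittRGD.b_ne_zero _ h7
  · intro z hz hz1 w m hm hw
    exact mu_full (rgdC_model M hA hp0 cs) hγ hz hz1 hm hw

/-- dominant conjugates -/
theorem dom_i [Finite W] (hn : 0 < n) {i : Fin n} (hin : (i : ℕ) + 1 = n) {w₀ : W}
    (hd : Dom (A n) (rep cs (isCartan n) w₀ (sr i))) :
    ee (rep cs (isCartan n) w₀ (sr i)) = wt (⟨0, hn⟩, true) + wt (⟨0, hn⟩, true) := by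
  have key : ∀ ω : List (Fin n), ∃ a : Fin n × Bool, ee (rep cs (isCartan n) (cs.wordProd ω) (sr i)) = wt a + wt a := by
    intro ω
    induction ω with
    | nil => exact ⟨(i, true), by rw [wordProd_nil, map_one, Module.End.one_apply, ee_i hin]⟩
    | cons k ω ih =>
      obtain ⟨a, ha⟩ := ih
      exact ⟨sg k a, by rw [wordProd_cons, rep_mul_apply, rep_simple, ee_refl_of ha]⟩
  obtain ⟨ω, hω⟩ := cs.wordProd_surjective w₀
  obtain ⟨a, ha⟩ := key ω
  rw [hω] at ha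
  have := dom_long hn hd ha
  rw [this] at ha
  exact ha

theorem dom_k [Finite W] (hn0 : 0 < n) (hn : 1 < n) {k : Fin n} (hk : (k : ℕ) + 1 ≠ n) {w₀ : W}
    (hd : Dom (A n) (rep cs (isCartan n) w₀ (sr k))) :
    ee (rep cs (isCartan n) w₀ (sr k)) = wt (⟨0, hn0⟩, true) + wt (⟨1, hn⟩, true) := by
  have key : ∀ ω : List (Fin n), ∃ a b : Fin n × Bool, a.1 ≠ b.1 ∧
      ee (rep cs (isCartan n) (cs.wordProd ω) (sr k)) = wt a + wt b := by
    intro ω
    induction ω with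
    | nil =>
      have h1 : (k : ℕ) + 1 < n := by have := k.2; omega
      refine ⟨(k, true), nx k, ?_, by rw [wordProd_nil, map_one, Module.End.one_apply, ee_sr, bt]⟩
      unfold nx
      rw [dif_pos h1]
      intro h
      have : (k : ℕ) = k + 1 := congrArg Fin.val h
      omega
    | cons k ω ih =>
      obtain ⟨a, b, hab, ha⟩ := ih
      exact ⟨sg k a, sg k b, fun h => hab ((sg_fst_eq k).1 h),
        by rw [wordProd_cons, rep_mul_apply, rep_simple, ee_refl_of ha]⟩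
  obtain ⟨ω, hω⟩ := cs.wordProd_surjective w₀
  obtain ⟨a, b, hab, ha⟩ := key ω
  rw [hω] at ha
  exact dom_short hn0 hn hd hab ha

include M hA hp0

/-- **orthogonal groups** -/
theorem cl_O [Finite K] [IsSimpleGroup K] (hn0 : 0 < n) (hn : 1 < n) (hT : TrZ Fr p)
    (hnd : ∀ q : Fr.Adm, q ≠ 1 → ∃ s : Fr.Adm, H.h s.w q.w ≠ 0) : KLat.CL K := by
  by_cases hc : ∀ a b : K, a * b = b * a
  · exact cl_of_comm hc
  have hne : Nonempty (Fin n) := ⟨⟨0, hn0⟩⟩
  set cs := (CoxeterMatrix.B n).toCoxeterSystem with hcs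
  have hWf : Finite (CoxeterMatrix.B n).Group := finite_W cs
  set R := rgdC_model M hA hp0 cs with hR
  have hX := Nodes.WittModel.G1_eq_top M hn0 cs
  have hconn := conn_of_simple R hX (center_bot hc)
  have hG : GG cs (isCartan n) (Nodes.WittModel.T M) (Nodes.WittModel.X M) = ⊤ := by
    rw [eq_top_iff, ← hX]; exact le_sup_right
  obtain ⟨r, hr, e⟩ := rt_of_ok (cs := cs) (a := (⟨0, hn0⟩, true)) (b := (⟨1, hn⟩, true)) (Or.inl (by simp))
  have C := cls_O M hA hp0 cs hT hn0 hn e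
  have hw : ∀ k : Fin n, (k : ℕ) + 1 ≠ n → ∃ w : (CoxeterMatrix.B n).Group, rep cs (isCartan n) w (sr k) = r := by
    intro k hk
    obtain ⟨w₀, hd⟩ := exists_dom_rep cs (isCartan n) (sr k)
    exact ⟨w₀, ee_injective (by rw [dom_k cs hn0 hn hk hd, e])⟩
  have hgood : ∀ k : Fin n, (k : ℕ) + 1 ≠ n → Good R r (Nodes.WittModel.X M r) k := by
    intro k hk
    obtain ⟨w, hw⟩ := hw k hk
    exact good_of_class C.long hG (v := w⁻¹) (by rw [← hw, rep_inv_apply])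
  refine cl_of_good R hX hconn C ?_
  intro k
  by_cases hk : (k : ℕ) + 1 = n
  · set j : Fin n := ⟨n - 2, by omega⟩ with hj
    have hjn : (j : ℕ) + 2 = n := by show n - 2 + 2 = n; omega
    obtain ⟨w, hw⟩ := hw j (by omega)
    exact good_of_four (b4_O M hA hp0 cs hT hnd hk hjn hr hw) C.long hG (hgood j (by omega))
  · exact hgood k hk

/-- **symplectic groups in characteristic two** -/
theorem cl_two [Finite K] [IsSimpleGroup K] (hn0 : 0 < n) (hn : 1 < n) (hT : TrZ Fr p)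
    (hq : ∃ q : Fr.Adm, q.w = 0 ∧ q.c ≠ 0) : KLat.CL K := by
  by_cases hc : ∀ a b : K, a * b = b * a
  · exact cl_of_comm hc
  have hne : Nonempty (Fin n) := ⟨⟨0, hn0⟩⟩
  set cs := (CoxeterMatrix.B n).toCoxeterSystem with hcs
  have hWf : Finite (CoxeterMatrix.B n).Group := finite_W cs
  set R := rgdC_model M hA hp0 cs with hR
  have hX := Nodes.WittModel.G1_eq_top M hn0 cs
  have hconn := conn_of_simple R hX (center_bot hc)
  refine cl_of_all R hX hconn ?_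
  intro k
  obtain ⟨w₀, hd⟩ := exists_dom_rep cs (isCartan n) (sr k)
  by_cases hk : (k : ℕ) + 1 = n
  · exact ⟨_, _, w₀⁻¹, cls_S M hA hp0 cs hn0 hq (dom_i cs hn0 hk hd), rep_inv_apply _ _ _ _⟩
  · exact ⟨_, _, w₀⁻¹, cls_O M hA hp0 cs hT hn0 hn (dom_k cs hn0 hn hk hd), rep_inv_apply _ _ _ _⟩

end Main

end Cfsg.Agent.H939.FrameOrth
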