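import Mathlib
import Cfsg.Agent.SplitTwo.HexDefs

/-!
Cubic cyclic extensions: field facts for the short node of `³D₄(q)` (S5900).
-/

set_option autoImplicit false
set_option linter.unusedSectionVars false

namespace Cfsg.Agent.H939.HexField

open Cfsg.Agent.SplitTwo

variable {K : Type*} [Field K] (σ : K ≃+* K) (h3 : ∀ a, σ (σ (σ a)) = a)

include h3

theorem fix_trc (a b : K) : σ (trc σ a b) = trc σ a b := by
  simp only [trc, map_add, h3]; ring

theorem fix_nrm (a : K) : σ (nrm σ a) = nrm σ a := by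
  simp only [nrm, map_mul, h3]; ring

omit h3 in
theorem trc_comm (a b : K) : trc σ a b = trc σ b a := by simp only [trc, mul_comm]

omit h3 in
theorem trc_add_right (a b c : K) : trc σ a (b + c) = trc σ a b + trc σ a c := by
  simp only [trc, mul_add, map_add]; ring

omit h3 in
theorem trc_smul {l : K} (hl : σ l = l) (a b : K) : trc σ a (l * b) = l * trc σ a b := by
  simp only [trc, map_mul, hl]; ring

theorem nrm_ne_zero {a : K} (ha : a ≠ 0) : nrm σ a ≠ 0 :=
  mul_ne_zero (mul_ne_zero ha ((map_ne_zero σ).2 ha)) ((map_ne_zero σ).2 ((map_ne_zero σ).2 ha))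

variable (hnd : ∀ a : K, a ≠ 0 → ∃ b, trc σ a b ≠ 0)

include hnd

/-- independent vectors are separated by the trace form -/
theorem exists_sep {s t : K} (hs : s ≠ 0) (hst : ∀ l : K, σ l = l → t ≠ l * s) :
    ∃ w, trc σ s w = 0 ∧ trc σ t w ≠ 0 := by
  by_contra hcon
  push Not at hcon
  obtain ⟨w₀, hw₀⟩ := hnd s hs
  set l := trc σ t w₀ / trc σ s w₀ with hl
  have hlf : σ l = l := by rw [hl, map_div₀, fix_trc σ h3, fix_trc σ h3]
  have h0 : t - l * s ≠ 0 := sub_ne_zero.2 (hst l hlf)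
  obtain ⟨w, hw⟩ := hnd _ h0
  apply hw
  have h1 : trc σ s (w - trc σ s w / trc σ s w₀ * w₀) = 0 := by
    have hc : σ (-(trc σ s w / trc σ s w₀)) = -(trc σ s w / trc σ s w₀) := by
      rw [map_neg, map_div₀, fix_trc σ h3, fix_trc σ h3]
    rw [sub_eq_add_neg, ← neg_mul, trc_add_right, trc_smul σ hc, neg_mul, div_mul_cancel₀ _ hw₀, add_neg_cancel]
  have h2 := hcon _ h1
  have hc : σ (-(trc σ s w / trc σ s w₀)) = -(trc σ s w / trc σ s w₀) := by
    rw [map_neg, map_div₀, fix_trc σ h3, fix_trc σ h3]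
  rw [sub_eq_add_neg, ← neg_mul, trc_add_right, trc_smul σ hc] at h2
  have h4 : trc σ (t - l * s) w = trc σ t w - l * trc σ s w := by
    rw [trc_comm σ (t - l * s), sub_eq_add_neg, ← neg_mul, trc_add_right,
      trc_smul σ (by rw [map_neg, hlf]), trc_comm σ w t, trc_comm σ w s]
    ring
  rw [h4, hl]
  have : trc σ t w - trc σ t w₀ / trc σ s w₀ * trc σ s w =
      trc σ t w + -(trc σ s w / trc σ s w₀) * trc σ t w₀ := by ring
  rw [this, h2]

theorem exists_two {s t : K} (hs : s ≠ 0) (hst : ∀ l : K, σ l = l → t ≠ l * s) {u v : K} (hu : σ u = u)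
    (hv : σ v = v) : ∃ w, trc σ s w = u ∧ trc σ t w = v := by
  obtain ⟨w₁, h1, h2⟩ := exists_sep σ h3 hnd hs hst
  obtain ⟨w₀, hw₀⟩ := hnd s hs
  have c1 : σ (u / trc σ s w₀) = u / trc σ s w₀ := by rw [map_div₀, fix_trc σ h3, hu]
  set c := u / trc σ s w₀ with hc
  have c2 : σ ((v - c * trc σ t w₀) / trc σ t w₁) = (v - c * trc σ t w₀) / trc σ t w₁ := by
    rw [map_div₀, fix_trc σ h3, map_sub, map_mul, fix_trc σ h3, hv, c1]
  refine ⟨c * w₀ + (v - c * trc σ t w₀) / trc σ t w₁ * w₁, ?_, ?_⟩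
  · rw [trc_add_right, trc_smul σ c1, trc_smul σ c2, h1, mul_zero, add_zero, hc, div_mul_cancel₀ _ hw₀]
  · rw [trc_add_right, trc_smul σ c1, trc_smul σ c2, div_mul_cancel₀ _ h2]
    ring

omit hnd in
theorem crs_comm (a b : K) : crs σ a b = crs σ b a := by simp only [crs]; ring

omit hnd in
theorem exists_crs {s y : K} (hs : s ≠ 0) (hy : trc σ s y = 0) : ∃ w, crs σ s w = y := by
  have hn := nrm_ne_zero σ h3 hs
  have hσs := (map_ne_zero σ).2 hs
  have hσσs := (map_ne_zero σ).2 hσs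
  refine ⟨-(s * (s * y / nrm σ s)), ?_⟩
  have h1 : s * y + σ (s * y) + σ (σ (s * y)) = 0 := hy
  have h2 : crs σ s (-(s * (s * y / nrm σ s))) =
      -(σ s * σ (σ s)) / nrm σ s * (σ (σ (s * y)) + σ (s * y)) := by
    simp only [crs, map_neg, map_mul, map_div₀, fix_nrm σ h3]
    ring
  rw [h2]
  have h5 : σ (σ (s * y)) + σ (s * y) = -(s * y) := by linear_combination h1
  rw [h5]
  unfold nrm at hn ⊢
  field_simp

theorem exists_crs_two {s t : K} (hs : s ≠ 0) (ht : t ≠ 0) (hst : ∀ l : K, σ l = l → t ≠ l * s) (y : K) :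
    ∃ w w', crs σ s w + crs σ t w' = y := by
  obtain ⟨y₁, h1, h2⟩ := exists_two σ h3 hnd hs hst (u := 0) (v := trc σ t y) (map_zero σ) (fix_trc σ h3 _ _)
  obtain ⟨w, hw⟩ := exists_crs σ h3 hs h1
  have h4 : trc σ t (y - y₁) = 0 := by
    have : trc σ t (y - y₁) = trc σ t y - trc σ t y₁ := by
      simp only [trc, mul_sub, map_sub]; ring
    rw [this, h2, sub_self]
  obtain ⟨w', hw'⟩ := exists_crs σ h3 ht h4
  exact ⟨w, w', by rw [hw, hw']; ring⟩

/-- the trilinear form is not degenerate -/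
theorem eq_zero_of_crs (hσ : ∃ c : K, σ c ≠ c) {α : K} (h : ∀ u v : K, trc σ (crs σ u v) α = 0) : α = 0 := by
  have h1 : ∀ u : K, crs σ u α = 0 := by
    intro u
    by_contra hne
    obtain ⟨v, hv⟩ := hnd _ hne
    apply hv
    have := h u v
    have e : trc σ (crs σ u v) α = trc σ (crs σ u α) v := by
      simp only [trc, crs, map_add, map_mul, h3]; ring
    rw [← e, this]
  by_contra hα
  have h2 : σ (σ α) = -σ α := by
    have := h1 1
    simp only [crs, map_one, one_mul] at this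
    linear_combination this
  have h4 : α = -σ (σ α) := by
    have h5 := congrArg σ h2
    rw [h3, map_neg] at h5
    exact h5
  have h5 : σ α = α := by
    rw [h2, neg_neg] at h4
    exact h4.symm
  have h6 : (2 : K) = 0 := by
    rw [h5, h5] at h2
    have h7 : 2 * α = 0 := by linear_combination h2
    exact (mul_eq_zero.1 h7).resolve_right hα
  obtain ⟨c, hc⟩ := hσ
  apply hc
  have h8 := h1 c
  simp only [crs, h5] at h8
  have h9 : α * (σ c + σ (σ c)) = 0 := by linear_combination h8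
  have h10 := (mul_eq_zero.1 h9).resolve_left hα
  have h11 : σ (σ c) = σ c := by linear_combination h10 - σ c * h6
  exact σ.injective h11

end Cfsg.Agent.H939.HexField
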