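import Mathlib
import Cfsg.Agent.H939.HexField

/-!
Collection in the unipotent group of `³D₄(q)` (S5900).
-/

set_option autoImplicit false
set_option linter.unusedSectionVars false

namespace Cfsg.Agent.H939.HexColl

open Cfsg.Agent.SplitTwo Cfsg.Agent.H939.HexField

variable {K : Type*} [Field K] {σ : K ≃+* K} {G : Type*} [Group G] {x1 x2 x3 x4 x5 x6 : K → G}
  (H : HexRel σ x1 x2 x3 x4 x5 x6)

include H

theorem x1_zero : x1 0 = 1 := by have := H.add1 0 0; rwa [add_zero, left_eq_mul] at this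
theorem x2_zero : x2 0 = 1 := by
  have := H.add2 0 0 (map_zero σ) (map_zero σ); rwa [add_zero, left_eq_mul] at this
theorem x3_zero : x3 0 = 1 := by have := H.add3 0 0; rwa [add_zero, left_eq_mul] at this
theorem x4_zero : x4 0 = 1 := by
  have := H.add4 0 0 (map_zero σ) (map_zero σ); rwa [add_zero, left_eq_mul] at this
theorem x5_zero : x5 0 = 1 := by have := H.add5 0 0; rwa [add_zero, left_eq_mul] at this
theorem x1_inv (a : K) : (x1 a)⁻¹ = x1 (-a) := by
  rw [inv_eq_iff_mul_eq_one, ← H.add1, add_neg_cancel, x1_zero H]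
theorem x3_inv (a : K) : (x3 a)⁻¹ = x3 (-a) := by
  rw [inv_eq_iff_mul_eq_one, ← H.add3, add_neg_cancel, x3_zero H]
theorem x5_inv (a : K) : (x5 a)⁻¹ = x5 (-a) := by
  rw [inv_eq_iff_mul_eq_one, ← H.add5, add_neg_cancel, x5_zero H]

omit H in
theorem comm_of_kk {a b : G} (h : kk a b = 1) : b * a = a * b := by
  unfold kk at h
  have : a * b = b * a * (a⁻¹ * b⁻¹ * a * b) := by group
  rw [h, mul_one] at this
  exact this.symm

omit H in
theorem swap (a b : G) : b * a = a * b * (kk a b)⁻¹ := by unfold kk; group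

/-- the middle part -/
def mm (x2 x3 x4 : K → G) (t a u : K) : G := x2 t * (x3 a * x4 u)

local notation "m" => mm x2 x3 x4

variable {t t' u u' : K}

theorem mm_add (ht : σ t = t) (ht' : σ t' = t') (hu : σ u = u) (hu' : σ u' = u') (a a' : K) :
    m t a u * m t' a' u' = m (t + t') (a + a') (u + u') := by
  have e1 := comm_of_kk (H.c23 t' a ht')
  have e2 := comm_of_kk (H.c24 t' u ht' hu)
  have e3 := comm_of_kk (H.c34 a' u hu)
  unfold mm
  rw [H.add2 _ _ ht ht', H.add3, H.add4 _ _ hu hu']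
  calc x2 t * (x3 a * x4 u) * (x2 t' * (x3 a' * x4 u')) = x2 t * x3 a * (x4 u * x2 t') * x3 a' * x4 u' := by group
    _ = x2 t * (x3 a * x2 t') * (x4 u * x3 a') * x4 u' := by rw [e2]; group
    _ = x2 t * (x2 t' * x3 a) * (x3 a' * x4 u) * x4 u' := by rw [e1, e3]
    _ = _ := by group

theorem mm_x1 (ht : σ t = t) (hu : σ u = u) (w a : K) : m t a u * x1 w = x1 w * m (t - trc σ w a) a u := by
  have e1 := comm_of_kk (H.c12 w t ht)
  have e2 := comm_of_kk (H.c14 w u hu)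
  have h1 : σ (-trc σ w a) = -trc σ w a := by rw [map_neg, fix_trc σ H.cube]
  have e3 : x3 a * x1 w = x1 w * x3 a * x2 (-trc σ w a) := by
    rw [swap (x1 w) (x3 a), H.c13]
    congr 1
    rw [inv_eq_iff_mul_eq_one, ← H.add2 _ _ (fix_trc σ H.cube _ _) h1, add_neg_cancel, x2_zero H]
  have e4 := comm_of_kk (H.c23 _ a h1)
  unfold mm
  rw [sub_eq_add_neg, H.add2 _ _ ht h1]
  calc x2 t * (x3 a * x4 u) * x1 w = x2 t * (x3 a * (x4 u * x1 w)) := by group
    _ = x2 t * ((x3 a * x1 w) * x4 u) := by rw [e2]; group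
    _ = (x2 t * x1 w) * (x3 a * x2 (-trc σ w a)) * x4 u := by rw [e3]; group
    _ = _ := by rw [e1, e4]; group

theorem x5_mm (ht : σ t = t) (hu : σ u = u) (w a : K) : x5 w * m t a u = m t a (u - trc σ a w) * x5 w := by
  have e1 := comm_of_kk (H.c25 t w ht)
  have e2 := comm_of_kk (H.c45 u w hu)
  have h1 : σ (-trc σ a w) = -trc σ a w := by rw [map_neg, fix_trc σ H.cube]
  have e3 : x5 w * x3 a = x3 a * x5 w * x4 (-trc σ a w) := by
    rw [swap (x3 a) (x5 w), H.c35]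
    congr 1
    rw [inv_eq_iff_mul_eq_one, ← H.add4 _ _ (fix_trc σ H.cube _ _) h1, add_neg_cancel, x4_zero H]
  have e4 := comm_of_kk (H.c45 _ w (by rw [map_add, h1, hu] : σ (-trc σ a w + u) = -trc σ a w + u))
  unfold mm
  have e5 : u - trc σ a w = -trc σ a w + u := by ring
  rw [e5]
  calc x5 w * (x2 t * (x3 a * x4 u)) = (x5 w * x2 t) * (x3 a * x4 u) := by group
    _ = x2 t * (x5 w * x3 a) * x4 u := by rw [e1]; group
    _ = x2 t * x3 a * (x5 w * (x4 (-trc σ a w) * x4 u)) := by rw [e3]; group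
    _ = x2 t * x3 a * (x5 w * x4 (-trc σ a w + u)) := by rw [← H.add4 _ _ h1 hu]
    _ = _ := by rw [e4]; group

theorem x5_x1 (a b : K) : ∃ u, σ u = u ∧
    x5 b * x1 a = x1 a * (m (trc σ (shp σ a) b) (-crs σ a b) u * x5 b) := by
  have h1 := fix_trc σ H.cube (shp σ a) b
  have h2 := fix_trc σ H.cube a (shp σ b)
  have h1' : σ (-trc σ (shp σ a) b) = -trc σ (shp σ a) b := by rw [map_neg, h1]
  have h2' : σ (-trc σ a (shp σ b)) = -trc σ a (shp σ b) := by rw [map_neg, h2]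
  refine ⟨-trc σ a (shp σ b) - trc σ (-crs σ a b) b, by rw [map_sub, h2', fix_trc σ H.cube], ?_⟩
  have e1 : kk (x1 a) (x5 b) = m (-trc σ (shp σ a) b) (crs σ a b) (trc σ a (shp σ b)) := by
    rw [H.c15]; unfold mm; group
  have e2 : (kk (x1 a) (x5 b))⁻¹ = m (trc σ (shp σ a) b) (-crs σ a b) (-trc σ a (shp σ b)) := by
    rw [e1, inv_eq_iff_mul_eq_one, mm_add H h1' h1 h2 h2']
    simp [mm, x2_zero H, x3_zero H, x4_zero H]
  rw [swap (x1 a) (x5 b), e2, mul_assoc, x5_mm H h1 h2']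

/-- the collected form -/
def EE (x1 x2 x3 x4 x5 : K → G) (s t a u b : K) : G := x1 s * (mm x2 x3 x4 t a u * x5 b)

local notation "E" => EE x1 x2 x3 x4 x5

theorem E_mul_x1 (ht : σ t = t) (hu : σ u = u) (s a b w : K) : ∃ u', σ u' = u' ∧
    E s t a u b * x1 w = E (s + w) (t - trc σ w a + trc σ (shp σ w) b) (a + -crs σ w b) u' b := by
  obtain ⟨v, hv, e⟩ := x5_x1 H w b
  refine ⟨u + v, by rw [map_add, hu, hv], ?_⟩
  unfold EE
  have h1 := fix_trc σ H.cube (shp σ w) b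
  have h2 : σ (t - trc σ w a) = t - trc σ w a := by rw [map_sub, ht, fix_trc σ H.cube]
  rw [← mm_add H h2 h1 hu hv, H.add1]
  calc x1 s * (m t a u * x5 b) * x1 w = x1 s * m t a u * (x5 b * x1 w) := by group
    _ = x1 s * (m t a u * x1 w) * (m (trc σ (shp σ w) b) (-crs σ w b) v * x5 b) := by rw [e]; group
    _ = _ := by rw [mm_x1 H ht hu]; group

theorem E_mul_mm (ht : σ t = t) (hu : σ u = u) (ht' : σ t' = t') (hu' : σ u' = u') (s a a' b : K) :
    E s t a u b * m t' a' u' = E s (t + t') (a + a') (u + (u' - trc σ a' b)) b := by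
  have h1 : σ (u' - trc σ a' b) = u' - trc σ a' b := by rw [map_sub, hu', fix_trc σ H.cube]
  unfold EE
  rw [← mm_add H ht ht' hu h1]
  calc x1 s * (m t a u * x5 b) * m t' a' u' = x1 s * m t a u * (x5 b * m t' a' u') := by group
    _ = _ := by rw [x5_mm H ht' hu']; group

theorem E_mul_x5 (s a b b' : K) : E s t a u b * x5 b' = E s t a u (b + b') := by
  unfold EE
  rw [H.add5]; group

theorem x1_mul_E (s a b w : K) : x1 w * E s t a u b = E (w + s) t a u b := by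
  unfold EE
  rw [H.add1]; group

/-- conjugation by `x₁(w)` -/
theorem E_conj1 (ht : σ t = t) (hu : σ u = u) (s a b w : K) : ∃ u', σ u' = u' ∧
    (x1 w)⁻¹ * E s t a u b * x1 w = E s (t - trc σ w a + trc σ (shp σ w) b) (a + -crs σ w b) u' b := by
  obtain ⟨u', hu', e⟩ := E_mul_x1 H ht hu s a b w
  refine ⟨u', hu', ?_⟩
  rw [mul_assoc, e, x1_inv H, x1_mul_E H]
  congr 1
  ring

/-- conjugation by `x₅(w)` -/
theorem E_conj5 (ht : σ t = t) (hu : σ u = u) (s a b w : K) : ∃ t' u', σ t' = t' ∧ σ u' = u' ∧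
    (x5 w)⁻¹ * E s t a u b * x5 w = E s t' (a + crs σ s w) u' b := by
  obtain ⟨v, hv, e⟩ := x5_x1 H s (-w)
  have h1 := fix_trc σ H.cube (shp σ s) (-w)
  have h2 : σ (u - trc σ a (-w)) = u - trc σ a (-w) := by rw [map_sub, hu, fix_trc σ H.cube]
  refine ⟨trc σ (shp σ s) (-w) + t, v + (u - trc σ a (-w)), by rw [map_add, h1, ht], by rw [map_add, hv, h2], ?_⟩
  have e3 : a + crs σ s w = -crs σ s (-w) + a := by
    simp only [crs, map_neg]; ring
  rw [e3]
  have e4 : E s (trc σ (shp σ s) (-w) + t) (-crs σ s (-w) + a) (v + (u - trc σ a (-w))) b =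
      x1 s * ((m (trc σ (shp σ s) (-w)) (-crs σ s (-w)) v * m t a (u - trc σ a (-w))) * x5 b) := by
    rw [mm_add H h1 ht hv h2]; rfl
  rw [e4]
  have e5 : x5 b = x5 (-w) * (x5 b * x5 w) := by
    rw [← H.add5, ← H.add5]; congr 1; ring
  rw [x5_inv H]
  calc x5 (-w) * E s t a u b * x5 w = (x5 (-w) * x1 s) * m t a u * x5 b * x5 w := by unfold EE; group
    _ = x1 s * m (trc σ (shp σ s) (-w)) (-crs σ s (-w)) v * (x5 (-w) * m t a u) * x5 b * x5 w := by rw [e]; group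
    _ = x1 s * m (trc σ (shp σ s) (-w)) (-crs σ s (-w)) v * m t a (u - trc σ a (-w)) *
        (x5 (-w) * (x5 b * x5 w)) := by rw [x5_mm H ht hu]; group
    _ = _ := by rw [← e5]; group

/-- conjugation by `x₃(w)` -/
theorem E_conj3 (ht : σ t = t) (hu : σ u = u) (s a b w : K) :
    (x3 w)⁻¹ * E s t a u b * x3 w = E s (t + trc σ s w) a (u - trc σ w b) b := by
  have h0 : σ (0 : K) = 0 := map_zero σ
  have e0 : x3 w = m 0 w 0 := by simp [mm, x2_zero H, x4_zero H]
  have h1 : σ (u + (0 - trc σ w b)) = u + (0 - trc σ w b) := by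
    rw [map_add, map_sub, hu, h0, fix_trc σ H.cube]
  have h2 := fix_trc σ H.cube s w
  have e1 : x3 (-w) * x1 s = x1 s * m (trc σ s w) (-w) 0 := by
    have := mm_x1 H h0 h0 s (-w)
    have e2 : x3 (-w) = m 0 (-w) 0 := by simp [mm, x2_zero H, x4_zero H]
    rw [e2, this]
    congr 2
    simp only [trc, mul_neg, map_neg]; ring
  rw [mul_assoc, e0, E_mul_mm H ht hu h0 h0, ← e0, x3_inv H]
  unfold EE
  rw [← mul_assoc, ← mul_assoc, e1, mul_assoc (x1 s), mm_add H h2 (by rw [add_zero, ht]) h0 h1, mul_assoc]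
  congr 3
  · ring
  · ring
  · ring

/-- conjugation by `x₆(l)` -/
theorem E_conj6 {l : K} (hl : σ l = l) (ht : σ t = t) (hu : σ u = u) (s a b : K) : ∃ t' a' u', σ t' = t' ∧
    σ u' = u' ∧ (x6 l)⁻¹ * E s t a u b * x6 l = E s t' a' u' (b - l * s) := by
  have h0 := fix_nrm σ H.cube s
  have f1 : σ (-(l * nrm σ s)) = -(l * nrm σ s) := by rw [map_neg, map_mul, hl, h0]
  have f2 : σ (l ^ 2 * nrm σ s) = l ^ 2 * nrm σ s := by rw [map_mul, map_pow, hl, h0]
  have f3 : σ (t * l) = t * l := by rw [map_mul, ht, hl]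
  have f4 : σ (t * l + u) = t * l + u := by rw [map_add, f3, hu]
  have f5 : σ (t * l + u - trc σ a (-(l * s))) = t * l + u - trc σ a (-(l * s)) := by
    rw [map_sub, f4, fix_trc σ H.cube]
  have e1 : (x6 l)⁻¹ * x1 s * x6 l = x1 s * (m (-(l * nrm σ s)) (l * shp σ s) (l ^ 2 * nrm σ s) * x5 (-(l * s))) := by
    have : (x6 l)⁻¹ * x1 s * x6 l = x1 s * kk (x1 s) (x6 l) := by unfold kk; group
    rw [this, H.c16 s l hl]
    unfold mm; group
  have e2 : (x6 l)⁻¹ * m t a u * x6 l = m t a (t * l + u) := by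
    have h1 : (x6 l)⁻¹ * x2 t * x6 l = x2 t * x4 (t * l) := by
      have : (x6 l)⁻¹ * x2 t * x6 l = x2 t * kk (x2 t) (x6 l) := by unfold kk; group
      rw [this, H.c26 t l ht hl]
    have h2 := comm_of_kk (H.c36 a l hl)
    have h3 := comm_of_kk (H.c46 u l hu hl)
    have h4 := comm_of_kk (H.c34 a (t * l) f3)
    unfold mm
    rw [H.add4 _ _ f3 hu]
    calc (x6 l)⁻¹ * (x2 t * (x3 a * x4 u)) * x6 l = (x6 l)⁻¹ * x2 t * x3 a * (x4 u * x6 l) := by group
      _ = (x6 l)⁻¹ * x2 t * (x3 a * x6 l) * x4 u := by rw [← h3]; group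
      _ = ((x6 l)⁻¹ * x2 t * x6 l) * x3 a * x4 u := by rw [← h2]; group
      _ = x2 t * (x4 (t * l) * x3 a) * x4 u := by rw [h1]; group
      _ = _ := by rw [h4]; group
  have e3 := comm_of_kk (H.c56 b l hl)
  refine ⟨-(l * nrm σ s) + t, l * shp σ s + a, l ^ 2 * nrm σ s + (t * l + u - trc σ a (-(l * s))),
    by rw [map_add, f1, ht], by rw [map_add, f2, f5], ?_⟩
  have e4 : (x6 l)⁻¹ * E s t a u b * x6 l = ((x6 l)⁻¹ * x1 s * x6 l) * ((x6 l)⁻¹ * m t a u * x6 l) * x5 b := by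
    unfold EE
    calc (x6 l)⁻¹ * (x1 s * (m t a u * x5 b)) * x6 l = (x6 l)⁻¹ * x1 s * m t a u * (x5 b * x6 l) := by group
      _ = _ := by rw [← e3]; group
  rw [e4, e1, e2]
  unfold EE
  rw [← mm_add H f1 ht f2 f5]
  have e5 : x5 (b - l * s) = x5 (-(l * s)) * x5 b := by rw [← H.add5]; congr 1; ring
  rw [e5]
  calc x1 s * (m (-(l * nrm σ s)) (l * shp σ s) (l ^ 2 * nrm σ s) * x5 (-(l * s))) * m t a (t * l + u) * x5 b =
      x1 s * m (-(l * nrm σ s)) (l * shp σ s) (l ^ 2 * nrm σ s) * (x5 (-(l * s)) * m t a (t * l + u)) * x5 b := by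
        group
    _ = _ := by rw [x5_mm H ht f4]; group

end Cfsg.Agent.H939.HexColl
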