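import Mathlib
import Cfsg.Agent.H939.RgdV
import Cfsg.Agent.Nodes.RGDTwD4

/-!
Opposition in root group data of type `G₂` (S5900).
-/

set_option autoImplicit false
set_option linter.unusedSectionVars false
set_option linter.dupNamespace false

namespace Cfsg.Agent.H939.HexOpp

open CoxeterSystem Cfsg.Agent.ChevalleyStructure.CoxeterGeom Cfsg.Agent.Tits.Roots Cfsg.Agent.Tits.Core
  Cfsg.Agent.Tits.RootComb Cfsg.Agent.Tits.Exchange Cfsg.Agent.Nodes.Reps Cfsg.Agent.Nodes.BNOf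
  Cfsg.Agent.Nodes.StabComb Cfsg.Agent.Nodes.Bruhat Cfsg.Agent.Nodes.OppDec Cfsg.Agent.Nodes.LeviDec
  Cfsg.Agent.Nodes.NormX Cfsg.Agent.Nodes.Coroot Cfsg.Agent.KFacts.RgdSL Cfsg.Agent.Nodes.PosPair
  Cfsg.Agent.H939.RgdA Cfsg.Agent.H939.RgdP Cfsg.Agent.H939.RgdU Cfsg.Agent.H939.RgdMain
  Cfsg.Agent.H939.RgdTwo Cfsg.Agent.H939.RgdV Cfsg.Agent.KFacts.RgdCharP Cfsg.Agent.Nodes.Comb
open scoped commutatorElement

section General

variable {I W Y : Type*} [Fintype I] [DecidableEq I] [Group W] [Group Y] {M : CoxeterMatrix I}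
  {cs : CoxeterSystem M W} {A : I → I → ℤ} {h : IsCartan M A} {p : ℕ} {T : Subgroup Y} {n : I → Y}
  {X : (I → ℤ) → Subgroup Y} {R : RGD cs h p T n X} {r : I → ℤ} {Z : Subgroup Y} (L : Long R r Z)

include L

theorem norm_of_form [Fintype W] {y : I → ℤ} (hy : IsRoot cs h y) (hf : 0 ≤ form cs h r y) :
    X y ≤ Subgroup.normalizer (Z : Set Y) := by
  rcases hy.pos_or_neg with h0 | h0
  · exact le_trans (le_trans (RGD.le_Sup (S := RGD.Pos cs h) ⟨hy, h0⟩) RGD.U_le_B) L.B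
  · have h1 := form_nonneg_of_dom cs h L.dom (neg_nonneg.2 h0)
    have h2 : -y ∈ PosJ cs h (orth cs h r) := by
      rcases mem_PosJ_or_NotJ (orth cs h r) hy.neg (neg_nonneg.2 h0) with h2 | h2
      · exact h2
      · exfalso
        have := (mem_NotJ_iff L.dom hy.neg).1 h2
        rw [form_neg_right] at this
        omega
    have h3 : y ∈ RootsJ cs h (orth cs h r) := by
      have := RootsJ.neg (PosJ_subset _ h2)
      rwa [neg_neg] at this
    exact (X_le_LJ h3).trans (LJ_le_PJ.trans L.PJ_le_normalizer)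

/-- the root groups normalising the opposite member -/
theorem norm_of_form' [Fintype W] {w : W} {s : Y} (hs : Rp cs R.nsys w s) (hw : rep cs h w r = -r) {y : I → ℤ}
    (hy : IsRoot cs h y) (hf : form cs h r y ≤ 0) : ∀ g ∈ X y, cj g (cj s Z) = cj s Z := by
  intro g hg
  have hf' : 0 ≤ form cs h r (rep cs h w⁻¹ y) := by
    have e := rep_inv_apply cs h w⁻¹ y
    rw [inv_inv] at e
    rw [← form_rep cs h w, e, hw, form_neg_left]
    omega
  have h1 := norm_of_form L (hy.act w⁻¹) hf'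
  have h2 : s⁻¹ * g * s ∈ X (rep cs h w⁻¹ y) := by
    have h3 := R.conj_rp hs.inv hy
    rw [← h3, mem_cj]
    have e : s⁻¹⁻¹ * (s⁻¹ * g * s) * s⁻¹ = g := by group
    rwa [e]
  have h4 := mem_normalizer_iff_cj.1 (h1 h2)
  have e : g = s * (s⁻¹ * g * s) * s⁻¹ := by group
  rw [← cj_mul, e]
  have e2 : s * (s⁻¹ * g * s) * s⁻¹ * s = s * (s⁻¹ * g * s) := by group
  rw [e2, cj_mul, h4]

theorem r1_mem [Finite W] {w : W} {s : Y} (hs : Rp cs R.nsys w s) (hw : rep cs h w r = -r) {x : Y} (hx : x ∈ Z)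
    (hx1 : x ≠ 1) : ∃ v ∈ X (-r), cj x (cj s Z) = cj v Z := by
  have := Fintype.ofFinite W
  obtain ⟨w', hw', a, ha, b, hb, m, hm, e⟩ := exists_mu R L.root (L.le hx) hx1
  have hw'r : rep cs h w' r = -r := by
    rw [hw', cpr_self cs h L.root, two_smul, sub_add_cancel_left]
  have hnorm : ∀ y ∈ X (-r), cj y (cj s Z) = cj s Z := by
    refine norm_of_form' L hs hw L.root.neg ?_
    rw [form_neg_right]
    have := form_pos cs h L.root.ne_zero
    omega
  have hms : cj m (cj s Z) = Z := by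
    rw [← cj_mul]
    refine L.stab _ _ (hm.mul hs) ?_
    rw [rep_mul_apply, hw, map_neg, hw'r, neg_neg]
  have hx' : x = a⁻¹ * m * b⁻¹ := by rw [e]; group
  refine ⟨a⁻¹, inv_mem ha, ?_⟩
  rw [hx', cj_mul, hnorm _ (inv_mem hb), cj_mul, hms]

end General

/-! ### the roots of `³D₄(q)` -/

section D4

open Cfsg.Agent.Nodes.RGDTwD4 (isCartan)

local notation "A" => Cfsg.Agent.Nodes.RGDTwD4.A

/-- the roots in cyclic order -/
def rv (k : ZMod (2 * 6)) : Fin 2 → ℤ :=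
  ([![-1, 0], ![0, 1], ![1, 3], ![1, 2], ![2, 3], ![1, 1], ![1, 0], ![0, -1], ![-1, -3], ![-1, -2], ![-2, -3],
    ![-1, -1]] : List (Fin 2 → ℤ)).getD k.val 0

theorem refl_rv : ∀ (i : Fin 2) (k : ZMod (2 * 6)), ∃ j, rv k - pairing A i (rv k) • sr i = rv j := by
  decide +kernel

theorem reach_rv : ∀ k : ZMod (2 * 6), ∃ (ω : List (Fin 2)), ω.foldr (fun i x => x - pairing A i x • sr i) (rv k) =
    sr 0 ∨ ω.foldr (fun i x => x - pairing A i x • sr i) (rv k) = sr 1 := by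
  intro k
  have : ∀ k : ZMod (2 * 6), ∃ ω ∈ ([[], [0], [1], [0, 1], [1, 0], [0, 1, 0], [1, 0, 1], [0, 1, 0, 1], [1, 0, 1, 0],
      [0, 1, 0, 1, 0], [1, 0, 1, 0, 1], [0, 1, 0, 1, 0, 1]] : List (List (Fin 2))),
      ω.foldr (fun i x => x - pairing A i x • sr i) (rv k) = sr 0 ∨
      ω.foldr (fun i x => x - pairing A i x • sr i) (rv k) = sr 1 := by decide +kernel
  obtain ⟨ω, -, h⟩ := this k
  exact ⟨ω, h⟩

theorem sr0 : (sr 0 : Fin 2 → ℤ) = rv 6 := by decide +kernel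
theorem sr1 : (sr 1 : Fin 2 → ℤ) = rv 1 := by decide +kernel

variable {W : Type*} [Group W] {cs : CoxeterSystem CoxeterMatrix.G₂ W}

theorem rep_foldr (ω : List (Fin 2)) (x : Fin 2 → ℤ) :
    rep cs isCartan (cs.wordProd ω) x = ω.foldr (fun i x => x - pairing A i x • sr i) x := by
  induction ω with
  | nil => rw [wordProd_nil, map_one, Module.End.one_apply]; rfl
  | cons i ω ih =>
    rw [wordProd_cons, rep_mul_apply, ih, rep_simple_eq]
    rfl

theorem isRoot_rv (k : ZMod (2 * 6)) : IsRoot cs isCartan (rv k) := by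
  obtain ⟨ω, h⟩ := reach_rv k
  rw [← rep_foldr (cs := cs)] at h
  have e := rep_inv_apply cs isCartan (cs.wordProd ω) (rv k)
  rcases h with h | h
  · rw [h] at e
    rw [← e]
    exact (isRoot_sr cs isCartan 0).act _
  · rw [h] at e
    rw [← e]
    exact (isRoot_sr cs isCartan 1).act _

theorem isRoot_iff (z : Fin 2 → ℤ) : IsRoot cs isCartan z ↔ ∃ k, z = rv k := by
  constructor
  · rintro ⟨w, i, rfl⟩
    obtain ⟨ω, rfl⟩ := cs.wordProd_surjective w
    rw [rep_foldr]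
    induction ω with
    | nil =>
      fin_cases i
      · exact ⟨6, sr0⟩
      · exact ⟨1, sr1⟩
    | cons j ω ih =>
      obtain ⟨k, hk⟩ := ih
      rw [List.foldr_cons, hk]
      exact refl_rv j k
  · rintro ⟨k, rfl⟩
    exact isRoot_rv k

/-- roots between two roots, by determinants -/
def det2 (x y : Fin 2 → ℤ) : ℤ := x 0 * y 1 - x 1 * y 0

theorem det_of_btwn {x y z : Fin 2 → ℤ} (hz : Btwn cs isCartan x y z) (hd : det2 x y ≠ 0) :
    0 < det2 x z * det2 x y ∧ 0 < det2 z y * det2 x y := by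
  obtain ⟨-, m, a, b, hm, ha, hb, e⟩ := hz
  have e0 := congrFun e 0
  have e1 := congrFun e 1
  simp only [Pi.smul_apply, Pi.add_apply, smul_eq_mul] at e0 e1
  have h1 : m * det2 x z = b * det2 x y := by
    unfold det2
    linear_combination x 0 * e1 - x 1 * e0
  have h2 : m * det2 z y = a * det2 x y := by
    unfold det2
    linear_combination y 1 * e0 - y 0 * e1
  have h3 : 0 < det2 x y * det2 x y := mul_self_pos.2 hd
  constructor
  · have h4 : m * (det2 x z * det2 x y) = b * (det2 x y * det2 x y) := by linear_combination det2 x y * h1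
    have h5 : 0 < m * (det2 x z * det2 x y) := by rw [h4]; exact mul_pos hb h3
    exact (mul_pos_iff_of_pos_left hm).1 h5
  · have h4 : m * (det2 z y * det2 x y) = a * (det2 x y * det2 x y) := by linear_combination det2 x y * h2
    have h5 : 0 < m * (det2 z y * det2 x y) := by rw [h4]; exact mul_pos ha h3
    exact (mul_pos_iff_of_pos_left hm).1 h5

/-- the roots in an interval -/
def RS (l : List (ZMod (2 * 6))) : Set (Fin 2 → ℤ) := {z | ∃ k ∈ l, z = rv k}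

/-- the check -/
def bchk (i j : ZMod (2 * 6)) (l : List (ZMod (2 * 6))) : Prop :=
  det2 (rv i) (rv j) ≠ 0 ∧ ∀ k : ZMod (2 * 6), 0 < det2 (rv i) (rv k) * det2 (rv i) (rv j) →
    0 < det2 (rv k) (rv j) * det2 (rv i) (rv j) → k ∈ l

instance : DecidablePred fun a : ZMod (2 * 6) × ZMod (2 * 6) × List (ZMod (2 * 6)) => bchk a.1 a.2.1 a.2.2 :=
  fun _ => inferInstanceAs (Decidable (_ ∧ _))

instance (i j : ZMod (2 * 6)) (l : List (ZMod (2 * 6))) : Decidable (bchk i j l) :=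
  inferInstanceAs (Decidable (_ ∧ _))

theorem of_bchk {i j : ZMod (2 * 6)} {l : List (ZMod (2 * 6))} (hb : bchk i j l) (z : Fin 2 → ℤ)
    (hz : Btwn cs isCartan (rv i) (rv j) z) : z ∈ RS l := by
  obtain ⟨k, rfl⟩ := (isRoot_iff z).1 hz.1
  obtain ⟨h1, h2⟩ := det_of_btwn hz hb.1
  exact ⟨k, hb.2 k h1 h2, rfl⟩

theorem bchk_ne {i j : ZMod (2 * 6)} {l : List (ZMod (2 * 6))} (hb : bchk i j l) : rv i ≠ -rv j := by
  intro h
  apply hb.1
  rw [h]
  simp only [det2, Pi.neg_apply]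
  ring

variable {Y : Type*} [Group Y] {p : ℕ} {T : Subgroup Y} {n : Fin 2 → Y}
  {X : (Fin 2 → ℤ) → Subgroup Y} (R : RGD cs isCartan p T n X)

include R

theorem norm_RS {i : ZMod (2 * 6)} {l : List (ZMod (2 * 6))} (hl : ∀ j ∈ l, bchk i j l) :
    X (rv i) ≤ Subgroup.normalizer (RGD.Sup X (RS l) : Set Y) := by
  refine R.le_normalizer (isRoot_rv i) ?_
  rintro y ⟨j, hj, rfl⟩
  exact ⟨isRoot_rv j, Or.inr ⟨bchk_ne (hl j hj), fun z hz => of_bchk (hl j hj) z hz⟩⟩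

theorem comm_RS {i j : ZMod (2 * 6)} {l : List (ZMod (2 * 6))} (hb : bchk i j l) {a b : Y} (ha : a ∈ X (rv i))
    (hb' : b ∈ X (rv j)) : ⁅a, b⁆ ∈ RGD.Sup X (RS l) := by
  have hne : rv i ≠ rv j := by
    intro h
    apply hb.1
    rw [h]
    simp only [det2]
    ring
  exact R.btw_le_Sup (fun z hz => of_bchk hb z hz) (R.comm _ _ (isRoot_rv i) (isRoot_rv j) hne (bchk_ne hb) a ha b hb')

theorem b56789 : (∀ j ∈ ([6, 7, 8, 9] : List (ZMod (2 * 6))), bchk 5 j [6, 7, 8, 9]) ∧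
    (∀ j ∈ ([7, 8, 9] : List (ZMod (2 * 6))), bchk 6 j [7, 8, 9]) ∧ bchk 5 10 [6, 7, 8, 9] := by
  decide +kernel

theorem neg4 : -rv 4 = rv 10 := by decide +kernel

omit R in
theorem rv_neg : ∀ k ∈ ([7, 8, 9, 10] : List (ZMod (2 * 6))), ∀ i : Fin 2, rv k i ≤ 0 := by decide +kernel
omit R in
theorem rv_pos : ∀ k ∈ ([1, 2, 3, 4, 5, 6] : List (ZMod (2 * 6))), ∀ i : Fin 2, 0 ≤ rv k i := by decide +kernel

theorem opp_E [Finite W] (L : Long R (rv 4) (X (rv 4))) {x1 x4 x5 : Y} (h1 : x1 ∈ X (rv 1)) (h4 : x4 ∈ X (rv 4))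
    (h4' : x4 ≠ 1) (h5 : x5 ∈ X (rv 5)) : Mv R (rv 4) (X (rv 4)) (x1 * (x5 * x4)) := by
  have := Fintype.ofFinite W
  obtain ⟨w, hw⟩ := exists_neg (cs := cs) (h := isCartan) L.root
  obtain ⟨s, hs⟩ := exists_rp cs R.nsys w
  refine ⟨w, s, hs, hw, s, ?_⟩
  obtain ⟨v, hv, ev⟩ := r1_mem L hs hw h4 h4'
  obtain ⟨b1, b2, b3⟩ := b56789 (R := R)
  rw [neg4 R] at hv
  have hf : ∀ z : Fin 2 → ℤ, z ≤ 0 → form cs isCartan (rv 4) z ≤ 0 := by
    intro z hz
    have h6 := form_nonneg_of_dom cs isCartan L.dom (neg_nonneg.2 hz)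
    rw [form_neg_right] at h6
    omega
  -- decomposition
  have d1 : RGD.Sup X (RS [6, 7, 8, 9]) ≤ RGD.Sup X (RS [7, 8, 9]) ⊔ X (rv 6) := by
    refine RGD.Sup_le ?_
    rintro z ⟨k, hk, rfl⟩
    rw [List.mem_cons] at hk
    rcases hk with rfl | hk
    · exact le_sup_right
    · exact (RGD.le_Sup (S := RS [7, 8, 9]) ⟨k, hk, rfl⟩).trans le_sup_left
  have hy : ∃ q ∈ RGD.Sup X (RS [6, 7, 8, 9]), ∃ x' ∈ X (rv 5), q * x' = v⁻¹ * x5 * v := by
    have e : v⁻¹ * x5 * v = (x5 * ⁅x5⁻¹, v⁻¹⁆ * x5⁻¹) * x5 := by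
      rw [commutatorElement_def]; group
    rw [e]
    refine ⟨_, ?_, _, h5, rfl⟩
    have h6 := comm_RS R b3 (inv_mem h5) (inv_mem hv)
    exact (Subgroup.mem_normalizer_iff.1 (norm_RS R b1 h5) _).1 h6
  obtain ⟨q, hq, x5', hx5', e1⟩ := hy
  have hq2 : q ∈ ((RGD.Sup X (RS [7, 8, 9]) ⊔ X (rv 6) : Subgroup Y) : Set Y) := d1 hq
  rw [Subgroup.coe_mul_of_right_le_normalizer_left _ _ (norm_RS R b2), Set.mem_mul] at hq2
  obtain ⟨m, hm, x6, hx6, e2⟩ := hq2
  have npos : ∀ k : ZMod (2 * 6), 0 ≤ rv k → ∀ g ∈ X (rv k), cj g (X (rv 4)) = X (rv 4) := fun k hk g hg =>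
    mem_normalizer_iff_cj.1 (norm_of_form L (isRoot_rv k) (form_nonneg_of_dom cs isCartan L.dom hk) hg)
  have hnm : cj m (cj s (X (rv 4))) = cj s (X (rv 4)) := by
    rw [← mem_normalizer_iff_cj]
    refine (RGD.Sup_le ?_ : RGD.Sup X (RS [7, 8, 9]) ≤ _) hm
    rintro z ⟨k, hk, rfl⟩ g hg
    rw [mem_normalizer_iff_cj]
    refine norm_of_form' L hs hw (isRoot_rv k) (hf _ ?_) g hg
    intro i
    refine rv_neg k ?_ i
    simp only [List.mem_cons, List.not_mem_nil, or_false] at hk ⊢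
    tauto
  have hn1 : cj x1 (cj s (X (rv 4))) = cj s (X (rv 4)) := by
    refine norm_of_form' L hs hw (isRoot_rv 1) ?_ x1 h1
    have : form cs isCartan (rv 4) (rv 1) = 0 := by
      rw [← sr1, form_sr_eq_zero_iff, mem_orth]
      decide +kernel
    rw [this]
  have hnv : cj v (cj s (X (rv 4))) = cj s (X (rv 4)) :=
    norm_of_form' L hs hw (isRoot_rv 10) (hf _ (rv_neg 10 (by decide +kernel))) v hv
  have hss : cj (s * s) (X (rv 4)) = X (rv 4) := by
    refine L.stab _ _ (hs.mul hs) ?_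
    rw [rep_mul_apply, hw, map_neg, hw, neg_neg]
  refine ⟨x1 * v * m * s, ?_, ?_⟩
  · show cj s (X (rv 4)) = cj (x1 * v * m * s) (X (rv 4))
    rw [cj_mul, cj_mul, cj_mul, hnm, hnv, hn1]
  · show cj (x1 * (x5 * x4) * s) (X (rv 4)) = cj (x1 * v * m * s * s) (X (rv 4))
    have e3 : x1 * v * m * s * s = x1 * v * m * (s * s) := by group
    have e4 : x5 * v = v * (m * (x6 * x5')) := by
      have : v * (m * (x6 * x5')) = v * (v⁻¹ * x5 * v) := by
        rw [← e1, ← e2]; group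
      rw [this]; group
    rw [e3, cj_mul (x1 * v * m), hss, cj_mul (x1 * (x5 * x4)), cj_mul x1, cj_mul x5, ev, ← cj_mul x5, e4, cj_mul v,
      cj_mul m, cj_mul x6, npos 5 (rv_pos 5 (by decide +kernel)) _ hx5', npos 6 (rv_pos 6 (by decide +kernel)) _ hx6, ← cj_mul v,
      ← cj_mul x1, ← mul_assoc]

end D4

end Cfsg.Agent.H939.HexOpp
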