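import Mathlib
import Cfsg.Agent.H939.FrameOrth

/-!
Complemented subgroup lattices (S5900) of the classical groups with a Witt frame: `PSp`, `PSU`, `PΩ` odd and minus.
-/

set_option autoImplicit false
set_option linter.unusedSectionVars false
set_option linter.dupNamespace false

namespace Cfsg.Agent.H939.InstClass

open Cfsg Cfsg.Agent.ChevalleyStructure.CoxeterGeom Cfsg.Agent.Tits.Roots
open Cfsg.Agent.Nodes.Comb Cfsg.Agent.Nodes.Reps Cfsg.Agent.Nodes.WittRoot Cfsg.Agent.Nodes.BNOf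
open Cfsg.Agent.Nodes.RGDLib Cfsg.Agent.Nodes.WittAll
open Cfsg.Agent.TitsThree Cfsg.Agent.TitsThree.Siegel Cfsg.Agent.TitsThree.WittFrame
  Cfsg.Agent.TitsThree.WittWeyl Cfsg.Agent.TitsThree.FrameCN
open Cfsg.Agent.KFacts.RgdFiltWitt Cfsg.Agent.H939.FrameRel Cfsg.Agent.H939.FrameMain Cfsg.Agent.H939.FrameOrth
open Cfsg.Agent.Nodes.WittU Cfsg.Agent.Nodes.WittInst
open Cfsg.Agent.LieClassical Cfsg.Agent.LieClassical.OrthCore Cfsg.Agent.LieClassical.OrthTrans
open Cfsg.Agent.LieClassical.OrthSimple Cfsg.Agent.LieClassical.OrthFinite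
open Cfsg.Agent.LieClassical.OrthForms
open Cfsg.Agent.TitsThree.WBridge Cfsg.Agent.TitsThree.KSideO Cfsg.Agent.TitsThree.StdData
open QuadraticMap

theorem cl_PSp {F : Type*} [Field F] [Finite F] {m : ℕ} (hm : 2 ≤ m) {p : ℕ} [Fact p.Prime] [CharP F p]
    [Finite (PSp m F)] [IsSimpleGroup (PSp m F)] : KLat.CL (PSp m F) := by
  by_cases h2 : (2 : F) = 0
  · have hp2 : p = 2 := by
      have h3 : CharP F 2 := CharTwo.of_one_ne_zero_of_two_eq_zero one_ne_zero h2
      exact CharP.eq F ‹CharP F p› h3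
    refine cl_two (KInstSp.model m F) (AmbT.of_amb amb_Sp p) (p0 := SpIdent.adm 1) one_ne_zero (by omega) (by omega)
      ⟨?_, ?_⟩ ⟨SpIdent.adm 1, rfl, one_ne_zero⟩
    · intro c
      refine Frame.Adm.ext rfl ?_
      rw [Frame.Adm.tr_c, SpIdent.form_ε, SpIdent.form_σ]
      have : c - (-1)⁻¹ * c = 2 * c := by
        rw [inv_neg, inv_one]; ring
      rw [this, h2, zero_mul]; rfl
    · intro q
      subst hp2
      refine Frame.Adm.ext ?_ ?_
      · rw [adm_pow_w, CharP.cast_eq_zero, zero_smul]; rfl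
      · have hw : q.w = 0 := q.ok
        rw [adm_pow_c hw, CharP.cast_eq_zero, zero_mul]; rfl
  · refine cl_S (KInstSp.model m F) (AmbT.of_amb amb_Sp p) (p0 := SpIdent.adm 1) one_ne_zero (by omega)
      ⟨SpIdent.adm 1, rfl, one_ne_zero⟩ ⟨1, ?_⟩
    intro h
    have h1 := congrArg Frame.Adm.c h
    rw [Frame.Adm.tr_c, SpIdent.form_ε, SpIdent.form_σ, inv_neg, inv_one] at h1
    apply h2
    have h3 : (1 : F) - -1 * 1 = 2 := by ring
    rw [h3] at h1
    exact h1

theorem exists_pow_ne {F : Type*} [Field F] [Fintype F] {q : ℕ} (hF : Fintype.card F = q ^ 2) : ∃ x : F, x ^ q ≠ x := by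
  classical
  have hq : 2 ≤ q := by
    have h1 := Fintype.one_lt_card (α := F)
    rw [hF] at h1
    by_contra h
    have : q = 0 ∨ q = 1 := by omega
    rcases this with rfl | rfl <;> simp at h1
  obtain ⟨g, hg⟩ := IsCyclic.exists_generator (α := Fˣ)
  have ho := orderOf_eq_card_of_forall_mem_zpowers hg
  refine ⟨g, fun h => ?_⟩
  have h1 : g ^ q = g := Units.ext (by rw [Units.val_pow_eq_pow_val]; exact h)
  have h2 : g ^ (q - 1) = 1 := by
    have e : q = (q - 1) + 1 := by omega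
    rw [e, pow_succ] at h1
    exact mul_eq_right.1 h1
  have h3 := orderOf_dvd_of_pow_eq_one h2
  rw [ho, Nat.card_eq_fintype_card, Fintype.card_units, hF] at h3
  have h4 := Nat.le_of_dvd (by omega) h3
  have h5 : q * 2 ≤ q ^ 2 := by rw [_root_.sq]; exact Nat.mul_le_mul_left q hq
  omega

theorem cl_PSU {F : Type*} [Field F] [Fintype F] {q N : ℕ} (hF : Fintype.card F = q ^ 2) (hN : 3 ≤ N) {p : ℕ}
    [Fact p.Prime] [CharP F p] [Finite (PSU N F q)] [IsSimpleGroup (PSU N F q)] : KLat.CL (PSU N F q) := by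
  obtain ⟨m, hm⟩ : ∃ m, N = 2 * m ∨ N = 2 * m + 1 := ⟨N / 2, by omega⟩
  obtain ⟨W, -⟩ := exists_wframe hF hm
  obtain ⟨p0, hp0, hp0w⟩ := exists_adm hF W
  refine cl_S (KInstU.model hF hN W) (AmbT.of_amb (amb_U hF W) p) hp0 (by omega) ⟨p0, hp0w, hp0⟩ ?_
  obtain ⟨x, hx⟩ := exists_pow_ne hF
  refine ⟨x, fun h => hx ?_⟩
  have h1 := congrArg Frame.Adm.c h
  rw [Frame.Adm.tr_c, KSideU.HU_ε, KSideU.HU_σ, inv_one, one_mul, Frame.Adm.one_c, sub_eq_zero] at h1
  exact h1.symm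

section Orth

variable {F : Type*} [Field F] {ι : Type*} [Fintype ι]

theorem trZ_O {V : Type*} [AddCommGroup V] [Module F V] {Q : QuadraticForm F V} {n : ℕ} (W : SiegelGen.WFrame (PO Q) n)
    (p : ℕ) [CharP F p] : TrZ (toFrame W) p := by
  have key : ∀ q : (toFrame W).Adm, q.w = 0 → q = 1 := by
    intro q hq
    refine Frame.Adm.ext hq ?_
    have h1 : q.c = -Q q.w := q.ok.2
    rw [h1, hq, QuadraticMap.map_zero, neg_zero]; rfl
  exact ⟨fun m => key _ rfl, fun q => key _ (by rw [adm_pow_w, CharP.cast_eq_zero, zero_smul])⟩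

theorem nd_odd (m : ℕ) (F : Type*) [Field F] (h2 : (2 : F) ≠ 0) (q : (toFrame (wodd m F)).Adm) (hq : q ≠ 1) :
    ∃ s : (toFrame (wodd m F)).Adm, (HO (oddForm m F)).h s.w q.w ≠ 0 := by
  refine ⟨q, fun h => hq ?_⟩
  have hw : ∀ j, q.w (Sum.inr j) = 0 := q.ok.1
  have hc : q.c = -(oddForm m F) q.w := q.ok.2
  rw [HO_h, polar_self'] at h
  have h0 : (oddForm m F) q.w = 0 := (mul_eq_zero.1 h).resolve_left h2
  have hw0 : q.w = 0 := (wodd m F).aniso q.w hw (by rw [sing_iff]; exact h0)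
  refine Frame.Adm.ext hw0 ?_
  rw [hc, h0, neg_zero]; rfl

theorem cl_PO_odd {F : Type*} [Field F] [Finite F] {m : ℕ} (h2 : (2 : F) ≠ 0) (hm : 2 ≤ m) {p : ℕ} [Fact p.Prime]
    [CharP F p] [Finite (Cfsg.POmega F (Cfsg.quadFormOdd m F))] [IsSimpleGroup (Cfsg.POmega F (Cfsg.quadFormOdd m F))] :
    KLat.CL (Cfsg.POmega F (Cfsg.quadFormOdd m F)) := by
  revert ‹Finite (Cfsg.POmega F (Cfsg.quadFormOdd m F))› ‹IsSimpleGroup (Cfsg.POmega F (Cfsg.quadFormOdd m F))›
  rw [← coe_oddForm]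
  intro _ _
  have hG : Good (oddForm m F) := by
    apply good_of_finite (nondeg_oddForm m F h2)
    rw [Module.finrank_fintype_fun_eq_card, Fintype.card_sum, Fintype.card_sum, Fintype.card_fin,
      Fintype.card_unit]
    omega
  have hp : ((embOdd m F).ngt ⟨1, -1 ^ 2, rfl⟩).c ≠ 0 := by
    change (1 : F)⁻¹ * (-1 ^ 2) ≠ 0
    simp
  exact cl_O (model (wodd m F) hG ⟨_, hp⟩) (AmbT.of_amb (amb_O_of_two _ h2) p) hp (by omega) (by omega)
    (trZ_O (wodd m F) p) (nd_odd m F h2)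

theorem nd_minus (m : ℕ) (F : Type*) [Field F] [Finite F] (a b : F)
    (hab : ∀ z₁ z₂ : F, z₁ ^ 2 + a * z₁ * z₂ + b * z₂ ^ 2 = 0 → z₁ = 0 ∧ z₂ = 0)
    (q : (toFrame (wminus m F a b hab)).Adm) (hq : q ≠ 1) :
    ∃ s : (toFrame (wminus m F a b hab)).Adm, (HO (minusForm m F a b)).h s.w q.w ≠ 0 := by
  have hw : ∀ j, q.w (Sum.inl j) = 0 := q.ok.1
  have hc : q.c = -(minusForm m F a b) q.w := q.ok.2
  by_contra hcon
  push Not at hcon
  apply hq
  have hw0 : q.w = 0 → q = 1 := by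
    intro h
    refine Frame.Adm.ext h ?_
    rw [hc, h, QuadraticMap.map_zero, neg_zero]; rfl
  apply hw0
  by_cases h2 : (2 : F) = 0
  · -- characteristic two
    have key : ∀ x y : F, a * (x * q.w (Sum.inr 1) + y * q.w (Sum.inr 0)) = 0 := by
      intro x y
      have h1 := hcon ⟨Sum.elim (fun _ => 0) ![x, y], -(minusForm m F a b) (Sum.elim (fun _ => 0) ![x, y]),
        ⟨fun _ => rfl, rfl⟩⟩
      rw [HO_h, polar_minusForm] at h1
      simp [hw] at h1
      linear_combination h1 - (x * q.w (Sum.inr 0) + b * y * q.w (Sum.inr 1)) * h2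
    have ha : a ≠ 0 := by
      rintro rfl
      have : CharP F 2 := CharTwo.of_one_ne_zero_of_two_eq_zero one_ne_zero h2
      obtain ⟨c, hc⟩ := FiniteField.isSquare_of_char_two (F := F) (ringChar.eq F 2 ▸ rfl) b
      have h3 := hab c 1 (by rw [hc]; linear_combination (c * c) * h2)
      exact one_ne_zero h3.2
    have k1 := key 1 0
    have k2 := key 0 1
    rw [one_mul, zero_mul, add_zero] at k1
    rw [one_mul, zero_mul, zero_add] at k2
    have k1' := (mul_eq_zero.1 k1).resolve_left ha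
    have k2' := (mul_eq_zero.1 k2).resolve_left ha
    funext j
    rcases j with j | j
    · exact hw j
    · fin_cases j
      · exact k2'
      · exact k1'
  · have h := hcon q
    rw [HO_h, polar_self'] at h
    have h0 : (minusForm m F a b) q.w = 0 := (mul_eq_zero.1 h).resolve_left h2
    exact (wminus m F a b hab).aniso q.w hw (by rw [sing_iff]; exact h0)

theorem cl_PO_minus {F : Type*} [Field F] [Finite F] {m : ℕ} (a b : F)
    (hab : ∀ z₁ z₂ : F, z₁ ^ 2 + a * z₁ * z₂ + b * z₂ ^ 2 = 0 → z₁ = 0 ∧ z₂ = 0)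
    (hm : 2 ≤ m) {p : ℕ} [Fact p.Prime] [CharP F p] [Finite (Cfsg.POmega F (Cfsg.quadFormMinus m F a b))]
    [IsSimpleGroup (Cfsg.POmega F (Cfsg.quadFormMinus m F a b))] :
    KLat.CL (Cfsg.POmega F (Cfsg.quadFormMinus m F a b)) := by
  revert ‹Finite (Cfsg.POmega F (Cfsg.quadFormMinus m F a b))›
    ‹IsSimpleGroup (Cfsg.POmega F (Cfsg.quadFormMinus m F a b))›
  rw [← coe_minusForm]
  intro _ _
  have hG : Good (minusForm m F a b) := by
    apply good_of_finite (nondeg_minusForm m F a b hab)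
    rw [Module.finrank_fintype_fun_eq_card, Fintype.card_sum, Fintype.card_sum, Fintype.card_fin,
      Fintype.card_fin]
    omega
  have hp : ((embMinus m F a b hab).ngt ⟨(1, 0), -nf a b (1, 0), rfl⟩).c ≠ 0 := by
    change (1 : F)⁻¹ * (-nf a b (1, 0)) ≠ 0
    simp [nf]
  have hA : AmbT (toFrame (wminus m F a b hab)) p (E (minusForm m F a b)) := by
    by_cases h2 : (2 : F) = 0
    · have hp2 : p = 2 := by
        have h3 : CharP F 2 := CharTwo.of_one_ne_zero_of_two_eq_zero one_ne_zero h2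
        exact CharP.eq F ‹CharP F p› h3
      subst hp2
      exact ambT_O _ fun g hg hg2 hb => fixp_minus a b hab h2 hm hG hg hg2 hb
    · exact AmbT.of_amb (amb_O_of_two _ h2) p
  exact cl_O (model (wminus m F a b hab) hG ⟨_, hp⟩) hA hp (by omega) (by omega)
    (trZ_O (wminus m F a b hab) p) (nd_minus m F a b hab)

end Orth

end Cfsg.Agent.H939.InstClass
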