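import Mathlib
import Cfsg.Agent.H939.HexShort
import Cfsg.Agent.H939.InstSL
import Cfsg.Agent.H939.ClsOf
import Cfsg.Agent.Hexagon.TwD4Par
import Cfsg.Agent.KFacts.RgdLieCharP

/-!
Complemented subgroup lattices (S5900): `³D₄(q)`.
-/

set_option autoImplicit false
set_option linter.unusedSectionVars false
set_option linter.dupNamespace false

namespace Cfsg.Agent.H939.InstD4Tw

open CoxeterSystem Cfsg.Agent.ChevalleyStructure.CoxeterGeom Cfsg.Agent.Tits.Roots Cfsg.Agent.Tits.Core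
  Cfsg.Agent.Tits.RootComb Cfsg.Agent.Nodes.Comb Cfsg.Agent.Nodes.Reps Cfsg.Agent.Nodes.BNOf
  Cfsg.Agent.Nodes.StabComb Cfsg.Agent.Nodes.LeviDec Cfsg.Agent.Nodes.OppDec Cfsg.Agent.Nodes.Bruhat
open Cfsg.Lie Cfsg.Agent.ChevalleyStructure
open Cfsg.Agent.ChevalleyStructure.TwistedU
open Cfsg.Agent.Nodes Cfsg.Agent.Nodes.RGDLib
open Cfsg.Agent.Nodes.RGDFold (V R R_eq)
open Cfsg.Agent.H939.RgdA Cfsg.Agent.H939.RgdTwo Cfsg.Agent.H939.ClsOf Cfsg.Agent.H939.RgdP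
  Cfsg.Agent.H939.InstSL Cfsg.Agent.H939.RgdV Cfsg.Agent.KFacts.RgdLieCharP
open Cfsg.Agent.H939.HexOpp Cfsg.Agent.H939.HexColl Cfsg.Agent.H939.HexField
open Cfsg.Agent.SplitTwo
open Cfsg.Agent.Nodes.RGDTwD4 (J isCartan X)
open scoped commutatorElement

universe u

local notation "A" => Cfsg.Agent.Nodes.RGDTwD4.A

section General

variable {Y : Type*} [Group Y] {X : (Fin 2 → ℤ) → Subgroup Y}
  {K : Type*} [Field K] {σ : K ≃+* K} {x1 x2 x3 x4 x5 x6 : K → Y}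
  (P : HexPar σ (fun k => X (rv k)) x1 x2 x3 x4 x5 x6)

theorem kk_symm {G : Type*} [Group G] (a b : G) : kk b a = (kk a b)⁻¹ := by unfold kk; group

theorem kk_self {G : Type*} [Group G] {a b : G} (h : a * b = b * a) : kk a b = 1 := by
  unfold kk
  have : a⁻¹ * b⁻¹ * a * b = (b * a)⁻¹ * (a * b) := by group
  rw [this, h, inv_mul_cancel]

include P

/-- each root group is abelian, of exponent the characteristic -/
theorem facts (k : ZMod (2 * 6)) (hk : k ∈ ([1, 2, 3, 4, 5, 6] : List (ZMod (2 * 6)))) :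
    ∃ (D : K → Prop) (x : K → Y), D 0 ∧ (∀ a b, D a → D b → D (a + b)) ∧ x 0 = 1 ∧
      (∀ a b, D a → D b → x (a + b) = x a * x b) ∧ ∀ g, g ∈ X (rv k) ↔ ∃ a, D a ∧ x a = g := by
  have H := P.rel
  have h0 : σ (0 : K) = 0 := map_zero σ
  have hadd : ∀ a b, σ a = a → σ b = b → σ (a + b) = a + b := fun a b ha hb => by rw [map_add, ha, hb]
  simp only [List.mem_cons, List.not_mem_nil, or_false] at hk
  rcases hk with rfl | rfl | rfl | rfl | rfl | rfl
  · exact ⟨fun _ => True, x1, trivial, fun _ _ _ _ => trivial, x1_zero H, fun a b _ _ => H.add1 a b, fun g => by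
      rw [P.mem1 g]; simp⟩
  · exact ⟨fun a => σ a = a, x2, h0, hadd, x2_zero H, fun a b => H.add2 a b, fun g => P.mem2 g⟩
  · exact ⟨fun _ => True, x3, trivial, fun _ _ _ _ => trivial, x3_zero H, fun a b _ _ => H.add3 a b, fun g => by
      rw [P.mem3 g]; simp⟩
  · exact ⟨fun a => σ a = a, x4, h0, hadd, x4_zero H, fun a b => H.add4 a b, fun g => P.mem4 g⟩
  · exact ⟨fun _ => True, x5, trivial, fun _ _ _ _ => trivial, x5_zero H, fun a b _ _ => H.add5 a b, fun g => by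
      rw [P.mem5 g]; simp⟩
  · exact ⟨fun a => σ a = a, x6, h0, hadd, by
      have := H.add6 0 0 h0 h0; rwa [add_zero, left_eq_mul] at this, fun a b => H.add6 a b, fun g => P.mem6 g⟩

theorem X_abel {k : ZMod (2 * 6)} (hk : k ∈ ([1, 2, 3, 4, 5, 6] : List (ZMod (2 * 6)))) {g g' : Y}
    (hg : g ∈ X (rv k)) (hg' : g' ∈ X (rv k)) : g * g' = g' * g := by
  obtain ⟨D, x, h0, h1, h2, h3, h4⟩ := facts P k hk
  obtain ⟨a, ha, rfl⟩ := (h4 g).1 hg
  obtain ⟨b, hb, rfl⟩ := (h4 g').1 hg'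
  rw [← h3 a b ha hb, ← h3 b a hb ha, add_comm]

theorem X_pow {p : ℕ} [CharP K p] {k : ZMod (2 * 6)} (hk : k ∈ ([1, 2, 3, 4, 5, 6] : List (ZMod (2 * 6)))) {g : Y}
    (hg : g ∈ X (rv k)) : g ^ p = 1 := by
  obtain ⟨D, x, h0, h1, h2, h3, h4⟩ := facts P k hk
  obtain ⟨a, ha, rfl⟩ := (h4 g).1 hg
  have key : ∀ m : ℕ, D (m * a) ∧ x a ^ m = x (m * a) := by
    intro m
    induction m with
    | zero => rw [Nat.cast_zero, zero_mul, pow_zero, h2]; exact ⟨h0, rfl⟩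
    | succ m ih =>
      obtain ⟨e1, e2⟩ := ih
      rw [Nat.cast_succ, add_mul, one_mul]
      exact ⟨h1 _ _ e1 ha, by rw [pow_succ, e2, h3 _ _ e1 ha]⟩
  rw [(key p).2, CharP.cast_eq_zero, zero_mul, h2]

/-- commutators with the centre -/
theorem kk_four {k : ZMod (2 * 6)} (hk : k ∈ ([1, 2, 3, 4, 5, 6] : List (ZMod (2 * 6)))) {g z : Y}
    (hg : g ∈ X (rv k)) (hz : z ∈ X (rv 4)) : kk g z = 1 := by
  have H := P.rel
  obtain ⟨c, hc, rfl⟩ := (P.mem4 _).1 hz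
  simp only [List.mem_cons, List.not_mem_nil, or_false] at hk
  rcases hk with rfl | rfl | rfl | rfl | rfl | rfl
  · obtain ⟨a, rfl⟩ := (P.mem1 _).1 hg; exact H.c14 a c hc
  · obtain ⟨a, ha, rfl⟩ := (P.mem2 _).1 hg; exact H.c24 a c ha hc
  · obtain ⟨a, rfl⟩ := (P.mem3 _).1 hg; exact H.c34 a c hc
  · exact kk_self (X_abel P (by decide +kernel) hg hz)
  · obtain ⟨a, rfl⟩ := (P.mem5 _).1 hg; rw [kk_symm, H.c45 c a hc, inv_one]
  · obtain ⟨a, ha, rfl⟩ := (P.mem6 _).1 hg; rw [kk_symm, H.c46 c a hc ha, inv_one]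

/-- the commutators of the radical -/
theorem kk_mem {i j : ZMod (2 * 6)} (hi : i ∈ ([2, 3, 4, 5, 6] : List (ZMod (2 * 6))))
    (hj : j ∈ ([2, 3, 4, 5, 6] : List (ZMod (2 * 6)))) {g k : Y} (hg : g ∈ X (rv i)) (hk : k ∈ X (rv j)) :
    kk g k ∈ X (rv 4) := by
  have H := P.rel
  have h1 : (1 : Y) ∈ X (rv 4) := one_mem _
  have m23 : ∀ g ∈ X (rv 2), ∀ k ∈ X (rv 3), kk g k ∈ X (rv 4) := by
    intro g hg k hk
    obtain ⟨a, ha, rfl⟩ := (P.mem2 _).1 hg; obtain ⟨b, rfl⟩ := (P.mem3 _).1 hk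
    rw [H.c23 a b ha]; exact h1
  have m25 : ∀ g ∈ X (rv 2), ∀ k ∈ X (rv 5), kk g k ∈ X (rv 4) := by
    intro g hg k hk
    obtain ⟨a, ha, rfl⟩ := (P.mem2 _).1 hg; obtain ⟨b, rfl⟩ := (P.mem5 _).1 hk
    rw [H.c25 a b ha]; exact h1
  have m26 : ∀ g ∈ X (rv 2), ∀ k ∈ X (rv 6), kk g k ∈ X (rv 4) := by
    intro g hg k hk
    obtain ⟨a, ha, rfl⟩ := (P.mem2 _).1 hg; obtain ⟨b, hb, rfl⟩ := (P.mem6 _).1 hk
    rw [H.c26 a b ha hb]; exact (P.mem4 _).2 ⟨_, by rw [map_mul, ha, hb], rfl⟩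
  have m35 : ∀ g ∈ X (rv 3), ∀ k ∈ X (rv 5), kk g k ∈ X (rv 4) := by
    intro g hg k hk
    obtain ⟨a, rfl⟩ := (P.mem3 _).1 hg; obtain ⟨b, rfl⟩ := (P.mem5 _).1 hk
    rw [H.c35 a b]; exact (P.mem4 _).2 ⟨_, fix_trc σ H.cube _ _, rfl⟩
  have m36 : ∀ g ∈ X (rv 3), ∀ k ∈ X (rv 6), kk g k ∈ X (rv 4) := by
    intro g hg k hk
    obtain ⟨a, rfl⟩ := (P.mem3 _).1 hg; obtain ⟨b, hb, rfl⟩ := (P.mem6 _).1 hk
    rw [H.c36 a b hb]; exact h1
  have m56 : ∀ g ∈ X (rv 5), ∀ k ∈ X (rv 6), kk g k ∈ X (rv 4) := by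
    intro g hg k hk
    obtain ⟨a, rfl⟩ := (P.mem5 _).1 hg; obtain ⟨b, hb, rfl⟩ := (P.mem6 _).1 hk
    rw [H.c56 a b hb]; exact h1
  have m4 : ∀ (k : ZMod (2 * 6)), k ∈ ([1, 2, 3, 4, 5, 6] : List (ZMod (2 * 6))) → ∀ g ∈ X (rv k), ∀ z ∈ X (rv 4),
      kk g z ∈ X (rv 4) := by
    intro k hk g hg z hz
    rw [kk_four P hk hg hz]; exact h1
  have ms : ∀ (k : ZMod (2 * 6)), k ∈ ([1, 2, 3, 4, 5, 6] : List (ZMod (2 * 6))) → ∀ g ∈ X (rv k), ∀ z ∈ X (rv k),
      kk g z ∈ X (rv 4) := by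
    intro k hk g hg z hz
    rw [kk_self (X_abel P hk hg hz)]; exact h1
  have sy : ∀ {g k : Y}, kk g k ∈ X (rv 4) → kk k g ∈ X (rv 4) := by
    intro g k h
    rw [kk_symm]; exact inv_mem h
  simp only [List.mem_cons, List.not_mem_nil, or_false] at hi hj
  rcases hi with rfl | rfl | rfl | rfl | rfl <;> rcases hj with rfl | rfl | rfl | rfl | rfl
  · exact ms 2 (by decide +kernel) _ hg _ hk
  · exact m23 _ hg _ hk
  · exact m4 2 (by decide +kernel) _ hg _ hk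
  · exact m25 _ hg _ hk
  · exact m26 _ hg _ hk
  · exact sy (m23 _ hk _ hg)
  · exact ms 3 (by decide +kernel) _ hg _ hk
  · exact m4 3 (by decide +kernel) _ hg _ hk
  · exact m35 _ hg _ hk
  · exact m36 _ hg _ hk
  · exact sy (m4 2 (by decide +kernel) _ hk _ hg)
  · exact sy (m4 3 (by decide +kernel) _ hk _ hg)
  · exact ms 4 (by decide +kernel) _ hg _ hk
  · exact sy (m4 5 (by decide +kernel) _ hk _ hg)
  · exact sy (m4 6 (by decide +kernel) _ hk _ hg)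
  · exact sy (m25 _ hk _ hg)
  · exact sy (m35 _ hk _ hg)
  · exact m4 5 (by decide +kernel) _ hg _ hk
  · exact ms 5 (by decide +kernel) _ hg _ hk
  · exact m56 _ hg _ hk
  · exact sy (m26 _ hk _ hg)
  · exact sy (m36 _ hk _ hg)
  · exact m4 6 (by decide +kernel) _ hg _ hk
  · exact sy (m56 _ hk _ hg)
  · exact ms 6 (by decide +kernel) _ hg _ hk

variable {W : Type*} [Group W] {cs : CoxeterSystem CoxeterMatrix.G₂ W} {p : ℕ} {T : Subgroup Y} {n : Fin 2 → Y}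

omit P in
theorem r_facts : (∀ i : Fin 2, 0 ≤ pairing A i (rv 4)) ∧ (∀ i : Fin 2, pairing A i (rv 4) ≠ 0 → i = 0) ∧
    (∀ k : ZMod (2 * 6), (∀ i : Fin 2, 0 ≤ rv k i) → k ∈ ([1, 2, 3, 4, 5, 6] : List (ZMod (2 * 6)))) ∧
    (∀ k : ZMod (2 * 6), (∀ i : Fin 2, 0 ≤ rv k i) → 0 < rv k 0 → k ∈ ([2, 3, 4, 5, 6] : List (ZMod (2 * 6)))) := by
  decide +kernel

theorem cls_hex [Finite W] [Fact p.Prime] [CharP K p] (R : RGD cs isCartan p T n X) :
    RgdTwo.Cls R (rv 4) (X (rv 4)) := by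
  obtain ⟨f1, f2, f3, f4⟩ := r_facts
  have hr : IsRoot cs isCartan (rv 4) := isRoot_rv 4
  have e4 : (4 : ZMod (2 * 6)) ∈ ([1, 2, 3, 4, 5, 6] : List (ZMod (2 * 6))) := by decide +kernel
  have hN : ∀ x ∈ NotJ cs isCartan (orth cs isCartan (rv 4)), ∃ k ∈ ([2, 3, 4, 5, 6] : List (ZMod (2 * 6))),
      x = rv k := by
    rintro x ⟨hx, h0, k, hk, hk'⟩
    rw [mem_orth] at hk
    obtain ⟨j, rfl⟩ := (isRoot_iff x).1 hx
    rw [f2 k hk] at hk'
    exact ⟨j, f4 j h0 hk', rfl⟩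
  refine cls_of R hr f1 le_rfl (X_ne_bot R hr) ?_ ?_ ?_ ?_ ?_ ?_
  · intro t ht
    exact R.tor _ hr t ht
  · intro w k hk hw
    rw [R.conj_rp hk hr, hw]
  · intro x hx h0 z hz g hg
    obtain ⟨j, rfl⟩ := (isRoot_iff x).1 hx
    exact comm_of_kk (kk_four P (f3 j h0) hg hz)
  · intro x hx y hy g hg k hk
    obtain ⟨i, hi, rfl⟩ := hN x hx
    obtain ⟨j, hj, rfl⟩ := hN y hy
    have := kk_mem P hi hj (inv_mem hg) (inv_mem hk)
    have e : g * k * g⁻¹ * k⁻¹ = kk g⁻¹ k⁻¹ := by unfold kk; group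
    rwa [e]
  · intro x hx g hg
    obtain ⟨i, hi, rfl⟩ := hN x hx
    have hi' : i ∈ ([1, 2, 3, 4, 5, 6] : List (ZMod (2 * 6))) := List.mem_cons_of_mem _ hi
    rw [X_pow P hi' hg]; exact one_mem _
  · intro g hg
    exact X_pow P e4 hg

end General

theorem V_iff : ∀ s < chevD4.nroots, ∀ k : ZMod (2 * 6),
    (V chevD4 J s = rv k ↔ s ∈ Cfsg.Agent.Hexagon.TwD4RGD.L k) := by
  decide +kernel

theorem X_eq {K : Type u} [Field K] {q : ℕ} {φ : K →+* K} (hle : twistedD4 K q ≤ D4Fixed.fix φ) (k : ZMod (2 * 6)) :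
    X φ q (rv k) = Cfsg.Agent.Hexagon.TwD4RGD.X K q k := by
  have h1 : ∀ s ∈ Cfsg.Agent.Hexagon.TwD4RGD.L k, s < chevD4.nroots := by
    intro s hs
    have : chevD4.nroots = 24 := by decide +kernel
    rw [this]
    exact Cfsg.Agent.Hexagon.TwD4RGD.L_lt k s hs
  ext g
  rw [Cfsg.Agent.Hexagon.TwD4RGD.mem_X]
  show (g : GL chevD4.Idx K) ∈ R chevD4 Cfsg.Agent.Nodes.RGDTwD4.hp K J (D4Fixed.sig φ) (rv k) ↔ _
  rw [R_eq (fun s hs => V_iff s hs k) h1, Cfsg.Agent.Nodes.RGDTwD4.xG_eq]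
  constructor
  · rintro ⟨h2, -⟩
    exact h2
  · intro h2
    exact ⟨h2, hle g.2⟩

theorem walk0 : ([1, 0] : List (Fin 2)).foldr (fun i x => x - pairing A i x • sr i) (rv 4) = sr 0 := by
  decide +kernel

theorem trc_nondeg {K : Type u} [Field K] [Fintype K] {q : ℕ} {σ : K ≃+* K} (hq : 1 < q)
    (hK : Fintype.card K = q ^ 3) (hσ : ∀ x, σ x = x ^ q) (a : K) (ha : a ≠ 0) : ∃ b, trc σ a b ≠ 0 := by
  classical
  by_contra hcon
  push Not at hcon
  have h1 : ∀ z : K, z + z ^ q + z ^ (q ^ 2) = 0 := by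
    intro z
    have := hcon (a⁻¹ * z)
    rw [trc, mul_inv_cancel_left₀ ha, hσ, hσ, ← pow_mul] at this
    rw [pow_two]
    exact this
  let P : Polynomial K := Polynomial.X + Polynomial.X ^ q + Polynomial.X ^ (q ^ 2)
  have hq2 : q < q ^ 2 := by nlinarith
  have hdeg : P.natDegree ≤ q ^ 2 := by
    refine Polynomial.natDegree_add_le_of_degree_le (Polynomial.natDegree_add_le_of_degree_le ?_ ?_) ?_
    · rw [Polynomial.natDegree_X]; omega
    · rw [Polynomial.natDegree_X_pow]; omega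
    · rw [Polynomial.natDegree_X_pow]
  have hP : P = 0 := by
    refine Polynomial.eq_zero_of_natDegree_lt_card_of_eval_eq_zero P (f := id) Function.injective_id (fun z => ?_) ?_
    · simp only [P, Polynomial.eval_add, Polynomial.eval_X, Polynomial.eval_pow, id_eq]
      exact h1 z
    · rw [hK]
      have : q ^ 2 < q ^ 3 := by nlinarith
      omega
  have h2 : P.coeff 1 = 1 := by
    simp only [P, Polynomial.coeff_add, Polynomial.coeff_X_one, Polynomial.coeff_X_pow]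
    rw [if_neg (by omega), if_neg (by omega), add_zero, add_zero]
  rw [hP, Polynomial.coeff_zero] at h2
  exact zero_ne_one h2

theorem exists_moved {K : Type u} [Field K] [Fintype K] {q : ℕ} {σ : K ≃+* K} (hq : 1 < q)
    (hK : Fintype.card K = q ^ 3) (hσ : ∀ x, σ x = x ^ q) : ∃ c : K, σ c ≠ c := by
  classical
  by_contra hcon
  push Not at hcon
  have h5 : Fintype.card K ≤ q := by
    have hne : (Polynomial.X ^ q - Polynomial.X : Polynomial K) ≠ 0 := FiniteField.X_pow_card_sub_X_ne_zero K hq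
    have h6 : (Finset.univ : Finset K).val ≤ (Polynomial.X ^ q - Polynomial.X : Polynomial K).roots := by
      rw [Multiset.le_iff_subset Finset.univ.nodup]
      intro c _
      rw [Polynomial.mem_roots hne, Polynomial.IsRoot.def]
      have := hcon c
      rw [hσ] at this
      simp [this]
    have h7 := Multiset.card_le_card h6
    have h8 := Polynomial.card_roots' (Polynomial.X ^ q - Polynomial.X : Polynomial K)
    rw [FiniteField.X_pow_card_sub_X_natDegree_eq K hq] at h8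
    have h9 : Multiset.card (Finset.univ : Finset K).val = Fintype.card K := rfl
    omega
  rw [hK] at h5
  have : q ^ 2 < q ^ 3 := by nlinarith
  nlinarith

theorem cl_D4 (K : Type u) [Field K] [Fintype K] {q : ℕ} (hq : IsPrimePow q) (hK : Fintype.card K = q ^ 3)
    [Finite ↥(twistedD4 K q)] [IsSimpleGroup ↥(twistedD4 K q)] : KLat.CL ↥(twistedD4 K q) := by
  by_cases hc : ∀ a b : ↥(twistedD4 K q), a * b = b * a
  · exact cl_of_comm hc
  obtain ⟨p, hp⟩ := CharP.exists K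
  have : Fact p.Prime := ⟨CharP.char_is_prime K p⟩
  obtain ⟨φ, hφ⟩ := D4Fixed.exists_frob hq hK
  set cs := (CoxeterMatrix.G₂).toCoxeterSystem with hcs
  have hWf : Finite (CoxeterMatrix.G₂).Group := RGDFold.finite_W (hp := RGDTwD4.hp) cs isCartan RGDTwD4.foldData
  set R := RGDTwD4.rgd cs hK hφ p with hR
  have hX := RGDTwD4.G1_eq_top cs hK hφ
  have hconn := conn_of_simple R hX (center_bot hc)
  have hG : GG cs isCartan (RGDTwD4.T K q) (X φ q) = ⊤ := by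
    rw [eq_top_iff, ← hX]; exact le_sup_right
  have h3 : ∀ a : K, φ (φ (φ a)) = a := by
    intro t
    rw [hφ, hφ, hφ, ← pow_mul, ← pow_mul]
    have : q * (q * q) = q ^ 3 := by ring
    rw [this, ← hK]
    exact FiniteField.pow_card t
  have hbij : Function.Bijective φ := Finite.injective_iff_bijective.1 φ.injective
  have hle := D4Fixed.twisted_le_fix hK hφ
  set σ : K ≃+* K := RingEquiv.ofBijective φ hbij with hσ
  have P := Cfsg.Agent.Hexagon.TwD4Par.hexPar (q := q) hφ hle (σ := σ) (fun x => rfl) h3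
  have hP : (fun k => X φ q (rv k)) = Cfsg.Agent.Hexagon.TwD4RGD.X K q := funext (X_eq hle)
  rw [← hP] at P
  have hσq : ∀ x, σ x = x ^ q := hφ
  have C := cls_hex (cs := cs) P R
  have g0 : Good R (rv 4) _ 0 := good_of_class C.long hG (v := cs.wordProd [1, 0]) (by rw [rep_foldr, walk0])
  have g1 := HexShort.good1 R P (trc_nondeg hq.one_lt hK hσq) (exists_moved hq.one_lt hK hσq) C.long g0
  refine cl_of_good R hX hconn C ?_
  intro i
  fin_cases i
  · exact g0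
  · exact g1

theorem cl_3D4 {G : Type*} [Group G] [Finite G] [IsSimpleGroup G] (h : Iso3D4 G) : KLat.CL G := by
  obtain ⟨F, _, _, q, hq, hF, ⟨e⟩⟩ := h
  have : Finite ↥(twistedD4 F q) := Finite.of_equiv G e.toEquiv
  have : IsSimpleGroup ↥(twistedD4 F q) := e.symm.isSimpleGroup
  exact KLat.of_equiv e.symm (cl_D4 F hq hF)

end Cfsg.Agent.H939.InstD4Tw
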