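import Mathlib
import Cfsg.Agent.H939.InstF4

/-!
Complemented subgroup lattices (S5900): `G₂(q)`, `3 ∤ q`.
-/

set_option autoImplicit false
set_option linter.unusedSectionVars false
set_option linter.dupNamespace false

namespace Cfsg.Agent.H939.InstG2

open CoxeterSystem Cfsg.Agent.ChevalleyStructure.CoxeterGeom Cfsg.Agent.Tits.Roots Cfsg.Agent.Tits.Core
  Cfsg.Agent.Tits.RootComb Cfsg.Agent.Nodes.Comb Cfsg.Agent.Nodes.Reps Cfsg.Agent.Nodes.BNOf
  Cfsg.Agent.Nodes.StabComb Cfsg.Agent.Nodes.LeviDec Cfsg.Agent.Nodes.OppDec Cfsg.Agent.Nodes.Bruhat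
open Cfsg.Lie Cfsg.Agent.ChevalleyStructure Cfsg.Agent.ChevalleyStructure.Elts
  Cfsg.Agent.ChevalleyStructure.RootVec Cfsg.Agent.ChevalleyStructure.RootVecTab
  Cfsg.Agent.ChevalleyStructure.NPerm Cfsg.Agent.ChevalleyStructure.CoxeterGeomTypes
open Cfsg.Agent.Nodes Cfsg.Agent.Nodes.RGDChev Cfsg.Agent.Nodes.RGDLib
open Cfsg.Agent.H939.RgdA Cfsg.Agent.H939.RgdTwo Cfsg.Agent.H939.ClsOf Cfsg.Agent.H939.RgdP
  Cfsg.Agent.H939.ChevCls Cfsg.Agent.H939.InstSL Cfsg.Agent.KFacts.RgdLieCharP Cfsg.Agent.H939.RgdV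
  Cfsg.Agent.H939.InstF4

universe u

variable (K : Type u) [Field K]

/-- root elements in the group -/
noncomputable def xx (s : ℕ) (t : K) : ↥(chevG2.group K) := ⟨xG hG2.inList s t, xG_mem_group hG2.inList s t⟩

variable {K}

theorem xx_add (s : ℕ) (t u : K) : xx K s t * xx K s u = xx K s (t + u) := Subtype.ext (xG_add hG2.inList s t u)

theorem xx_zero (s : ℕ) : xx K s 0 = 1 := Subtype.ext (xG_zero hG2.inList s)

theorem xx_inv (s : ℕ) (t : K) : (xx K s t)⁻¹ = xx K s (-t) := Subtype.ext (xG_inv hG2.inList s t)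

theorem xx_com {r s : ℕ} (hr : r < chevG2.nroots) (hs : s < chevG2.nroots) (hrs : s ≠ r) (hneg : s ≠ chevG2.neg r)
    (hc : chevG2.commTerms r s = []) (t u : K) : xx K s u * xx K r t = xx K r t * xx K s u := by
  apply Subtype.ext
  show xG hG2.inList s u * xG hG2.inList r t = xG hG2.inList r t * xG hG2.inList s u
  have := comm_in hG2 hr hs hrs hneg (K' := (⊥ : Subgroup (GL chevG2.Idx K)))
    (fun c h => by rw [hc] at h; exact absurd h List.not_mem_nil) t u
  rwa [Subgroup.mem_bot, commutatorElement_eq_one_iff_mul_comm] at this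

theorem com_aux {r s : ℕ} (hr : r < chevG2.nroots) (hs : s < chevG2.nroots) (hrs : s ≠ r) (hneg : s ≠ chevG2.neg r)
    (t u : K) {w : ↥(chevG2.group K)} (hw : (w : GL chevG2.Idx K) = wordG hG2.inList (chevG2.commWord K r s t u)) :
    xx K s u * xx K r t = xx K r t * (xx K s u * w) := by
  have h1 := comm_xG hG2 hr hs hrs hneg t u
  rw [← hw] at h1
  apply Subtype.ext
  show xG hG2.inList s u * xG hG2.inList r t = xG hG2.inList r t * (xG hG2.inList s u * (w : GL chevG2.Idx K))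
  rw [← h1, commutatorElement_def]
  group

theorem nr : chevG2.nroots = 12 := by decide +kernel

section

variable (t u : K) (z : ↥(chevG2.group K))

theorem c87 : xx K 8 u * xx K 7 t =
    xx K 7 t * (xx K 8 u * (xx K 9 (2 * t * u) * (xx K 10 (-3 * t ^ 2 * u) * xx K 11 (-3 * t * u ^ 2)))) := by
  refine com_aux (by decide +kernel) (by decide +kernel) (by decide) (by decide +kernel) t u ?_
  have e : chevG2.commTerms 7 8 = [(9, -2, 1, 1), (10, -3, 2, 1), (11, 3, 1, 2)] := by decide +kernel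
  rw [ChevalleyDatum.commWord, e]
  simp only [List.map_cons, List.map_nil, wordG_cons]
  show xG hG2.inList 9 _ * (xG hG2.inList 10 _ * xG hG2.inList 11 _) = _
  simp only [wordG, List.map_nil, List.prod_nil, mul_one]
  congr 3 <;> · push_cast; ring

theorem c97 : xx K 9 u * xx K 7 t = xx K 7 t * (xx K 9 u * xx K 10 (-3 * t * u)) := by
  refine com_aux (by decide +kernel) (by decide +kernel) (by decide) (by decide +kernel) t u ?_
  have e : chevG2.commTerms 7 9 = [(10, 3, 1, 1)] := by decide +kernel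
  rw [ChevalleyDatum.commWord, e]
  simp only [List.map_cons, List.map_nil, wordG_cons]
  show xG hG2.inList 10 _ = _
  simp only [wordG, List.map_nil, List.prod_nil, mul_one]
  congr 1; push_cast; ring

theorem c98 : xx K 9 u * xx K 8 t = xx K 8 t * (xx K 9 u * xx K 11 (-3 * t * u)) := by
  refine com_aux (by decide +kernel) (by decide +kernel) (by decide) (by decide +kernel) t u ?_
  have e : chevG2.commTerms 8 9 = [(11, 3, 1, 1)] := by decide +kernel
  rw [ChevalleyDatum.commWord, e]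
  simp only [List.map_cons, List.map_nil, wordG_cons]
  show xG hG2.inList 11 _ = _
  simp only [wordG, List.map_nil, List.prod_nil, mul_one]
  congr 1; push_cast; ring

theorem c106 : xx K 10 u * xx K 6 t = xx K 6 t * (xx K 10 u * xx K 11 (-t * u)) := by
  refine com_aux (by decide +kernel) (by decide +kernel) (by decide) (by decide +kernel) t u ?_
  have e : chevG2.commTerms 6 10 = [(11, 1, 1, 1)] := by decide +kernel
  rw [ChevalleyDatum.commWord, e]
  simp only [List.map_cons, List.map_nil, wordG_cons]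
  show xG hG2.inList 11 _ = _
  simp only [wordG, List.map_nil, List.prod_nil, mul_one]
  congr 1; push_cast; ring

theorem c76 : xx K 7 u * xx K 6 t = xx K 6 t * (xx K 7 u * (xx K 8 (-t * u) * (xx K 9 (-t * u ^ 2) *
    (xx K 10 (t * u ^ 3) * xx K 11 (-2 * t ^ 2 * u ^ 3))))) := by
  refine com_aux (by decide +kernel) (by decide +kernel) (by decide) (by decide +kernel) t u ?_
  have e : chevG2.commTerms 6 7 = [(8, 1, 1, 1), (9, 1, 1, 2), (10, -1, 1, 3), (11, -2, 2, 3)] := by decide +kernel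
  rw [ChevalleyDatum.commWord, e]
  simp only [List.map_cons, List.map_nil, wordG_cons]
  show xG hG2.inList 8 _ * (xG hG2.inList 9 _ * (xG hG2.inList 10 _ * xG hG2.inList 11 _)) = _
  simp only [wordG, List.map_nil, List.prod_nil, mul_one]
  congr 4 <;> · push_cast; ring

theorem c107 : xx K 10 u * xx K 7 t = xx K 7 t * xx K 10 u :=
  xx_com (by decide +kernel) (by decide +kernel) (by decide) (by decide +kernel) (by decide +kernel) t u
theorem c117 : xx K 11 u * xx K 7 t = xx K 7 t * xx K 11 u :=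
  xx_com (by decide +kernel) (by decide +kernel) (by decide) (by decide +kernel) (by decide +kernel) t u
theorem c108 : xx K 10 u * xx K 8 t = xx K 8 t * xx K 10 u :=
  xx_com (by decide +kernel) (by decide +kernel) (by decide) (by decide +kernel) (by decide +kernel) t u
theorem c118 : xx K 11 u * xx K 8 t = xx K 8 t * xx K 11 u :=
  xx_com (by decide +kernel) (by decide +kernel) (by decide) (by decide +kernel) (by decide +kernel) t u
theorem c109 : xx K 10 u * xx K 9 t = xx K 9 t * xx K 10 u :=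
  xx_com (by decide +kernel) (by decide +kernel) (by decide) (by decide +kernel) (by decide +kernel) t u
theorem c119 : xx K 11 u * xx K 9 t = xx K 9 t * xx K 11 u :=
  xx_com (by decide +kernel) (by decide +kernel) (by decide) (by decide +kernel) (by decide +kernel) t u
theorem c1110 : xx K 11 u * xx K 10 t = xx K 10 t * xx K 11 u :=
  xx_com (by decide +kernel) (by decide +kernel) (by decide) (by decide +kernel) (by decide +kernel) t u
theorem c86 : xx K 8 u * xx K 6 t = xx K 6 t * xx K 8 u :=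
  xx_com (by decide +kernel) (by decide +kernel) (by decide) (by decide +kernel) (by decide +kernel) t u
theorem c96 : xx K 9 u * xx K 6 t = xx K 6 t * xx K 9 u :=
  xx_com (by decide +kernel) (by decide +kernel) (by decide) (by decide +kernel) (by decide +kernel) t u
theorem c116 : xx K 11 u * xx K 6 t = xx K 6 t * xx K 11 u :=
  xx_com (by decide +kernel) (by decide +kernel) (by decide) (by decide +kernel) (by decide +kernel) t u

theorem d87 : xx K 8 u * (xx K 7 t * z) =
    xx K 7 t * (xx K 8 u * (xx K 9 (2 * t * u) * (xx K 10 (-3 * t ^ 2 * u) * (xx K 11 (-3 * t * u ^ 2) * z)))) := by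
  rw [← mul_assoc, c87]; simp only [mul_assoc]
theorem d97 : xx K 9 u * (xx K 7 t * z) = xx K 7 t * (xx K 9 u * (xx K 10 (-3 * t * u) * z)) := by
  rw [← mul_assoc, c97]; simp only [mul_assoc]
theorem d98 : xx K 9 u * (xx K 8 t * z) = xx K 8 t * (xx K 9 u * (xx K 11 (-3 * t * u) * z)) := by
  rw [← mul_assoc, c98]; simp only [mul_assoc]
theorem d106 : xx K 10 u * (xx K 6 t * z) = xx K 6 t * (xx K 10 u * (xx K 11 (-t * u) * z)) := by
  rw [← mul_assoc, c106]; simp only [mul_assoc]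
theorem d76 : xx K 7 u * (xx K 6 t * z) = xx K 6 t * (xx K 7 u * (xx K 8 (-t * u) * (xx K 9 (-t * u ^ 2) *
    (xx K 10 (t * u ^ 3) * (xx K 11 (-2 * t ^ 2 * u ^ 3) * z))))) := by
  rw [← mul_assoc, c76]; simp only [mul_assoc]
theorem d107 : xx K 10 u * (xx K 7 t * z) = xx K 7 t * (xx K 10 u * z) := by
  rw [← mul_assoc, c107]; simp only [mul_assoc]
theorem d117 : xx K 11 u * (xx K 7 t * z) = xx K 7 t * (xx K 11 u * z) := by
  rw [← mul_assoc, c117]; simp only [mul_assoc]
theorem d108 : xx K 10 u * (xx K 8 t * z) = xx K 8 t * (xx K 10 u * z) := by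
  rw [← mul_assoc, c108]; simp only [mul_assoc]
theorem d118 : xx K 11 u * (xx K 8 t * z) = xx K 8 t * (xx K 11 u * z) := by
  rw [← mul_assoc, c118]; simp only [mul_assoc]
theorem d109 : xx K 10 u * (xx K 9 t * z) = xx K 9 t * (xx K 10 u * z) := by
  rw [← mul_assoc, c109]; simp only [mul_assoc]
theorem d119 : xx K 11 u * (xx K 9 t * z) = xx K 9 t * (xx K 11 u * z) := by
  rw [← mul_assoc, c119]; simp only [mul_assoc]
theorem d1110 : xx K 11 u * (xx K 10 t * z) = xx K 10 t * (xx K 11 u * z) := by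
  rw [← mul_assoc, c1110]; simp only [mul_assoc]
theorem d86 : xx K 8 u * (xx K 6 t * z) = xx K 6 t * (xx K 8 u * z) := by
  rw [← mul_assoc, c86]; simp only [mul_assoc]
theorem d96 : xx K 9 u * (xx K 6 t * z) = xx K 6 t * (xx K 9 u * z) := by
  rw [← mul_assoc, c96]; simp only [mul_assoc]
theorem d116 : xx K 11 u * (xx K 6 t * z) = xx K 6 t * (xx K 11 u * z) := by
  rw [← mul_assoc, c116]; simp only [mul_assoc]

theorem xx_add' (s : ℕ) : xx K s t * (xx K s u * z) = xx K s (t + u) * z := by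
  rw [← mul_assoc, xx_add]

end

/-- the collected form -/
noncomputable def E (s a b c d : K) : ↥(chevG2.group K) :=
  xx K 7 s * (xx K 8 a * (xx K 9 b * (xx K 10 c * xx K 11 d)))

variable (s a b c d t : K)

theorem E_mul11 : E s a b c d * xx K 11 t = E s a b c (d + t) := by
  simp only [E, mul_assoc, xx_add]

theorem E_mul10 : E s a b c d * xx K 10 t = E s a b (c + t) d := by
  simp only [E, mul_assoc, c1110, xx_add']

theorem E_mul9 : E s a b c d * xx K 9 t = E s a (b + t) c d := by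
  simp only [E, mul_assoc, c119, d109, xx_add']

theorem E_mul8 : E s a b c d * xx K 8 t = E s (a + t) b c (-3 * t * b + d) := by
  simp only [E, mul_assoc, c118, d108, d98, xx_add', d1110, xx_add]

theorem E_mul7 : E s a b c d * xx K 7 t =
    E (s + t) a (2 * t * a + b) (-3 * t ^ 2 * a + (-3 * t * b + c)) (-3 * t * a ^ 2 + d) := by
  simp only [E, mul_assoc, c117, d107, d97, d87, xx_add', d1110, d109, d119, xx_add]

theorem E_conj7 : (xx K 7 t)⁻¹ * E 0 a b c d * xx K 7 t =
    E 0 a (2 * t * a + b) (-3 * t ^ 2 * a + (-3 * t * b + c)) (-3 * t * a ^ 2 + d) := by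
  rw [mul_assoc, E_mul7, xx_inv]
  unfold E
  rw [xx_add']
  congr 2
  ring

theorem E_conj6 : ∃ b' c' d' : K, (xx K 6 t)⁻¹ * E s a b c d * xx K 6 t = E s (a - t * s) b' c' d' := by
  have : ∃ b' c' d' : K, E s a b c d * xx K 6 t = xx K 6 t * E s (a - t * s) b' c' d' := by
    have e : a - t * s = -t * s + a := by ring
    simp only [E, mul_assoc, c116, d106, d96, d86, d76, xx_add', d1110, d109, d119, d118, d108, d98, xx_add]
    rw [e]
    exact ⟨_, _, _, rfl⟩
  obtain ⟨b', c', d', h⟩ := this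
  refine ⟨b', c', d', ?_⟩
  rw [mul_assoc, h]; group

/-! ### root groups -/

section

variable [Finite K] (p : ℕ) [Fact p.Prime] [CharP K p] {W : Type*} [Group W] (cs : CoxeterSystem CoxeterMatrix.G₂ W)

variable (K) in
/-- the root groups -/
noncomputable def XX (x : Fin 2 → ℤ) : Subgroup ↥(chevG2.group K) := (XV chevG2 2 K x).subgroupOf (chevG2.group K)

omit a b c d in
theorem xx_mem {r : ℕ} (hr : r < chevG2.nroots) (t : K) : xx K r t ∈ XX K (vec chevG2 2 r) :=
  (mem_X hG2 hr).2 ⟨t, rfl⟩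

theorem eq_xx {r : ℕ} (hr : r < chevG2.nroots) {g : ↥(chevG2.group K)} (hg : g ∈ XX K (vec chevG2 2 r)) :
    ∃ t : K, g = xx K r t := by
  obtain ⟨t, ht⟩ := (mem_X hG2 hr).1 hg
  exact ⟨t, Subtype.ext ht⟩

theorem xx_eq_one {r : ℕ} (hr : r < chevG2.nroots) {t : K} (h : xx K r t = 1) : t = 0 :=
  (xG_eq_one_iff hG2.inList hr t).1 (congrArg Subtype.val h)

theorem conj_xx (i : Fin 2) {r r' : ℕ} (hr : r < chevG2.nroots) (h : chevG2.reflectRoot i r = r') (t : K) :
    ∃ t' : K, (⟨nn hG2 K i, nn_mem_group hG2 i⟩ : ↥(chevG2.group K)) * xx K r t *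
      (⟨nn hG2 K i, nn_mem_group hG2 i⟩ : ↥(chevG2.group K))⁻¹ = xx K r' t' ∧ (t' = 0 → t = 0) := by
  have hr' : r' < chevG2.nroots := h ▸ reflectRoot_lt hG2.inList (lt_rank hG2 i) hr
  have h1 := cj_nn (K := K) hG2 i hr
  rw [h] at h1
  have h2 : nn hG2 K i * xG hG2.inList r t * (nn hG2 K i)⁻¹ ∈ XV chevG2 2 K (vec chevG2 2 r') := by
    rw [← h1, mem_cj]
    have e : (nn hG2 K i)⁻¹ * (nn hG2 K i * xG hG2.inList r t * (nn hG2 K i)⁻¹) * nn hG2 K i =
        xG hG2.inList r t := by group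
    rw [e, XV_vec hG2 K hr]
    exact xG_mem_rootSubgroup hG2.inList r t
  rw [XV_vec hG2 K hr', mem_rootSubgroup_iff hG2.inList] at h2
  obtain ⟨t', ht'⟩ := h2
  refine ⟨t', Subtype.ext ht', ?_⟩
  rintro rfl
  rw [xG_zero] at ht'
  refine (xG_eq_one_iff hG2.inList hr t).1 ?_
  have : xG hG2.inList r t = (nn hG2 K i)⁻¹ * (nn hG2 K i * xG hG2.inList r t * (nn hG2 K i)⁻¹) * nn hG2 K i := by
    group
  rw [this, ht']; group

theorem mem_VJ {i : Fin 2} {r : ℕ} (hr : r < chevG2.nroots) (h0 : ∀ k : Fin 2, 0 ≤ rt chevG2 r k)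
    (hj : ∃ k : Fin 2, k ≠ i ∧ 0 < rt chevG2 r k) (t : K) :
    xx K r t ∈ VJ cs hG2.isCartan (XX K) {i} := by
  obtain ⟨k, hk, hk'⟩ := hj
  exact RGD.le_Sup (S := NotJ cs hG2.isCartan {i}) ⟨isRoot_vec hG2 cs hr, h0, k, hk, hk'⟩ (xx_mem hr t)

theorem mem_U {r : ℕ} (hr : r < chevG2.nroots) (h0 : ∀ k : Fin 2, 0 ≤ rt chevG2 r k) (t : K) :
    xx K r t ∈ RGD.Sup (XX K) (RGD.Pos cs hG2.isCartan) :=
  RGD.le_Sup (S := RGD.Pos cs hG2.isCartan) ⟨isRoot_vec hG2 cs hr, h0⟩ (xx_mem hr t)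

theorem chk_pos : ∀ r < chevG2.nroots, (∀ k : Fin 2, 0 ≤ rt chevG2 r k) → (∃ k : Fin 2, k ≠ 1 ∧ 0 < rt chevG2 r k) →
    r = 7 ∨ r = 8 ∨ r = 9 ∨ r = 10 ∨ r = 11 := by decide +kernel

theorem eq_E {g : ↥(chevG2.group K)} (hg : g ∈ VJ cs hG2.isCartan (XX K) {1}) :
    ∃ s a b c d : K, g = E s a b c d := by
  have key : ∀ y : ↥(chevG2.group K), (∃ s a b c d : K, y = E s a b c d) →
      ∃ s a b c d : K, y * g = E s a b c d := by
    unfold VJ RGD.Sup at hg
    refine Subgroup.iSup_induction (C := fun g => ∀ y : ↥(chevG2.group K), (∃ s a b c d : K, y = E s a b c d) →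
      ∃ s a b c d : K, y * g = E s a b c d) _ hg ?_ ?_ ?_
    · rintro ⟨v, hv, h0, k, hk, hk'⟩ x hx y ⟨s, a, b, c, d, rfl⟩
      obtain ⟨r, hr, rfl⟩ := (isRoot_iff hG2 cs v).1 hv
      obtain ⟨t, rfl⟩ := eq_xx hr hx
      rcases chk_pos r hr h0 ⟨k, hk, hk'⟩ with rfl | rfl | rfl | rfl | rfl
      · exact ⟨_, _, _, _, _, E_mul7 ..⟩
      · exact ⟨_, _, _, _, _, E_mul8 ..⟩
      · exact ⟨_, _, _, _, _, E_mul9 ..⟩
      · exact ⟨_, _, _, _, _, E_mul10 ..⟩
      · exact ⟨_, _, _, _, _, E_mul11 ..⟩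
    · intro y hy; rw [mul_one]; exact hy
    · intro x y ihx ihy z hz; rw [← mul_assoc]; exact ihy _ (ihx _ hz)
  have := key 1 ⟨0, 0, 0, 0, 0, by simp [E, xx_zero]⟩
  rwa [one_mul] at this

theorem lt12 {r : ℕ} (h : r < 12) : r < chevG2.nroots := by rw [nr]; exact h

theorem posr : ∀ r : ℕ, 6 ≤ r → r < chevG2.nroots → ∀ k : Fin 2, 0 ≤ rt chevG2 r k := by
  have : ∀ r < chevG2.nroots, 6 ≤ r → ∀ k : Fin 2, 0 ≤ rt chevG2 r k := by decide +kernel
  exact fun r h1 h2 => this r h2 h1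

theorem good0 (h3 : (3 : K) ≠ 0) (hK : ∃ t : K, t ≠ 0 ∧ t ≠ 1) {r : Fin 2 → ℤ} {Z : Subgroup ↥(chevG2.group K)}
    (g1 : Good (rgd (K := K) hG2 cs p) r Z 1) : Good (rgd (K := K) hG2 cs p) r Z 0 := by
  have hWf : Finite W := finite_W hG2 cs
  intro u hu x hx
  have hDi : DD cs hG2.isCartan (XX K) u ⊆ VJ cs hG2.isCartan (XX K) {1} := g1 u hu
  by_contra hcon
  have mU : ∀ r : ℕ, 6 ≤ r → r < 12 → ∀ t : K, xx K r t ∈ RGD.Sup (XX K) (RGD.Pos cs hG2.isCartan) :=
    fun r h1 h2 t => mem_U cs (lt12 h2) (posr r h1 (lt12 h2)) t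
  -- the coordinate at `10`
  have k10 : ∀ a b c d : K, E 0 a b c d ∈ DD cs hG2.isCartan (XX K) u → c = 0 := by
    intro a b c d hE
    obtain ⟨a', ha, -⟩ := conj_xx 0 (r := 8) (r' := 9) (lt12 (by norm_num)) (by decide +kernel) a
    obtain ⟨b', hb, -⟩ := conj_xx 0 (r := 9) (r' := 8) (lt12 (by norm_num)) (by decide +kernel) b
    obtain ⟨c', hc, hc0⟩ := conj_xx 0 (r := 10) (r' := 6) (lt12 (by norm_num)) (by decide +kernel) c
    obtain ⟨d', hd, -⟩ := conj_xx 0 (r := 11) (r' := 11) (lt12 (by norm_num)) (by decide +kernel) d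
    set n : ↥(chevG2.group K) := ⟨nn hG2 K 0, nn_mem_group hG2 0⟩ with hn
    have e : n * E 0 a b c d * n⁻¹ = xx K 9 a' * (xx K 8 b' * (xx K 6 c' * xx K 11 d')) := by
      rw [← ha, ← hb, ← hc, ← hd]
      unfold E
      rw [xx_zero]
      group
    have h1 : n * E 0 a b c d * n⁻¹ ∈ DD cs hG2.isCartan (XX K) u := by
      refine DD_conj hE ?_
      rw [e]
      exact mul_mem (mU 9 (by norm_num) (by norm_num) _) (mul_mem (mU 8 (by norm_num) (by norm_num) _)
        (mul_mem (mU 6 (by norm_num) (by norm_num) _) (mU 11 (by norm_num) (by norm_num) _)))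
    have h2 := hDi h1
    rw [e] at h2
    have v9 : xx K 9 a' ∈ VJ cs hG2.isCartan (XX K) {1} := mem_VJ cs (lt12 (by norm_num))
      (posr 9 (by norm_num) (lt12 (by norm_num))) (by decide +kernel) a'
    have v8 : xx K 8 b' ∈ VJ cs hG2.isCartan (XX K) {1} := mem_VJ cs (lt12 (by norm_num))
      (posr 8 (by norm_num) (lt12 (by norm_num))) (by decide +kernel) b'
    have v11 : xx K 11 d' ∈ VJ cs hG2.isCartan (XX K) {1} := mem_VJ cs (lt12 (by norm_num))
      (posr 11 (by norm_num) (lt12 (by norm_num))) (by decide +kernel) d'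
    have v6 : xx K 6 c' ∈ VJ cs hG2.isCartan (XX K) {1} :=
      (Subgroup.mul_mem_cancel_right _ v11).1 ((Subgroup.mul_mem_cancel_left _ v8).1
        ((Subgroup.mul_mem_cancel_left _ v9).1 h2))
    have m6 : xx K 6 c' ∈ XX K (sr 1) := by
      have := xx_mem (K := K) (r := 6) (lt12 (by norm_num)) c'
      have e6 : vec chevG2 2 6 = sr 1 := by
        rw [← vec_simple hG2 1]
        exact congrArg (vec chevG2 2) simpleG.2.symm
      rwa [e6] at this
    have h6 : xx K 6 c' = 1 := X_inf_VJ (rgd (K := K) hG2 cs p) m6 v6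
    exact hc0 (xx_eq_one (lt12 (by norm_num)) h6)
  obtain ⟨s, a, b, c, d, rfl⟩ := eq_E cs (hDi hx)
  have hs : s ≠ 0 := by
    rintro rfl
    apply hcon
    unfold E
    rw [xx_zero, one_mul]
    have v : ∀ r : ℕ, 8 ≤ r → r < 12 → ∀ t : K, xx K r t ∈ VJ cs hG2.isCartan (XX K) {0} := by
      intro r h1 h2 t
      refine mem_VJ cs (lt12 h2) (posr r (by omega) (lt12 h2)) ?_ t
      have h3 : ∀ r < 12, 8 ≤ r → ∃ k : Fin 2, k ≠ 0 ∧ 0 < rt chevG2 r k := by decide +kernel
      exact h3 r h2 h1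
    exact mul_mem (v 8 (by norm_num) (by norm_num) _) (mul_mem (v 9 (by norm_num) (by norm_num) _)
        (mul_mem (v 10 (by norm_num) (by norm_num) _) (v 11 (by norm_num) (by norm_num) _)))
  obtain ⟨b1, c1, d1, h1⟩ := E_conj6 s a b c d (a / s)
  have e1 : a - a / s * s = 0 := by rw [div_mul_cancel₀ _ hs, sub_self]
  rw [e1] at h1
  have hx1 : E s 0 b1 c1 d1 ∈ DD cs hG2.isCartan (XX K) u := by
    rw [← h1]
    have := DD_conj (k := (xx K 6 (a / s))⁻¹) hx (by
      have h6 := mU 6 (by norm_num) (by norm_num) (a / s)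
      exact mul_mem (mul_mem (inv_mem h6) hx.1) (inv_mem (inv_mem h6)))
    rwa [inv_inv] at this
  obtain ⟨s', hs', hs0⟩ := conj_xx 1 (r := 7) (r' := 8) (lt12 (by norm_num)) (by decide +kernel) s
  obtain ⟨b', hb', -⟩ := conj_xx 1 (r := 9) (r' := 9) (lt12 (by norm_num)) (by decide +kernel) b1
  obtain ⟨c', hc', -⟩ := conj_xx 1 (r := 10) (r' := 11) (lt12 (by norm_num)) (by decide +kernel) c1
  obtain ⟨d', hd', -⟩ := conj_xx 1 (r := 11) (r' := 10) (lt12 (by norm_num)) (by decide +kernel) d1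
  have hs1 : s' ≠ 0 := fun h => hs (hs0 h)
  set n : ↥(chevG2.group K) := ⟨nn hG2 K 1, nn_mem_group hG2 1⟩ with hn
  have e2 : n * E s 0 b1 c1 d1 * n⁻¹ = E 0 s' b' d' c' := by
    unfold E
    rw [xx_zero, xx_zero, one_mul, one_mul, ← c1110, ← hs', ← hb', ← hc', ← hd']
    group
  have hx2 : E 0 s' b' d' c' ∈ DD cs hG2.isCartan (XX K) u := by
    rw [← e2]
    refine DD_conj hx1 ?_
    rw [e2]
    exact mul_mem (mU 7 (by norm_num) (by norm_num) _) (mul_mem (mU 8 (by norm_num) (by norm_num) _)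
      (mul_mem (mU 9 (by norm_num) (by norm_num) _) (mul_mem (mU 10 (by norm_num) (by norm_num) _)
        (mU 11 (by norm_num) (by norm_num) _))))
  have hx3 : ∀ t : K, -3 * t ^ 2 * s' + (-3 * t * b' + d') = 0 := by
    intro t
    refine k10 s' (2 * t * s' + b') _ (-3 * t * s' ^ 2 + c') ?_
    rw [← E_conj7]
    have := DD_conj (k := (xx K 7 t)⁻¹) hx2 (by
      have h6 := mU 7 (by norm_num) (by norm_num) t
      exact mul_mem (mul_mem (inv_mem h6) hx2.1) (inv_mem (inv_mem h6)))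
    rwa [inv_inv] at this
  obtain ⟨t, ht0, ht1⟩ := hK
  have f0 := hx3 0
  have f1 := hx3 1
  have ft := hx3 t
  have g0 : d' = 0 := by linear_combination f0
  subst g0
  have g1 : s' + b' = 0 := by
    have : 3 * (s' + b') = 0 := by linear_combination -f1
    exact (mul_eq_zero.1 this).resolve_left h3
  have g2 : t * s' + b' = 0 := by
    have : 3 * t * (t * s' + b') = 0 := by linear_combination -ft
    exact (mul_eq_zero.1 this).resolve_left (mul_ne_zero h3 ht0)
  have g3 : (t - 1) * s' = 0 := by linear_combination g2 - g1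
  exact hs1 ((mul_eq_zero.1 g3).resolve_left (sub_ne_zero.2 ht1))

end

theorem cl_G2 (K : Type u) [Field K] [Finite K] (p : ℕ) [CharP K p] (hK : 3 ≤ Nat.card K)
    [Finite ↥(chevG2.group K)] [IsSimpleGroup ↥(chevG2.group K)] : KLat.CL ↥(chevG2.group K) := by
  by_cases h3 : (3 : K) = 0
  · exact cl_G2_three K p h3
  by_cases hc : ∀ a b : ↥(chevG2.group K), a * b = b * a
  · exact cl_of_comm hc
  have : Fact p.Prime := ⟨CharP.char_is_prime K p⟩
  set cs := (CoxeterMatrix.G₂).toCoxeterSystem with hcs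
  have hWf : Finite (CoxeterMatrix.G₂).Group := finite_W hG2 cs
  set R := rgd (K := K) hG2 cs p with hR
  have hX := G1_eq_top (K := K) hG2 cs
  have hconn := conn_of_simple R hX (center_bot hc)
  have hG : GG cs hG2.isCartan ((chevG2.diagonalSubgroup K).subgroupOf (chevG2.group K))
      (fun x => (XV chevG2 2 K x).subgroupOf (chevG2.group K)) = ⊤ := by
    rw [eq_top_iff, ← hX]; exact le_sup_right
  have h11 : 11 < chevG2.nroots := by decide +kernel
  obtain ⟨s0, s1⟩ := simpleG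
  have C := cls_chev (K := K) hG2 p cs 0 (by simp) chk11
  obtain ⟨w1, hw1⟩ := exists_w hG2 cs h11 1 (s := 6) s1 walkG1
  have g1 : Good R (vec chevG2 2 11) _ 1 := good_of_class C.long hG hw1
  have ht : ∃ t : K, t ≠ 0 ∧ t ≠ 1 := by
    classical
    by_contra hcon
    push Not at hcon
    have := Fintype.ofFinite K
    have h1 : (Finset.univ : Finset K) ⊆ {0, 1} := by
      intro t _
      rw [Finset.mem_insert, Finset.mem_singleton]
      by_cases h0 : t = 0
      · exact Or.inl h0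
      · exact Or.inr (hcon t h0)
    have h2 := Finset.card_le_card h1
    rw [Finset.card_univ, ← Nat.card_eq_fintype_card] at h2
    have h3 := Finset.card_le_two (a := (0 : K)) (b := 1)
    omega
  have g0 : Good R (vec chevG2 2 11) _ 0 := good0 p cs h3 ht g1
  refine cl_of_good R hX hconn C ?_
  intro i
  fin_cases i
  · exact g0
  · exact g1

end Cfsg.Agent.H939.InstG2
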