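import Mathlib
import Cfsg.Prelude.Def_Classification2
import Cfsg.Agent.H939.InstClass
import Cfsg.Agent.H939.InstG2
import Cfsg.Agent.H939.InstE6Tw
import Cfsg.Agent.H939.InstD4Tw
import Cfsg.Agent.H724.AltCL
import Cfsg.Agent.H753.ClRankRows
import Cfsg.Agent.H99.CL2F4

/-!
Complemented subgroup lattices (S5900): all families.
-/

set_option autoImplicit false
set_option linter.unusedSectionVars false

namespace Cfsg.Agent.H939.LieAll

open Cfsg.Lie

variable {G : Type} [Group G] [Finite G] [IsSimpleGroup G]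

theorem transfer {Q : Type*} [Group Q] (e : G ≃* Q) (h : ∀ [Finite Q] [IsSimpleGroup Q], KLat.CL Q) : KLat.CL G := by
  have : Finite Q := Finite.of_equiv G e.toEquiv
  have : IsSimpleGroup Q := e.symm.isSimpleGroup
  exact KLat.of_equiv e.symm h

theorem exists_char (F : Type) [Field F] [Fintype F] : ∃ p : ℕ, Fact p.Prime ∧ CharP F p := by
  obtain ⟨p, hp⟩ := CharP.exists F
  exact ⟨p, ⟨CharP.char_is_prime F p⟩, hp⟩

theorem cl_alt (h : Cfsg.IsAlternating G) : KLat.CL G := by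
  obtain ⟨n, hn, ⟨e⟩⟩ := h
  exact KLat.of_equiv e.symm (H724.AltCL.cl_alt n hn)

theorem cl_PSL (h : Cfsg.IsPSL G) : KLat.CL G := by
  obtain ⟨F, _, _, n, hn, -, ⟨e⟩⟩ := h
  obtain ⟨p, _, _⟩ := exists_char F
  rcases hn.eq_or_lt with rfl | hn
  · exact H753.ClRank.cl_PSL2 e
  · obtain ⟨k, rfl⟩ : ∃ k, n = k + 1 := ⟨n - 1, by omega⟩
    exact transfer e (InstSL.cl_PSL' k (by omega) (p := p))

theorem cl_PSp (h : Cfsg.IsPSp G) : KLat.CL G := by
  obtain ⟨F, _, _, m, hm, -, ⟨e⟩⟩ := h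
  obtain ⟨p, _, _⟩ := exists_char F
  exact transfer e (InstClass.cl_PSp hm (p := p))

theorem cl_PSU (h : Cfsg.IsPSU G) : KLat.CL G := by
  obtain ⟨F, _, _, n, q, hF, hn, -, ⟨e⟩⟩ := h
  obtain ⟨p, _, _⟩ := exists_char F
  exact transfer e (InstClass.cl_PSU hF hn (p := p))

theorem cl_POdd (h : Cfsg.IsPOmegaOdd G) : KLat.CL G := by
  obtain ⟨F, _, _, m, hm, hodd, ⟨e⟩⟩ := h
  obtain ⟨p, _, _⟩ := exists_char F
  have h2 : (2 : F) ≠ 0 := by
    intro h2
    have h3 : CharP F 2 := CharTwo.of_one_ne_zero_of_two_eq_zero one_ne_zero h2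
    have h4 := (CharP.cast_eq_zero_iff F 2 (Fintype.card F)).1 (Nat.cast_card_eq_zero F)
    rw [← Nat.not_even_iff_odd] at hodd
    exact hodd (even_iff_two_dvd.2 h4)
  exact transfer e (InstClass.cl_PO_odd h2 (by omega) (p := p))

theorem cl_PPlus (h : Cfsg.IsPOmegaPlus G) : KLat.CL G := by
  obtain ⟨F, _, _, m, hm, ⟨e⟩⟩ := h
  obtain ⟨p, _, _⟩ := exists_char F
  obtain ⟨k, rfl⟩ : ∃ k, m = k + 3 := ⟨m - 3, by omega⟩
  exact transfer e (InstSL.cl_PO_plus k (p := p))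

theorem cl_PMinus (h : Cfsg.IsPOmegaMinus G) : KLat.CL G := by
  obtain ⟨F, _, _, m, a, b, hm, hab, ⟨e⟩⟩ := h
  obtain ⟨p, _, _⟩ := exists_char F
  exact transfer e (InstClass.cl_PO_minus a b hab (by omega) (p := p))

theorem cl_G2 (h : IsoChevG2 G) : KLat.CL G := by
  obtain ⟨F, _, _, hF, ⟨e⟩⟩ := h
  obtain ⟨p, _, _⟩ := exists_char F
  exact transfer e (InstG2.cl_G2 F p (by rwa [Nat.card_eq_fintype_card]))

theorem cl_F4 (h : IsoF4 G) : KLat.CL G := by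
  obtain ⟨F, _, _, ⟨e⟩⟩ := h
  obtain ⟨p, _, _⟩ := exists_char F
  exact transfer e (InstF4.cl_F4 F p)

theorem cl_E6 (h : IsoChevE6 G) : KLat.CL G := by
  obtain ⟨F, _, _, ⟨e⟩⟩ := h
  obtain ⟨p, _, _⟩ := exists_char F
  exact transfer e (InstSL.cl_E6 F p)

theorem cl_E7 (h : IsoE7 G) : KLat.CL G := by
  obtain ⟨F, _, _, ⟨e⟩⟩ := h
  obtain ⟨p, _, _⟩ := exists_char F
  exact transfer e (InstSL.cl_E7 F p)

theorem cl_E8 (h : IsoE8 G) : KLat.CL G := by
  obtain ⟨F, _, _, ⟨e⟩⟩ := h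
  obtain ⟨p, _, _⟩ := exists_char F
  exact transfer e (InstSL.cl_E8 F p)

theorem cl_2E6 (h : Iso2E6 G) : KLat.CL G := by
  obtain ⟨F, _, _, q, hq, hF, ⟨e⟩⟩ := h
  exact transfer e (InstE6Tw.cl_E6 F hq hF)

/-- all families but the Tits group -/
theorem cl_lie (hT : IsoTits G → KLat.CL G) (h : Cfsg.IsKnownSimple' G) :
    KLat.CL G ∨ Cfsg.IsSporadicGroup G := by
  rcases h with h | h | h | h | h | h | h | h | h | h
  · exact Or.inl (KLat.of_prime h)
  · exact Or.inl (cl_alt h)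
  · exact Or.inl (cl_PSL h)
  · exact Or.inl (cl_PSp h)
  · exact Or.inl (cl_PSU h)
  · exact Or.inl (cl_POdd h)
  · exact Or.inl (cl_PPlus h)
  · exact Or.inl (cl_PMinus h)
  · left
    rcases h with h | h | h | h | h | h | h | h | h | h | h
    · exact cl_G2 h
    · exact cl_F4 h
    · exact cl_E6 h
    · exact cl_E7 h
    · exact cl_E8 h
    · exact cl_2E6 h
    · exact InstD4Tw.cl_3D4 h
    · exact H753.ClRank.cl_Suzuki h
    · exact H753.ClRank.cl_Ree h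
    · exact H99.CL2F4.cl_2F4 h
    · exact hT h
  · exact Or.inr h

end Cfsg.Agent.H939.LieAll
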