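import Cfsg.Agent.H808.ClCore

/-!
# Complemented subgroup lattices: Ru and the Monster (helper939, S5900), cores
-/

set_option autoImplicit false

namespace Cfsg.Agent.H939.SporB

open Subgroup Cfsg Cfsg.Agent.OrdDiv Cfsg.Agent.H808.GoodCL Cfsg.Agent.H808.GoodNum Cfsg.Agent.H808.ClCore
open Cfsg.Agent.H939.KLat

variable {G : Type} [Group G] [Finite G] [IsSimpleGroup G]

/-- **Ru** -/
theorem cl_ru (hN : Nat.card G = 145926144000) (T : OrderTable.{0}) (hK : Known.{0}) (M : MultPSL)
    (hb : Below (Nat.card G)) : CL G := by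
  have hp : Nat.Prime 29 := by norm_num
  refine cl_of_list (not_comm hN hp (by norm_num) (by norm_num)) hb T hK hN
    [(2,14),(3,3),(5,3),(7,1),(13,1),(29,1)] (by decide +kernel) hp (by norm_num) (by norm_num)
    (by decide +kernel) fun Y hY g hg hr _ => ?_
  rw [show qc [(2,14),(3,3),(5,3),(7,1),(13,1),(29,1)] 145926144000 29 = [.psl 2 29] by decide +kernel,
    List.mem_singleton] at hg
  subst hg
  exact one_or_prime Nat.prime_two ((center_psl M hY le_rfl (by norm_num) (by simp) hr).trans (by norm_num))

/-- **the Monster** -/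
theorem cl_m (hN : Nat.card G = 808017424794512875886459904961710757005754368000000000) (T : OrderTable.{0})
    (hK : Known.{0}) (M : MultPSL) (hb : Below (Nat.card G)) : CL G := by
  have hp : Nat.Prime 59 := by norm_num
  refine cl_of_list (not_comm hN hp (by norm_num) (by norm_num)) hb T hK hN
    [(2,46),(3,20),(5,9),(7,6),(11,2),(13,3),(17,1),(19,1),(23,1),(29,1),(31,1),(41,1),(47,1),(59,1),(71,1)]
    (by decide +kernel) hp (by norm_num) (by norm_num)
    (by decide +kernel) fun Y hY g hg hr _ => ?_
  rw [show qc [(2,46),(3,20),(5,9),(7,6),(11,2),(13,3),(17,1),(19,1),(23,1),(29,1),(31,1),(41,1),(47,1),(59,1),(71,1)]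
    808017424794512875886459904961710757005754368000000000 59 = [.psl 2 59] by decide +kernel,
    List.mem_singleton] at hg
  subst hg
  exact one_or_prime Nat.prime_two ((center_psl M hY le_rfl (by norm_num) (by simp) hr).trans (by norm_num))

end Cfsg.Agent.H939.SporB
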